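import Mathlib

/-!
# The arithmetic lemma for groups with three TI subgroups

`no_solution`: there is no identity `∑ 1/c + 1/9 = 1/10 + 1/(4a) + 1/(4b) - 1/(45·2^T·ab)` with
at most three denominators dividing `9·2^T` under the side conditions on `a, b, T`.

The two small values of `a` are handled by a gap between `1/(4a) - 1/90` and the sums of at most
three admissible unit fractions above it (`gapCheck`), which bounds `b`; the rest is a finite
check.
-/

set_option autoImplicit false

namespace CfsgLib.TISuzuki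

/-- The numbers `2^e·3^f` with `e ≤ 40` and `f ≤ 2`. -/
def smallDenoms : List ℕ :=
  (List.range 41).flatMap fun e => (List.range 3).map fun f => 2 ^ e * 3 ^ f

/-- Every sum of at most `k` admissible unit fractions exceeding `n/d` exceeds it by `gn/gd`. -/
def gapCheck (gn gd : ℕ) : ℕ → ℕ → ℕ → Bool
  | 0, _, _ => true
  | k + 1, n, d => decide ((k + 1) * d ≤ n * 2 ^ 41) && smallDenoms.all fun c =>
      if c * n < (k + 1) * d then
        if c * n < d then decide (c * n * gd + c * gn * d ≤ d * gd)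
        else if c * n = d then false else gapCheck gn gd k (n * c - d) (d * c)
      else true

theorem mem_smallDenoms {c T : ℕ} (h : c ∣ 9 * 2 ^ T) (hc : c < 2 ^ 41) : c ∈ smallDenoms := by
  obtain ⟨x, y, hx, hy, rfl⟩ := Nat.dvd_mul.mp h
  obtain ⟨e, -, rfl⟩ := (Nat.dvd_prime_pow Nat.prime_two).mp hy
  obtain ⟨f, hf, rfl⟩ := (Nat.dvd_prime_pow Nat.prime_three).mp (by simpa using hx : x ∣ 3 ^ 2)
  have he : e < 41 := by
    by_contra hcon
    have h1 : 2 ^ 41 ≤ 2 ^ e := Nat.pow_le_pow_right (by norm_num) (by omega)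
    have h2 : 2 ^ e ≤ 3 ^ f * 2 ^ e := Nat.le_mul_of_pos_left _ (by positivity)
    omega
  rw [smallDenoms, List.mem_flatMap]
  exact ⟨e, List.mem_range.mpr he,
    List.mem_map.mpr ⟨f, List.mem_range.mpr (by omega), mul_comm _ _⟩⟩

theorem gap_of_check (gn gd T : ℕ) (hgd : 0 < gd) : ∀ (k n d : ℕ),
    gapCheck gn gd k n d = true → 0 < d → ∀ cs : List ℕ, cs.length ≤ k →
      (∀ c ∈ cs, c ∣ 9 * 2 ^ T) → (n : ℚ) / d < (cs.map fun c : ℕ => (1 : ℚ) / c).sum →
      (n : ℚ) / d + (gn : ℚ) / gd ≤ (cs.map fun c : ℕ => (1 : ℚ) / c).sum := by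
  intro k
  induction k with
  | zero =>
    intro n d _ hd cs hlen _ hlt
    have hcs : cs = [] := List.length_eq_zero_iff.mp (Nat.le_zero.mp hlen)
    subst hcs
    simp only [List.map_nil, List.sum_nil] at hlt
    exact absurd hlt (not_lt.mpr (by positivity))
  | succ k ih =>
    intro n d hchk hd cs hlen hdvd hlt
    simp only [gapCheck, Bool.and_eq_true, decide_eq_true_eq, List.all_eq_true] at hchk
    obtain ⟨hbig, hall⟩ := hchk
    have hdq : (0 : ℚ) < d := by exact_mod_cast hd
    -- a summand above the average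
    obtain ⟨c, hc, hcn⟩ : ∃ c ∈ cs, (n : ℚ) / d < ((k + 1 : ℕ) : ℚ) * (1 / (c : ℚ)) := by
      by_contra hcon
      push Not at hcon
      have h1 : (cs.map fun c : ℕ => (1 : ℚ) / c).sum ≤
          (cs.map fun c : ℕ => (1 : ℚ) / c).length • ((n : ℚ) / d / ((k + 1 : ℕ) : ℚ)) := by
        refine List.sum_le_card_nsmul _ _ fun y hy => ?_
        obtain ⟨c, hc, rfl⟩ := List.mem_map.mp hy
        rw [le_div_iff₀ (by positivity : (0 : ℚ) < ((k + 1 : ℕ) : ℚ)), mul_comm]
        exact hcon c hc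
      rw [nsmul_eq_mul, List.length_map] at h1
      have h2 : (cs.length : ℚ) * ((n : ℚ) / d / ((k + 1 : ℕ) : ℚ)) ≤ (n : ℚ) / d := by
        calc (cs.length : ℚ) * ((n : ℚ) / d / ((k + 1 : ℕ) : ℚ))
            ≤ ((k + 1 : ℕ) : ℚ) * ((n : ℚ) / d / ((k + 1 : ℕ) : ℚ)) :=
              mul_le_mul_of_nonneg_right (by exact_mod_cast hlen) (by positivity)
          _ = (n : ℚ) / d := mul_div_cancel₀ _ (by positivity)
      linarith
    have hc0 : 0 < c := Nat.pos_of_dvd_of_pos (hdvd c hc) (by positivity)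
    have hcq : (0 : ℚ) < c := by exact_mod_cast hc0
    have hcn' : c * n < (k + 1) * d := by
      rw [mul_one_div, div_lt_div_iff₀ hdq hcq] at hcn
      exact_mod_cast (show (c : ℚ) * n < ((k + 1 : ℕ) : ℚ) * d by linarith)
    have hc41 : c < 2 ^ 41 := Nat.lt_of_mul_lt_mul_left (a := n) (by
      rw [mul_comm n c]; exact lt_of_lt_of_le hcn' hbig)
    have hthis := hall c (mem_smallDenoms (hdvd c hc) hc41)
    rw [if_pos hcn'] at hthis
    have hperm : (cs.map fun c : ℕ => (1 : ℚ) / c).sum =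
        1 / (c : ℚ) + ((cs.erase c).map fun c : ℕ => (1 : ℚ) / c).sum := by
      rw [((List.perm_cons_erase hc).map _).sum_eq, List.map_cons, List.sum_cons]
    have hrest : (0 : ℚ) ≤ ((cs.erase c).map fun c : ℕ => (1 : ℚ) / c).sum :=
      List.sum_nonneg fun y hy => by
        obtain ⟨e, -, rfl⟩ := List.mem_map.mp hy
        positivity
    rw [hperm] at hlt ⊢
    by_cases h1 : c * n < d
    · rw [if_pos h1, decide_eq_true_eq] at hthis
      have h2 : (c : ℚ) * n * gd + c * gn * d ≤ d * gd := by exact_mod_cast hthis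
      have hgq : (0 : ℚ) < gd := by exact_mod_cast hgd
      have h3 : (n : ℚ) / d + (gn : ℚ) / gd ≤ 1 / (c : ℚ) := by
        rw [div_add_div _ _ hdq.ne' hgq.ne', div_le_div_iff₀ (by positivity) hcq]
        nlinarith [h2]
      linarith
    · rw [if_neg h1] at hthis
      by_cases h2 : c * n = d
      · rw [if_pos h2] at hthis
        exact absurd hthis (by simp)
      rw [if_neg h2] at hthis
      have hle : d ≤ n * c := by rw [mul_comm]; omega
      have hdiff : ((n * c - d : ℕ) : ℚ) / ((d * c : ℕ) : ℚ) = (n : ℚ) / d - 1 / (c : ℚ) := by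
        rw [Nat.cast_sub hle]
        push_cast
        field_simp
      have hlen' : (cs.erase c).length ≤ k := by
        rw [List.length_erase_of_mem hc]; omega
      have := ih (n * c - d) (d * c) hthis (Nat.mul_pos hd hc0) (cs.erase c) hlen'
        (fun e he => hdvd e (List.mem_of_mem_erase he)) (by rw [hdiff]; linarith)
      rw [hdiff] at this
      linarith

/-- The finite search for `a ∈ {13, 17}`: the quotient `q` determines `b`. -/
def searchSmall (a B : ℕ) : Bool :=
  (List.range' 7 19).all fun T => (List.range (75 * a * a / 4 + 2 - 25 * a * a / 4)).all fun i =>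
    let q := 25 * a * a / 4 + i
    let N := 45 * 2 ^ (T - 2) * a - 1
    if N % q = 0 then
      let b := N / q
      !(decide (b < B ∧ a < b ∧ b % 4 = 1 ∧ b % 3 ≠ 0 ∧ b % 5 ≠ 0 ∧ 5 * a * b < 9 * 2 ^ T ∧
        9 * 2 ^ T ≤ 15 * a * b ∧ (45 * 2 ^ (T - 2) * b - 1) % a = 0))
    else true

/-- The finite search for `a ∈ {29, 37, 41}`. -/
def searchLarge (a : ℕ) : Bool :=
  (List.range' 7 19).all fun T => (List.range 102).all fun b =>
    !(decide (a < b ∧ b % 4 = 1 ∧ b % 3 ≠ 0 ∧ b % 5 ≠ 0 ∧ 5 * a * b < 9 * 2 ^ T ∧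
      9 * 2 ^ T ≤ 15 * a * b ∧ (45 * 2 ^ (T - 2) * a - 1) % b = 0 ∧
      (45 * 2 ^ (T - 2) * b - 1) % a = 0))

theorem searchSmall_thirteen : searchSmall 13 13615 = true := by decide +kernel

theorem searchSmall_seventeen : searchSmall 17 1591591 = true := by decide +kernel

theorem searchLarge_all : ∀ a ∈ ([29, 37, 41] : List ℕ), searchLarge a = true := by
  decide +kernel

theorem gapCheck_thirteen : gapCheck 11 599040 3 19 2340 = true := by decide +kernel

theorem gapCheck_seventeen : gapCheck 7 44564480 3 11 3060 = true := by decide +kernel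

/-- The bound on `b` from a gap. -/
theorem lt_of_gap {gn gd n d a b T B : ℕ} (hgn : 0 < gn) (hgd : 0 < gd) (hd : 0 < d)
    (hchk : gapCheck gn gd 3 n d = true) (hB : gd < 4 * gn * B)
    (hD : (n : ℚ) / d = 1 / (4 * (a : ℚ)) - 1 / 90) (ha : 0 < a) (hb : 0 < b) {cs : List ℕ}
    (hlen : cs.length ≤ 3) (hcs : ∀ c ∈ cs, c ∣ 9 * 2 ^ T)
    (heq : (cs.map fun c : ℕ => (1 : ℚ) / c).sum + 1 / 9 = 1 / 10 + 1 / (4 * (a : ℚ)) +
      1 / (4 * (b : ℚ)) - 1 / (5 * ((a : ℚ) * b) * (9 * 2 ^ T))) : b < B := by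
  set S := (cs.map fun c : ℕ => (1 : ℚ) / c).sum
  set e := (1 : ℚ) / (5 * ((a : ℚ) * b) * (9 * 2 ^ T))
  have hbq : (0 : ℚ) < b := by exact_mod_cast hb
  have ha1 : (1 : ℚ) ≤ a := by exact_mod_cast ha
  have he0 : 0 < e := by positivity
  have he1 : e < 1 / (4 * (b : ℚ)) := by
    refine one_div_lt_one_div_of_lt (by positivity) ?_
    have h2 : (1 : ℚ) ≤ 2 ^ T := one_le_pow₀ (by norm_num)
    have h3 : (b : ℚ) ≤ (a : ℚ) * b * 2 ^ T := by
      nlinarith [mul_le_mul ha1 h2 zero_le_one (by linarith)]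
    nlinarith
  have hS : S = (n : ℚ) / d + 1 / (4 * (b : ℚ)) - e := by rw [hD]; linarith
  have hgap := gap_of_check gn gd T hgd 3 n d hchk hd cs hlen hcs (by linarith)
  have _ := hgn
  have h1 : (gn : ℚ) / gd < 1 / (4 * (b : ℚ)) := by linarith
  rw [div_lt_div_iff₀ (by exact_mod_cast hgd) (by positivity)] at h1
  have h2 : gn * (4 * b) < gd := by exact_mod_cast (show (gn : ℚ) * (4 * b) < gd by linarith)
  nlinarith

theorem no_solution {a b T : ℕ} (ha : 9 < a) (hab : a < b) (ha4 : a % 4 = 1) (hb4 : b % 4 = 1)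
    (hc : Nat.Coprime a b) (ha30 : Nat.Coprime a 30) (hb30 : Nat.Coprime b 30)
    (hlo : 5 * a * b < 9 * 2 ^ T) (hhi : 9 * 2 ^ T ≤ 15 * a * b) (cs : List ℕ)
    (hlen : cs.length ≤ 3) (hcs : ∀ c ∈ cs, c ∣ 9 * 2 ^ T)
    (heq : (cs.map fun c : ℕ => (1:ℚ) / c).sum + 1/9 =
      1/10 + 1/(4*a) + 1/(4*b) - 1/(5*(a*b)*(9*2^T))) : False := by
  have hb3 : b % 3 ≠ 0 := fun h => by
    have := Nat.dvd_gcd (Nat.dvd_of_mod_eq_zero h) (by norm_num : 3 ∣ 30)
    rw [hb30.gcd_eq_one] at this
    omega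
  have hb5 : b % 5 ≠ 0 := fun h => by
    have := Nat.dvd_gcd (Nat.dvd_of_mod_eq_zero h) (by norm_num : 5 ∣ 30)
    rw [hb30.gcd_eq_one] at this
    omega
  have ha3 : a % 3 ≠ 0 := fun h => by
    have := Nat.dvd_gcd (Nat.dvd_of_mod_eq_zero h) (by norm_num : 3 ∣ 30)
    rw [ha30.gcd_eq_one] at this
    omega
  have ha5 : a % 5 ≠ 0 := fun h => by
    have := Nat.dvd_gcd (Nat.dvd_of_mod_eq_zero h) (by norm_num : 5 ∣ 30)
    rw [ha30.gcd_eq_one] at this
    omega
  have hab0 : 13 ≤ a := by omega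
  -- `T` is at least `7`
  have hT7 : 7 ≤ T := by
    by_contra hT
    have h1 : 2 ^ T ≤ 2 ^ 6 := Nat.pow_le_pow_right (by norm_num) (by omega)
    have h2 : 13 * 14 ≤ a * b := Nat.mul_le_mul hab0 (by omega)
    nlinarith
  -- clearing denominators
  obtain ⟨P, hP⟩ : ∃ P, P = 2 ^ (T - 2) := ⟨_, rfl⟩
  have hTP : 2 ^ T = 4 * P := by
    rw [hP, show (4 : ℕ) = 2 ^ 2 by norm_num, ← pow_add]
    congr 1
    omega
  obtain ⟨K, hK⟩ : ∃ K : ℕ, (cs.map fun c : ℕ => (1 : ℚ) / c).sum = (K : ℚ) / (9 * (4 * P) : ℕ) := by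
    refine ⟨(cs.map fun c => 9 * (4 * P) / c).sum, ?_⟩
    rw [Nat.cast_list_sum, List.map_map, div_eq_mul_inv, ← List.sum_map_mul_right]
    refine congrArg List.sum (List.map_congr_left fun c hc => ?_)
    have hdvd : c ∣ 9 * (4 * P) := hTP ▸ hcs c hc
    have hP0 : 0 < P := hP ▸ Nat.two_pow_pos _
    have hc0 : c ≠ 0 := fun h => by
      rw [h, zero_dvd_iff] at hdvd
      omega
    have hc0q : (c : ℚ) ≠ 0 := by exact_mod_cast hc0
    simp only [Function.comp]
    rw [Nat.cast_div hdvd hc0q]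
    field_simp
  have hmain : 5 * a * b * K + 20 * P * a * b + 1 = 18 * P * a * b + 45 * P * a + 45 * P * b := by
    have h1 := heq
    rw [hK] at h1
    have hP0 : (0 : ℚ) < P := by rw [hP]; positivity
    have haq : (0 : ℚ) < a := by exact_mod_cast (by omega : 0 < a)
    have hbq : (0 : ℚ) < b := by exact_mod_cast (by omega : 0 < b)
    rw [show ((2 : ℚ) ^ T) = 4 * (P : ℚ) by exact_mod_cast hTP] at h1
    push_cast at h1
    field_simp at h1
    have h2 : ((5 * a * b * K + 20 * P * a * b + 1 : ℕ) : ℚ) =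
        ((18 * P * a * b + 45 * P * a + 45 * P * b : ℕ) : ℚ) := by
      push_cast
      linarith
    exact_mod_cast h2
  have hP0 : 0 < P := hP ▸ Nat.two_pow_pos _
  -- divisibilities
  have hdb : (45 * P * a - 1) % b = 0 := by
    have h1 : ((45 * P * a - 1 : ℕ) : ℤ) = (b : ℤ) * (5 * a * K + 2 * P * a - 45 * P) := by
      rw [Nat.cast_sub (Nat.mul_pos (by omega) (by omega))]
      push_cast
      have := congrArg (fun n : ℕ => (n : ℤ)) hmain
      push_cast at this
      linarith
    exact Nat.mod_eq_zero_of_dvd (Int.natCast_dvd_natCast.mp ⟨_, h1⟩)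
  have hda : (45 * P * b - 1) % a = 0 := by
    have h1 : ((45 * P * b - 1 : ℕ) : ℤ) = (a : ℤ) * (5 * b * K + 2 * P * b - 45 * P) := by
      rw [Nat.cast_sub (Nat.mul_pos (by omega) (by omega))]
      push_cast
      have := congrArg (fun n : ℕ => (n : ℤ)) hmain
      push_cast at this
      linarith
    exact Nat.mod_eq_zero_of_dvd (Int.natCast_dvd_natCast.mp ⟨_, h1⟩)
  have h2ab : 2 * a * b < 45 * a + 45 * b := by
    have : P * (2 * a * b) < P * (45 * a + 45 * b) := by nlinarith
    exact Nat.lt_of_mul_lt_mul_left this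
  have ha45 : a < 45 := by
    by_contra h
    have h1 : 45 * b ≤ a * b := Nat.mul_le_mul_right _ (by omega)
    have h2 : 45 * a < a * b := by
      calc 45 * a ≤ a * a := Nat.mul_le_mul_right _ (by omega)
        _ < a * b := Nat.mul_lt_mul_of_pos_left hab (by omega)
    nlinarith [h1, h2]
  have hcase : a = 13 ∨ a = 17 ∨ a = 29 ∨ a = 37 ∨ a = 41 := by interval_cases a <;> omega
  -- `T` is at most `25`
  have hT25 : b < 1591591 → T ∈ List.range' 7 19 := by
    intro hbB
    rw [List.mem_range'_1]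
    refine ⟨hT7, ?_⟩
    by_contra hT
    have h1 : 2 ^ 26 ≤ 2 ^ T := Nat.pow_le_pow_right (by norm_num) (by omega)
    rcases hcase with h | h | h | h | h <;> subst h <;> omega
  have hsmall : ∀ B : ℕ, B ≤ 1591591 → b < B → searchSmall a B = true → False := by
    intro B hB hbB hs
    obtain ⟨q, hq⟩ := Nat.dvd_of_mod_eq_zero hdb
    have hb14 : 14 ≤ b := by omega
    have hq1 : 25 * a * a / 4 ≤ q := by
      have h0 : 45 * a * (5 * a * b) < 45 * a * (36 * P) :=
        Nat.mul_lt_mul_of_pos_left (by rw [hTP] at hlo; linarith) (by omega)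
      have hN : 45 * P * a = b * q + 1 := by
        have : 1 ≤ 45 * P * a := Nat.mul_pos (by omega) (by omega)
        omega
      have h1 : 25 * a * a * b ≤ 4 * q * b + 3 * b := by linarith
      have h2 : 25 * a * a ≤ 4 * q + 3 := Nat.le_of_mul_le_mul_right (by linarith : 25 * a * a * b ≤ (4 * q + 3) * b) (by omega)
      omega
    have hq2 : q ≤ 75 * a * a / 4 + 1 := by
      have h0 : 45 * a * (36 * P) ≤ 45 * a * (15 * a * b) :=
        Nat.mul_le_mul_left _ (by rw [hTP] at hhi; linarith)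
      have hN : 45 * P * a = b * q + 1 := by
        have : 1 ≤ 45 * P * a := Nat.mul_pos (by omega) (by omega)
        omega
      have h1 : 4 * q * b < 75 * a * a * b + 4 * b := by linarith
      have h2 : 4 * q < 75 * a * a + 4 := Nat.lt_of_mul_lt_mul_right (a := b) (by linarith)
      omega
    simp only [searchSmall, List.all_eq_true] at hs
    have h1 := hs T (hT25 (lt_of_lt_of_le hbB hB)) (q - 25 * a * a / 4)
      (List.mem_range.mpr (by omega))
    rw [Nat.add_sub_cancel' hq1, ← hP] at h1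
    have hq0 : 0 < q := by
      rcases Nat.eq_zero_or_pos q with h | h
      · rw [h, mul_zero] at hq
        have : 1 * 1 * 13 ≤ 45 * P * a := Nat.mul_le_mul (Nat.mul_le_mul (by omega) hP0) hab0
        omega
      · exact h
    rw [hq, Nat.mul_mod_left, if_pos rfl, Nat.mul_div_cancel _ hq0] at h1
    simp only [Bool.not_eq_true', decide_eq_false_iff_not] at h1
    exact h1 ⟨hbB, hab, hb4, hb3, hb5, hlo, hhi, hda⟩
  have hlarge : a ∈ ([29, 37, 41] : List ℕ) → False := by
    intro hmem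
    have hb102 : b < 102 := by
      simp only [List.mem_cons, List.not_mem_nil, or_false] at hmem
      rcases hmem with h | h | h <;> subst h <;> omega
    have hs := searchLarge_all a hmem
    simp only [searchLarge, List.all_eq_true, Bool.not_eq_true', decide_eq_false_iff_not] at hs
    have h1 := hs T (hT25 (by omega)) b (List.mem_range.mpr hb102)
    rw [← hP] at h1
    exact h1 ⟨hab, hb4, hb3, hb5, hlo, hhi, hdb, hda⟩
  rcases hcase with h | h | h | h | h
  · subst h
    have hb : b < 13615 := lt_of_gap (by norm_num) (by norm_num) (by norm_num) gapCheck_thirteen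
      (by norm_num) (by norm_num) (by norm_num) (by omega) hlen hcs heq
    exact hsmall 13615 (by norm_num) hb searchSmall_thirteen
  · subst h
    have hb : b < 1591591 := lt_of_gap (by norm_num) (by norm_num) (by norm_num) gapCheck_seventeen
      (by norm_num) (by norm_num) (by norm_num) (by omega) hlen hcs heq
    exact hsmall 1591591 le_rfl hb searchSmall_seventeen
  all_goals exact hlarge (by subst h; decide)

end CfsgLib.TISuzuki
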