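import Cfsg.Agent.TISuzuki.ThreeFam
import Mathlib.GroupTheory.ClassEquation
import Mathlib.GroupTheory.Sylow

/-!
# Counting the classes outside the three families

If `R` is the set of classes of non-identity elements without conjugates in the three subgroups, the
inverse centraliser orders over `R` sum to `1/(2a) + 1/(4b) + 1/(4c) - 1/|G|` and `|R| ≤ 5`.
-/

set_option autoImplicit false
set_option linter.unusedSectionVars false
set_option linter.style.haveILetI false

noncomputable section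

namespace CfsgLib.TISuzuki

open Cfsg CfsgLib.Chars
open scoped Classical

universe u

variable {G : Type u} [Group G] [Fintype G]

/-- The weight of a class: the inverse order of the centraliser. -/
def wgt (c : ConjClasses G) : ℚ := (Nat.card c.carrier : ℚ) / Nat.card G

theorem wgt_mk (g : G) :
    wgt (ConjClasses.mk g) = 1 / (Nat.card (Subgroup.centralizer ({g} : Set G)) : ℚ) := by
  rw [wgt, ← card_carrier_mul_card_centralizer g, Nat.cast_mul]
  have h1 : (Nat.card (ConjClasses.mk g).carrier : ℚ) ≠ 0 := by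
    haveI : Nonempty (ConjClasses.mk g).carrier := ⟨⟨g, ConjClasses.mem_carrier_mk⟩⟩
    exact Nat.cast_ne_zero.2 Nat.card_pos.ne'
  rw [div_mul_eq_div_div, div_self h1]

theorem wgt_pos (c : ConjClasses G) : 0 < wgt c := by
  induction c using Quotient.inductionOn with
  | h g => exact (wgt_mk g).symm ▸ div_pos one_pos (Nat.cast_pos.2 Nat.card_pos)

theorem sum_wgt : ∑ c : ConjClasses G, wgt c = 1 := by
  simp only [wgt, ← Finset.sum_div]
  rw [div_eq_one_iff_eq (Nat.cast_ne_zero.2 Nat.card_pos.ne'), ← Nat.cast_sum]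
  congr 1
  rw [← Group.sum_card_conj_classes_eq_card G, finsum_eq_sum_of_fintype]
  simp [Nat.card_coe_set_eq]

theorem sum_wgt_eq (S : Finset (ConjClasses G)) :
    ∑ c ∈ S, wgt c = ((Finset.univ.filter fun g : G => ConjClasses.mk g ∈ S).card : ℚ) / Nat.card G := by
  simp only [wgt, ← Finset.sum_div]
  congr 1
  rw [← Nat.cast_sum, Finset.card_eq_sum_card_fiberwise
    (f := ConjClasses.mk) (t := S) (fun g hg => Finset.mem_coe.2 (Finset.mem_filter.1 hg).2)]
  push_cast
  refine Finset.sum_congr rfl fun c hc => ?_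
  rw [Finset.filter_filter, Nat.card_eq_fintype_card, ← Set.toFinset_card]
  congr 2
  ext g
  simp only [Set.mem_toFinset, ConjClasses.mem_carrier_iff_mk_eq, Finset.mem_filter,
    Finset.mem_univ, true_and]
  exact ⟨fun h => ⟨h ▸ hc, h⟩, fun h => h.2⟩

/-- The hypotheses: three families of types 2, 4, 4. -/
structure Sys (A B C : Subgroup G) : Prop where
  fa : Fam A 2
  fb : Fam B 4
  fc : Fam C 4
  na : 5 ≤ Nat.card A
  nb : 5 < Nat.card B
  nc : 5 < Nat.card C
  ab : ∀ g : G, A.map (MulAut.conj g).toMonoidHom ≠ B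
  ac : ∀ g : G, A.map (MulAut.conj g).toMonoidHom ≠ C
  bc : ∀ g : G, B.map (MulAut.conj g).toMonoidHom ≠ C
  ord : Nat.card G ≤ 3 * (Nat.card A * Nat.card B * Nat.card C) ^ 2
  abl : ∀ r : ℕ, r.Prime → r ≠ 2 → ¬ r ∣ Nat.card A * Nat.card B * Nat.card C →
    ∀ P : Sylow r G, IsMulCommutative ↥(P : Subgroup G)

theorem no_conj {A B : Subgroup G} {e e' : ℕ} (hA : Fam A e) (hB : Fam B e')
    (hne : ∀ g : G, A.map (MulAut.conj g).toMonoidHom ≠ B) :
    ∀ a ∈ A, a ≠ 1 → ∀ b ∈ B, ¬ IsConj a b := by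
  intro a ha ha1 b hb hc
  obtain ⟨g, rfl⟩ := isConj_iff.1 hc
  apply hne g
  have h1 : g * a * g⁻¹ ≠ 1 := by simpa using ha1
  ext x
  rw [Subgroup.mem_map]
  constructor
  · rintro ⟨y, hy, rfl⟩
    refine hB.mem_of_commute hb h1 ?_
    simp only [MulEquiv.coe_toMonoidHom, MulAut.conj_apply]
    have := hA.comm hy ha
    calc g * y * g⁻¹ * (g * a * g⁻¹) = g * (y * a) * g⁻¹ := by group
      _ = g * (a * y) * g⁻¹ := by rw [this]
      _ = g * a * g⁻¹ * (g * y * g⁻¹) := by group
  · intro hx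
    refine ⟨g⁻¹ * x * g, hA.mem_of_commute ha ha1 ?_, by
      simp only [MulEquiv.coe_toMonoidHom, MulAut.conj_apply]; group⟩
    have := hB.comm hx hb
    calc g⁻¹ * x * g * a = g⁻¹ * (x * (g * a * g⁻¹)) * g := by group
      _ = g⁻¹ * (g * a * g⁻¹ * x) * g := by rw [this]
      _ = a * (g⁻¹ * x * g) := by group

/-- A Sylow subgroup meeting `A` lies in it. -/
theorem Fam.sylow_le {A : Subgroup G} {e p : ℕ} [Fact p.Prime] (hA : Fam A e) (P : Sylow p G)
    {a : G} (ha : a ∈ A) (haP : a ∈ (P : Subgroup G)) (h1 : a ≠ 1) : (P : Subgroup G) ≤ A := by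
  haveI : Nontrivial ↥(P : Subgroup G) := ⟨⟨⟨a, haP⟩, 1, fun e' => h1 (congrArg Subtype.val e')⟩⟩
  haveI := P.isPGroup'.center_nontrivial
  obtain ⟨⟨z, hz⟩, hz1⟩ := exists_ne (1 : Subgroup.center ↥(P : Subgroup G))
  have hzG : (z : G) ≠ 1 := fun e' => hz1 (Subtype.ext (Subtype.ext e'))
  have hzA : (z : G) ∈ A :=
    hA.mem_of_commute ha h1 (congrArg Subtype.val (Subgroup.mem_center_iff.1 hz ⟨a, haP⟩)).symm
  intro x hx
  exact hA.mem_of_commute hzA hzG (congrArg Subtype.val (Subgroup.mem_center_iff.1 hz ⟨x, hx⟩))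

theorem Fam.sylow_le_of_dvd {A : Subgroup G} {e p : ℕ} [hp : Fact p.Prime] (hA : Fam A e)
    (hd : p ∣ Nat.card A) : ∃ P : Sylow p G, (P : Subgroup G) ≤ A := by
  obtain ⟨⟨a, ha⟩, hao⟩ := exists_prime_orderOf_dvd_card' (G := ↥A) p hd
  rw [Subgroup.orderOf_mk] at hao
  have hpg : IsPGroup p (Subgroup.zpowers a) :=
    IsPGroup.of_card (n := 1) (by rw [Nat.card_zpowers, hao, pow_one])
  obtain ⟨P, hP⟩ := hpg.exists_le_sylow
  exact ⟨P, hA.sylow_le P ha (hP (Subgroup.mem_zpowers a))
    (fun e' => hp.out.one_lt.ne' (by rw [← hao, e', orderOf_one]))⟩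

theorem fam_coprime {A B : Subgroup G} {e e' : ℕ} (hA : Fam A e) (hB : Fam B e')
    (hne : ∀ g : G, A.map (MulAut.conj g).toMonoidHom ≠ B) :
    (Nat.card A).Coprime (Nat.card B) := by
  refine Nat.coprime_of_dvd fun p hp hpA hpB => ?_
  haveI : Fact p.Prime := ⟨hp⟩
  obtain ⟨P, hP⟩ := hA.sylow_le_of_dvd hpA
  obtain ⟨Q, hQ⟩ := hB.sylow_le_of_dvd hpB
  obtain ⟨g, hg⟩ := MulAction.exists_smul_eq G P Q
  obtain ⟨⟨a, ha⟩, hao⟩ := exists_prime_orderOf_dvd_card' (G := ↥A) p hpA
  rw [Subgroup.orderOf_mk] at hao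
  have hne' : (P : Subgroup G) ≠ ⊥ := by
    intro h
    have h2 : p ∣ Nat.card (P : Subgroup G) :=
      P.dvd_card_of_dvd_card (hpA.trans (Subgroup.card_subgroup_dvd_card A))
    rw [h, Subgroup.card_bot] at h2
    exact hp.not_dvd_one h2
  obtain ⟨x, hx, hx1⟩ := (Subgroup.bot_or_exists_ne_one (P : Subgroup G)).resolve_left hne'
  have hx' : g * x * g⁻¹ ∈ (Q : Subgroup G) := by
    rw [← hg, Sylow.coe_subgroup_smul]
    exact Subgroup.smul_mem_pointwise_smul x (MulAut.conj g) _ hx
  exact no_conj hA hB hne x (hP hx) hx1 _ (hQ hx') (isConj_iff.2 ⟨g, rfl⟩)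

/-- The classes meeting a subgroup off the identity. -/
def famClasses (A : Subgroup G) : Finset (ConjClasses G) :=
  ((Finset.univ : Finset ↥A).erase 1).image fun a : ↥A => ConjClasses.mk (a : G)

theorem mem_famClasses {A : Subgroup G} {g : G} :
    ConjClasses.mk g ∈ famClasses A ↔ ∃ a ∈ A, a ≠ 1 ∧ IsConj g a := by
  simp only [famClasses, Finset.mem_image, Finset.mem_erase, Finset.mem_univ, and_true,
    ConjClasses.mk_eq_mk_iff_isConj]
  constructor
  · rintro ⟨a, ha, hc⟩
    exact ⟨a, a.2, fun e' => ha (Subtype.ext e'), hc.symm⟩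
  · rintro ⟨a, ha, ha1, hc⟩
    exact ⟨⟨a, ha⟩, fun e' => ha1 (congrArg Subtype.val e'), hc.symm⟩

theorem Fam.famClasses_card {A : Subgroup G} {e : ℕ} (hA : Fam A e) :
    (famClasses A).card * e + 1 = Nat.card A := by
  have h := Finset.card_eq_sum_card_image (fun a : ↥A => ConjClasses.mk (a : G))
    ((Finset.univ : Finset ↥A).erase 1)
  have hf : ∀ c ∈ famClasses A, (((Finset.univ : Finset ↥A).erase 1).filter
      fun a : ↥A => ConjClasses.mk (a : G) = c).card = e := by
    intro c hc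
    obtain ⟨a, ha, rfl⟩ := Finset.mem_image.1 hc
    have ha1 := (Finset.mem_erase.1 ha).1
    have himg : ((Finset.univ : Finset ↥A).erase 1).filter
        (fun b : ↥A => ConjClasses.mk (b : G) = ConjClasses.mk (a : G)) =
        Finset.univ.image fun q : Aut' A => cj A q.out a := by
      ext b
      simp only [Finset.mem_filter, Finset.mem_erase, Finset.mem_univ, and_true,
        ConjClasses.mk_eq_mk_iff_isConj, Finset.mem_image, true_and]
      constructor
      · exact fun hb => hA.exists_cj_out_of_isConj ha1 hb.2.symm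
      · rintro ⟨q, rfl⟩
        refine ⟨fun e' => ha1 ((cj_bijective A q.out).1 (e'.trans (map_one _).symm)),
          IsConj.symm (isConj_iff.2 ⟨(q.out : G), (cj_coe A q.out a).symm⟩)⟩
    rw [himg, Finset.card_image_of_injective _ (hA.cj_out_injective ha1), Finset.card_univ,
      ← Nat.card_eq_fintype_card, hA.card_aut]
  rw [show Finset.image (fun a : ↥A => ConjClasses.mk (a : G)) (Finset.univ.erase 1) = famClasses A
    from rfl, Finset.sum_congr rfl hf, Finset.sum_const, smul_eq_mul] at h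
  rw [← h, Finset.card_erase_add_one (Finset.mem_univ _), Finset.card_univ, Nat.card_eq_fintype_card]

theorem Fam.wgt_famClasses {A : Subgroup G} {e : ℕ} (hA : Fam A e) :
    ∑ c ∈ famClasses A, wgt c = ((famClasses A).card : ℚ) / Nat.card A := by
  have : ∀ c ∈ famClasses A, wgt c = 1 / (Nat.card A : ℚ) := by
    intro c hc
    obtain ⟨a, ha, rfl⟩ := Finset.mem_image.1 hc
    rw [wgt_mk, hA.cent _ a.2 fun e' => (Finset.mem_erase.1 ha).1 (Subtype.ext e')]
  rw [Finset.sum_congr rfl this, Finset.sum_const, nsmul_eq_mul, mul_one_div]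

variable {A B C : Subgroup G}

/-- The classes outside the families. -/
def outer (A B C : Subgroup G) : Finset (ConjClasses G) :=
  (Finset.univ.erase (ConjClasses.mk 1)) \ (famClasses A ∪ famClasses B ∪ famClasses C)

namespace Sys

theorem coprime_ab (S : Sys A B C) : (Nat.card A).Coprime (Nat.card B) := fam_coprime S.fa S.fb S.ab
theorem coprime_ac (S : Sys A B C) : (Nat.card A).Coprime (Nat.card C) := fam_coprime S.fa S.fc S.ac
theorem coprime_bc (S : Sys A B C) : (Nat.card B).Coprime (Nat.card C) := fam_coprime S.fb S.fc S.bc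

theorem odd_fam {K : Subgroup G} {e : ℕ} (hK : Fam K e) (he : 2 ∣ e) : Odd (Nat.card K) :=
  ⟨(famClasses K).card * (e / 2), by
    have := hK.famClasses_card; obtain ⟨k, rfl⟩ := he
    rw [Nat.mul_div_cancel_left _ two_pos]; linarith⟩

theorem dvd_card (S : Sys A B C) : Nat.card A * Nat.card B * Nat.card C ∣ Nat.card G :=
  (S.coprime_ac.mul_left S.coprime_bc).mul_dvd_of_dvd_of_dvd
    (S.coprime_ab.mul_dvd_of_dvd_of_dvd A.card_subgroup_dvd_card B.card_subgroup_dvd_card)
    C.card_subgroup_dvd_card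

theorem famClasses_disjoint {K L : Subgroup G} {e e' : ℕ} (hK : Fam K e) (hL : Fam L e')
    (h : ∀ g : G, K.map (MulAut.conj g).toMonoidHom ≠ L) :
    Disjoint (famClasses K) (famClasses L) :=
  Finset.disjoint_left.2 fun c hc hc' => by
    induction c using Quotient.inductionOn with
    | h g =>
      obtain ⟨a, ha, ha1, hga⟩ := mem_famClasses.1 hc
      obtain ⟨b, hb, -, hgb⟩ := mem_famClasses.1 hc'
      exact no_conj hK hL h a ha ha1 b hb (hga.symm.trans hgb)

theorem one_notMem (K : Subgroup G) : ConjClasses.mk (1 : G) ∉ famClasses K := fun h => by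
  obtain ⟨a, -, ha1, hc⟩ := mem_famClasses.1 h
  exact ha1 (isConj_one_right.1 hc)

theorem split (S : Sys A B C) (f : ConjClasses G → ℚ) :
    ∑ c : ConjClasses G, f c = f (ConjClasses.mk 1) + ∑ c ∈ famClasses A, f c +
      ∑ c ∈ famClasses B, f c + ∑ c ∈ famClasses C, f c + ∑ c ∈ outer A B C, f c := by
  have hd1 := famClasses_disjoint S.fa S.fb S.ab
  have hd2 : Disjoint (famClasses A ∪ famClasses B) (famClasses C) :=
    Finset.disjoint_union_left.2
      ⟨famClasses_disjoint S.fa S.fc S.ac, famClasses_disjoint S.fb S.fc S.bc⟩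
  have hsub : famClasses A ∪ famClasses B ∪ famClasses C ⊆
      Finset.univ.erase (ConjClasses.mk 1) := fun c hc => by
    refine Finset.mem_erase.2 ⟨fun e' => ?_, Finset.mem_univ _⟩
    subst e'
    simp only [Finset.mem_union] at hc
    rcases hc with (hc | hc) | hc <;> exact one_notMem _ hc
  rw [← Finset.add_sum_erase _ _ (Finset.mem_univ (ConjClasses.mk 1)),
    ← Finset.sum_sdiff hsub, Finset.sum_union hd2, Finset.sum_union hd1, outer]
  ring

theorem sum_outer (S : Sys A B C) :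
    ∑ c ∈ outer A B C, wgt c =
      1 / (2 * Nat.card A : ℚ) + 1 / (4 * Nat.card B : ℚ) + 1 / (4 * Nat.card C : ℚ) -
        1 / (Nat.card G : ℚ) := by
  have h := S.split wgt
  rw [sum_wgt, S.fa.wgt_famClasses, S.fb.wgt_famClasses, S.fc.wgt_famClasses, wgt_mk,
    show Nat.card (Subgroup.centralizer ({1} : Set G)) = Nat.card G by
      rw [show Subgroup.centralizer ({1} : Set G) = ⊤ from by
        ext x; simp [Subgroup.mem_centralizer_singleton_iff]]
      exact Subgroup.card_top] at h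
  have e : ∀ {K : Subgroup G} {k : ℕ}, Fam K k → 0 < k → ((famClasses K).card : ℚ) / Nat.card K =
      1 / (k : ℚ) - 1 / (k * Nat.card K : ℚ) := by
    intro K k hK hk
    have h1 : ((famClasses K).card : ℚ) * k + 1 = Nat.card K := by exact_mod_cast hK.famClasses_card
    have h2 : (Nat.card K : ℚ) ≠ 0 := Nat.cast_ne_zero.2 Nat.card_pos.ne'
    have h3 : (k : ℚ) ≠ 0 := Nat.cast_ne_zero.2 hk.ne'
    field_simp
    linarith
  rw [e S.fa two_pos, e S.fb four_pos, e S.fc four_pos] at h
  push_cast at h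
  linarith

theorem card_classes (S : Sys A B C) : Nat.card (ConjClasses G) =
    1 + (famClasses A).card + (famClasses B).card + (famClasses C).card + (outer A B C).card := by
  have h := S.split fun _ => 1
  simp only [Finset.sum_const, nsmul_eq_mul, mul_one, Finset.card_univ] at h
  rw [Nat.card_eq_fintype_card]
  exact_mod_cast h

/-- At most five classes lie outside the families, and with four or more `|G| > N²`. -/
theorem card_outer (S : Sys A B C) : (outer A B C).card ≤ 5 ∧
    (4 ≤ (outer A B C).card → (Nat.card A * Nat.card B * Nat.card C) ^ 2 < Nat.card G) := by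
  obtain ⟨oA, oB, oC, k, hA, hB, hC, hk, hk', hirr⟩ := card_irr_bound S.fa S.fb S.fc
    (by have := S.na; omega) S.nb S.nc (no_conj S.fa S.fb S.ab) (no_conj S.fa S.fc S.ac)
    (no_conj S.fb S.fc S.bc) S.coprime_ab S.coprime_ac S.coprime_bc S.ord
  rw [card_irrCharacter, S.card_classes] at hirr
  have := S.fa.famClasses_card
  have := S.fb.famClasses_card
  have := S.fc.famClasses_card
  refine ⟨by omega, fun h4 => hk' ?_⟩
  omega

/-- An element outside the families. -/
def IsOuter (A B C : Subgroup G) (g : G) : Prop :=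
  g ≠ 1 ∧ ∀ K ∈ ({A, B, C} : Set (Subgroup G)), ∀ a ∈ K, a ≠ 1 → ¬ IsConj g a

theorem mem_outer {g : G} : ConjClasses.mk g ∈ outer A B C ↔ IsOuter A B C g := by
  simp only [outer, Finset.mem_sdiff, Finset.mem_erase, Finset.mem_univ, and_true,
    Finset.mem_union, mem_famClasses, IsOuter, ne_eq, ConjClasses.mk_eq_mk_iff_isConj,
    Set.mem_insert_iff, Set.mem_singleton_iff]
  constructor
  · rintro ⟨h1, h2⟩
    refine ⟨fun e' => h1 (e' ▸ IsConj.refl _), ?_⟩
    rintro K (rfl | rfl | rfl) a ha ha1 hc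
    · exact h2 (Or.inl (Or.inl ⟨a, ha, ha1, hc⟩))
    · exact h2 (Or.inl (Or.inr ⟨a, ha, ha1, hc⟩))
    · exact h2 (Or.inr ⟨a, ha, ha1, hc⟩)
  · rintro ⟨h1, h2⟩
    refine ⟨fun e' => h1 (isConj_one_left.1 e'), ?_⟩
    rintro ((⟨a, ha, ha1, hc⟩ | ⟨a, ha, ha1, hc⟩) | ⟨a, ha, ha1, hc⟩)
    · exact h2 A (Or.inl rfl) a ha ha1 hc
    · exact h2 B (Or.inr (Or.inl rfl)) a ha ha1 hc
    · exact h2 C (Or.inr (Or.inr rfl)) a ha ha1 hc

end Sys

end CfsgLib.TISuzuki
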