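import Cfsg.Agent.Chars.Basic.Columns
import Cfsg.Agent.Chars.Basic.Restrict
import Mathlib.GroupTheory.Index
import Mathlib.RingTheory.IntegralDomain

/-!
# A strongly self-centralising subgroup

`A` contains the centraliser of each of its non-identity elements as equality and has index `e` in its
normaliser.  Conjugation in the normaliser on `A` and on the homomorphisms `A →* ℂˣ`.
-/

set_option autoImplicit false
set_option linter.unusedSectionVars false
set_option linter.style.haveILetI false

namespace CfsgLib.TISuzuki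

universe u

variable {G : Type u} [Group G]

/-- A strongly self-centralising subgroup with normaliser index `e`. -/
structure Fam (A : Subgroup G) (e : ℕ) : Prop where
  cent : ∀ a ∈ A, a ≠ 1 → Subgroup.centralizer ({a} : Set G) = A
  idx : A.relIndex (Subgroup.normalizer (A : Set G)) = e

/-- The normaliser. -/
abbrev Nz (A : Subgroup G) : Subgroup G := Subgroup.normalizer (A : Set G)

/-- The quotient of the normaliser, as a type. -/
abbrev Aut' (A : Subgroup G) : Type u := ↥(Nz A) ⧸ A.subgroupOf (Nz A)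

/-- Conjugation by an element of the normaliser. -/
def cj (A : Subgroup G) (g : ↥(Nz A)) : ↥A →* ↥A where
  toFun a := ⟨(g : G) * a * (g : G)⁻¹, (Subgroup.mem_normalizer_iff.1 g.2 a).1 a.2⟩
  map_one' := by ext; simp
  map_mul' a b := by ext; simp

@[simp]
theorem cj_coe (A : Subgroup G) (g : ↥(Nz A)) (a : ↥A) :
    ((cj A g a : ↥A) : G) = (g : G) * a * (g : G)⁻¹ := rfl

theorem cj_bijective (A : Subgroup G) (g : ↥(Nz A)) : Function.Bijective (cj A g) := by
  constructor
  · intro a b h
    have := congrArg Subtype.val h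
    simpa using this
  · intro b
    refine ⟨cj A g⁻¹ b, ?_⟩
    ext; simp [mul_assoc]

theorem cj_mul (A : Subgroup G) (g h : ↥(Nz A)) (a : ↥A) : cj A (g * h) a = cj A g (cj A h a) := by
  ext; simp [mul_assoc]

/-- The homomorphisms to `ℂˣ`. -/
abbrev Dual (A : Subgroup G) : Type u := ↥A →* ℂˣ

/-- The action of the normaliser on the homomorphisms. -/
def act {A : Subgroup G} (l : Dual A) (g : ↥(Nz A)) : Dual A := l.comp (cj A g)

theorem act_act {A : Subgroup G} (l : Dual A) (g h : ↥(Nz A)) :
    act (act l g) h = act l (g * h) := by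
  ext a; simp [act, cj_mul]

theorem act_one {A : Subgroup G} (l : Dual A) : act l 1 = l := by
  ext a
  simp only [act, MonoidHom.coe_comp, Function.comp_apply]
  rw [show cj A 1 a = a from by ext; simp]

theorem act_eq_one_iff {A : Subgroup G} (l : Dual A) (g : ↥(Nz A)) : act l g = 1 ↔ l = 1 := by
  constructor
  · intro h
    ext a
    obtain ⟨b, rfl⟩ := (cj_bijective A g).2 a
    exact congrArg Units.val (DFunLike.congr_fun h b)
  · rintro rfl; ext a; simp [act]

namespace Fam

variable {A : Subgroup G} {e : ℕ}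

theorem comm (h : Fam A e) {a b : G} (ha : a ∈ A) (hb : b ∈ A) : a * b = b * a := by
  by_cases h1 : a = 1
  · simp [h1]
  · have : b ∈ Subgroup.centralizer ({a} : Set G) := by rw [h.cent a ha h1]; exact hb
    exact (Subgroup.mem_centralizer_singleton_iff.1 this).symm

theorem mem_of_commute (h : Fam A e) {a x : G} (ha : a ∈ A) (h1 : a ≠ 1) (hx : x * a = a * x) :
    x ∈ A := by
  rw [← h.cent a ha h1, Subgroup.mem_centralizer_singleton_iff]; exact hx

/-- An element taking a non-identity element of `A` into `A` normalises `A`. -/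
theorem mem_nz (h : Fam A e) {a g : G} (ha : a ∈ A) (h1 : a ≠ 1) (hg : g * a * g⁻¹ ∈ A) :
    g ∈ Nz A := by
  have h1' : g * a * g⁻¹ ≠ 1 := by simpa using h1
  refine Subgroup.mem_normalizer_iff.2 fun x => ⟨fun hx => ?_, fun hx => ?_⟩
  · refine h.mem_of_commute hg h1' ?_
    have := h.comm hx ha
    calc g * x * g⁻¹ * (g * a * g⁻¹) = g * (x * a) * g⁻¹ := by group
      _ = g * (a * x) * g⁻¹ := by rw [this]
      _ = g * a * g⁻¹ * (g * x * g⁻¹) := by group
  · refine h.mem_of_commute ha h1 ?_
    have := h.comm hx hg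
    calc x * a = g⁻¹ * (g * x * g⁻¹ * (g * a * g⁻¹)) * g := by group
      _ = g⁻¹ * (g * a * g⁻¹ * (g * x * g⁻¹)) * g := by rw [this]
      _ = a * x := by group

/-- The conjugates in `A` of a non-identity element are its images under the automiser. -/
theorem cj_out_injective (h : Fam A e) {a : ↥A} (ha : a ≠ 1) :
    Function.Injective fun q : Aut' A => cj A q.out a := by
  intro q q' hq
  have hq' := congrArg Subtype.val hq
  simp only [cj_coe] at hq'
  have hm : (q.out : G)⁻¹ * (q'.out : G) ∈ A := by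
    refine h.mem_of_commute a.2 (fun e' => ha (Subtype.ext e')) ?_
    calc (q.out : G)⁻¹ * q'.out * a = (q.out : G)⁻¹ * (q'.out * a * (q'.out : G)⁻¹) * q'.out := by
          group
      _ = (q.out : G)⁻¹ * (q.out * a * (q.out : G)⁻¹) * q'.out := by rw [hq']
      _ = a * ((q.out : G)⁻¹ * q'.out) := by group
  rw [← QuotientGroup.out_eq' q, ← QuotientGroup.out_eq' q', QuotientGroup.eq]
  exact hm

theorem exists_cj_out_of_isConj (h : Fam A e) {a b : ↥A} (ha : a ≠ 1)
    (hc : IsConj (a : G) b) : ∃ q : Aut' A, cj A q.out a = b := by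
  obtain ⟨g, hg⟩ := isConj_iff.1 hc
  have hgN : g ∈ Nz A := h.mem_nz a.2 (fun e' => ha (Subtype.ext e')) (by rw [hg]; exact b.2)
  refine ⟨((⟨g, hgN⟩ : ↥(Nz A)) : Aut' A), ?_⟩
  obtain ⟨⟨c, hcA⟩, hc'⟩ := QuotientGroup.mk_out_eq_mul (A.subgroupOf (Nz A)) (⟨g, hgN⟩ : ↥(Nz A))
  ext
  rw [cj_coe, hc']
  have hca := h.comm (a := (c : G)) hcA a.2
  calc g * (c : G) * a * (g * (c : G))⁻¹ = g * ((c : G) * a) * (c : G)⁻¹ * g⁻¹ := by group
    _ = g * (a * (c : G)) * (c : G)⁻¹ * g⁻¹ := by rw [hca]
    _ = b := by rw [← hg]; group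

/-- A non-identity homomorphism is fixed only by `A`. -/
theorem mem_of_act_eq (h : Fam A e) [Finite G] {l : Dual A} (hl : l ≠ 1) {g : ↥(Nz A)}
    (hg : act l g = l) : (g : G) ∈ A := by
  by_contra hgA
  apply hl
  have hinj : Function.Injective fun a : ↥A => cj A g a * a⁻¹ := by
    intro a b hab
    have hab' := congrArg Subtype.val hab
    simp only [Subgroup.coe_mul, cj_coe, InvMemClass.coe_inv] at hab'
    by_contra hne
    have hd : (b : G)⁻¹ * a ≠ 1 := fun e' => hne (Subtype.ext (inv_mul_eq_one.1 e').symm)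
    refine hgA (h.mem_of_commute (A.mul_mem (A.inv_mem b.2) a.2) hd ?_)
    calc (g : G) * ((b : G)⁻¹ * a)
        = ((g : G) * (b : G)⁻¹ * (g : G)⁻¹) * ((g : G) * a * (g : G)⁻¹ * (a : G)⁻¹) * (a * g) := by
          group
      _ = ((g : G) * (b : G)⁻¹ * (g : G)⁻¹) * ((g : G) * b * (g : G)⁻¹ * (b : G)⁻¹) * (a * g) := by
          rw [hab']
      _ = (b : G)⁻¹ * a * g := by group
  ext a
  obtain ⟨b, rfl⟩ := Finite.surjective_of_injective hinj a
  have := DFunLike.congr_fun hg b
  simp only [act, MonoidHom.coe_comp, Function.comp_apply] at this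
  simp [map_mul, this]

theorem card_aut (h : Fam A e) : Nat.card (Aut' A) = e := h.idx

theorem act_out_injective (h : Fam A e) [Finite G] {l : Dual A} (hl : l ≠ 1) :
    Function.Injective fun q : Aut' A => act l q.out := by
  intro q q' hq
  simp only at hq
  have h2 := h.mem_of_act_eq hl (g := q'.out * q.out⁻¹) (by
    rw [← act_act, ← hq, act_act, mul_inv_cancel, act_one])
  have hn := q'.out.2
  have h3 := (Subgroup.mem_normalizer_iff.1 (inv_mem hn) _).1 h2
  have h4 : (q'.out : G)⁻¹ * (q.out : G) ∈ A := by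
    have := A.inv_mem h3
    convert this using 1
    simp only [Subgroup.coe_mul, InvMemClass.coe_inv]
    group
  rw [← QuotientGroup.out_eq' q, ← QuotientGroup.out_eq' q', QuotientGroup.eq,
    Subgroup.mem_subgroupOf]
  have := A.inv_mem h4
  simpa [mul_inv_rev] using this

end Fam

end CfsgLib.TISuzuki
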