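import Cfsg.Agent.TISuzuki.Mult

/-!
# Bounds for one family

At most `(n - 1) / e` irreducible characters are not constant on a family; the others, apart from the
principal one, have squared defects summing to at most `e - 1`.
-/

set_option autoImplicit false
set_option linter.unusedSectionVars false
set_option linter.style.haveILetI false

noncomputable section

namespace CfsgLib.TISuzuki

open Cfsg CfsgLib.Chars
open scoped Classical

universe u

variable {G : Type u} [Group G] [Fintype G] (A : Subgroup G)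

/-- The non-principal homomorphisms. -/
def dual' : Finset (Dual A) := Finset.univ.filter fun l => l ≠ 1

theorem mem_dual' {l : Dual A} : l ∈ dual' A ↔ l ≠ 1 := by simp [dual']

/-- Not constant on the non-principal homomorphisms. -/
def Own (χ : IrrCharacter G) : Prop :=
  ∃ l ∈ dual' A, ∃ m ∈ dual' A, mult A χ l ≠ mult A χ m

/-- A chosen non-principal homomorphism. -/
def dual₀ : Dual A := if h : ∃ l : Dual A, l ≠ 1 then h.choose else 1

/-- The defect of a character constant on the family. -/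
def cc (χ : IrrCharacter G) : ℤ := mult A χ 1 - mult A χ (dual₀ A)

variable {A} {e : ℕ}

theorem cc_spec {χ : IrrCharacter G} (hχ : ¬ Own A χ) {l : Dual A} (hl : l ≠ 1) :
    mult A χ 1 - mult A χ l = cc A χ := by
  have h0 : dual₀ A ≠ 1 := by
    rw [dual₀, dif_pos ⟨l, hl⟩]
    exact (Exists.choose_spec (⟨l, hl⟩ : ∃ l : Dual A, l ≠ 1))
  rw [cc]
  by_contra hne
  exact hχ ⟨l, (mem_dual' A).2 hl, dual₀ A, (mem_dual' A).2 h0, fun e' => hne (by rw [e'])⟩

theorem one_not_own : ¬ Own A (oneChar G) := by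
  rintro ⟨l, hl, m, hm, hne⟩
  rw [mem_dual'] at hl hm
  exact hne (by rw [mult_one, mult_one, if_neg hl, if_neg hm])

theorem cc_one (h : ∃ l : Dual A, l ≠ 1) : cc A (oneChar G) = 1 := by
  obtain ⟨l, hl⟩ := h
  rw [← cc_spec one_not_own hl, mult_one, mult_one, if_pos rfl, if_neg hl, sub_zero]

theorem Fam.card_dual (h : Fam A e) : Fintype.card (Dual A) = Nat.card A := by
  have hc : commutator ↥A = ⊥ := by
    rw [commutator_eq_bot_iff_center_eq_top]
    haveI := h.commInst
    exact Subgroup.center_eq_top ..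
  rw [← Nat.card_eq_fintype_card, card_monoidHom_units, hc, Subgroup.index_bot]

theorem Fam.card_dual' (h : Fam A e) : (dual' A).card + 1 = Nat.card A := by
  rw [← h.card_dual, ← Finset.card_univ,
    show dual' A = Finset.univ.erase 1 from Finset.ext fun l => by simp [mem_dual'],
    Finset.card_erase_add_one (Finset.mem_univ _)]

theorem Fam.exists_ne_one (h : Fam A e) (hn : 1 < Nat.card A) : ∃ l : Dual A, l ≠ 1 := by
  have := h.card_dual'
  obtain ⟨l, hl⟩ := Finset.card_pos.1 (show 0 < (dual' A).card by omega)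
  exact ⟨l, (mem_dual' A).1 hl⟩

/-- The image of a homomorphism. -/
def orb (m : Dual A) : Finset (Dual A) := Finset.univ.image fun q : Aut' A => act m q.out

theorem Fam.card_orb (h : Fam A e) {m : Dual A} (hm : m ≠ 1) : (orb m).card = e := by
  rw [orb, Finset.card_image_of_injective _ (h.act_out_injective hm), Finset.card_univ,
    ← Nat.card_eq_fintype_card, h.card_aut]

theorem orb_subset {m : Dual A} (hm : m ≠ 1) : orb m ⊆ dual' A := by
  intro l hl
  obtain ⟨q, -, rfl⟩ := Finset.mem_image.1 hl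
  exact (mem_dual' A).2 fun e' => hm ((act_eq_one_iff _ _).1 e')

theorem ind_eq_zero {l m : Dual A} (h : l ∉ orb m) : ind l m = 0 :=
  Finset.card_eq_zero.2 (Finset.filter_eq_empty_iff.2 fun q _ e' =>
    h (Finset.mem_image.2 ⟨q, Finset.mem_univ _, e'.symm⟩))

/-- Two homomorphisms in different orbits give a difference of norm two. -/
theorem Fam.exists_pair (h : Fam A e) (hn : e + 1 < Nat.card A) :
    ∃ l ∈ dual' A, ∃ m ∈ dual' A,
      ∑ χ : IrrCharacter G, (mult A χ l - mult A χ m) ^ 2 = 2 := by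
  obtain ⟨m, hm⟩ := h.exists_ne_one (by omega)
  have hd := h.card_dual'
  obtain ⟨l, hl, hlm⟩ := Finset.exists_mem_notMem_of_card_lt_card
    (s := orb m) (t := dual' A) (by rw [h.card_orb hm]; omega)
  rw [mem_dual'] at hl
  refine ⟨l, (mem_dual' A).2 hl, m, (mem_dual' A).2 hm, ?_⟩
  have hml : m ∉ orb l := by
    intro hx
    obtain ⟨q, -, rfl⟩ := Finset.mem_image.1 hx
    refine hlm (Finset.mem_image.2 ⟨((q.out⁻¹ : ↥(Nz A)) : Aut' A), Finset.mem_univ _, ?_⟩)
    obtain ⟨⟨c, hc⟩, hc'⟩ := QuotientGroup.mk_out_eq_mul (A.subgroupOf (Nz A)) (q.out⁻¹ : ↥(Nz A))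
    rw [hc', act_act, ← mul_assoc, mul_inv_cancel, one_mul]
    ext a
    simp only [act, MonoidHom.coe_comp, Function.comp_apply]
    congr
    ext
    rw [cj_coe, h.comm (a := (c : G)) hc a.2]
    group
  have := h.gram l m l m
  rw [h.ind_self hl, h.ind_self hm, ind_eq_zero hlm, ind_eq_zero hml] at this
  simpa [sq] using this

theorem Fam.gram_one (h : Fam A e) {l : Dual A} (hl : l ≠ 1) :
    ∑ χ : IrrCharacter G, (mult A χ 1 - mult A χ l) ^ 2 = (e : ℤ) + 1 := by
  have := h.gram 1 l 1 l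
  rw [h.ind_one_one, h.ind_self hl, ind_one_right hl, ind_one_left hl] at this
  simpa [sq] using this

theorem Fam.sum_ind (h : Fam A e) {m : Dual A} (hm : m ≠ 1) :
    ∑ l ∈ dual' A, ind l m = e := by
  have := Finset.card_eq_sum_card_fiberwise (s := (Finset.univ : Finset (Aut' A)))
    (f := fun q => act m q.out) (t := dual' A)
    (fun q _ => Finset.mem_coe.2 ((mem_dual' A).2 fun e' => hm ((act_eq_one_iff _ _).1 e')))
  rw [Finset.card_univ, ← Nat.card_eq_fintype_card, h.card_aut] at this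
  rw [this]
  exact Finset.sum_congr rfl fun l _ => by simp [ind, eq_comm]

theorem Fam.pairs_total (h : Fam A e) :
    ∑ χ : IrrCharacter G, ∑ l ∈ dual' A, ∑ m ∈ dual' A, (mult A χ l - mult A χ m) ^ 2 =
      2 * ((dual' A).card : ℤ) ^ 2 - 2 * (dual' A).card * e := by
  rw [Finset.sum_comm]
  have e1 : ∀ l ∈ dual' A, ∑ χ : IrrCharacter G, ∑ m ∈ dual' A, (mult A χ l - mult A χ m) ^ 2 =
      ∑ m ∈ dual' A, ((2 : ℤ) - ind l m - ind m l) := by
    intro l hl
    rw [Finset.sum_comm]
    refine Finset.sum_congr rfl fun m hm => ?_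
    have := h.gram l m l m
    rw [h.ind_self ((mem_dual' A).1 hl), h.ind_self ((mem_dual' A).1 hm)] at this
    simpa [sq, two_mul, ← one_add_one_eq_two] using this
  rw [Finset.sum_congr rfl e1]
  simp only [Finset.sum_sub_distrib, Finset.sum_const, nsmul_eq_mul]
  have hs : ∀ m ∈ dual' A, ∑ l ∈ dual' A, (ind l m : ℤ) = e := fun m hm => by
    exact_mod_cast h.sum_ind ((mem_dual' A).1 hm)
  rw [Finset.sum_comm (f := fun l m => (ind l m : ℤ)), Finset.sum_congr rfl hs]
  simp only [Finset.sum_const, nsmul_eq_mul]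
  ring

theorem Fam.own_lower (h : Fam A e) {χ : IrrCharacter G} (hχ : Own A χ) :
    2 * (e : ℤ) * ((dual' A).card - e) ≤
      ∑ l ∈ dual' A, ∑ m ∈ dual' A, (mult A χ l - mult A χ m) ^ 2 := by
  obtain ⟨l, hl, m, hm, hne⟩ := hχ
  let L := (dual' A).filter fun x => mult A χ x = mult A χ l
  let L' := (dual' A).filter fun x => ¬ mult A χ x = mult A χ l
  have hsum : L.card + L'.card = (dual' A).card :=
    Finset.card_filter_add_card_filter_not _
  have hL : e ≤ L.card := by
    rw [← h.card_orb ((mem_dual' A).1 hl)]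
    refine Finset.card_le_card fun x hx => Finset.mem_filter.2
      ⟨orb_subset ((mem_dual' A).1 hl) hx, ?_⟩
    obtain ⟨q, -, rfl⟩ := Finset.mem_image.1 hx
    exact mult_act A χ l q.out
  have hL' : e ≤ L'.card := by
    rw [← h.card_orb ((mem_dual' A).1 hm)]
    refine Finset.card_le_card fun x hx => Finset.mem_filter.2
      ⟨orb_subset ((mem_dual' A).1 hm) hx, ?_⟩
    obtain ⟨q, -, rfl⟩ := Finset.mem_image.1 hx
    rw [mult_act]; exact hne.symm
  have hone : ∀ x ∈ L, ∀ y ∈ L', (1 : ℤ) ≤ (mult A χ x - mult A χ y) ^ 2 := by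
    intro x hx y hy
    have : mult A χ x - mult A χ y ≠ 0 := fun e' =>
      (Finset.mem_filter.1 hy).2 ((sub_eq_zero.1 e').symm.trans (Finset.mem_filter.1 hx).2)
    have := Int.one_le_abs this
    nlinarith [sq_abs (mult A χ x - mult A χ y)]
  have h1 : ∀ x ∈ L, (L'.card : ℤ) ≤ ∑ y ∈ dual' A, (mult A χ x - mult A χ y) ^ 2 := fun x hx => by
    refine le_trans ?_ (Finset.sum_le_sum_of_subset_of_nonneg
      (show L' ⊆ dual' A from Finset.filter_subset _ _) fun _ _ _ => sq_nonneg _)
    simpa using Finset.card_nsmul_le_sum L' _ (1 : ℤ) (hone x hx)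
  have h2 : ∀ x ∈ L', (L.card : ℤ) ≤ ∑ y ∈ dual' A, (mult A χ x - mult A χ y) ^ 2 := fun x hx => by
    refine le_trans ?_ (Finset.sum_le_sum_of_subset_of_nonneg
      (show L ⊆ dual' A from Finset.filter_subset _ _) fun _ _ _ => sq_nonneg _)
    simpa using Finset.card_nsmul_le_sum L _ (1 : ℤ)
      (fun y hy => by rw [show (mult A χ x - mult A χ y) ^ 2 = (mult A χ y - mult A χ x) ^ 2 by ring]
                      exact hone y hy x hx)
  rw [← Finset.sum_filter_add_sum_filter_not (dual' A) (fun x => mult A χ x = mult A χ l)]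
  have a1 := Finset.card_nsmul_le_sum L _ _ h1
  have a2 := Finset.card_nsmul_le_sum L' _ _ h2
  simp only [nsmul_eq_mul] at a1 a2
  refine le_trans ?_ (add_le_add a1 a2)
  have h3 : (0 : ℤ) ≤ ((L.card : ℤ) - e) * ((L'.card : ℤ) - e) := by
    apply mul_nonneg <;> omega
  rw [← hsum]; push_cast; nlinarith

/-- There are at most `(n - 1) / e` characters not constant on the family. -/
theorem Fam.card_own_mul_le (h : Fam A e) (hn : e + 1 < Nat.card A) :
    (Finset.univ.filter (Own A)).card * e + 1 ≤ Nat.card A := by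
  have hd := h.card_dual'
  have h1 := Finset.card_nsmul_le_sum (Finset.univ.filter (Own A))
    (fun χ => ∑ l ∈ dual' A, ∑ m ∈ dual' A, (mult A χ l - mult A χ m) ^ 2)
    (2 * (e : ℤ) * ((dual' A).card - e)) (fun χ hχ => h.own_lower (Finset.mem_filter.1 hχ).2)
  have h2 := h1.trans (Finset.sum_le_univ_sum_of_nonneg fun χ =>
    Finset.sum_nonneg fun _ _ => Finset.sum_nonneg fun _ _ => sq_nonneg _)
  rw [h.pairs_total, nsmul_eq_mul] at h2
  set o := (Finset.univ.filter (Own A)).card
  have hpos : (0 : ℤ) < (dual' A).card - e := by omega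
  have : (o : ℤ) * e ≤ (dual' A).card := by nlinarith
  have : o * e ≤ (dual' A).card := by exact_mod_cast this
  omega

/-- The squared defects of the non-principal characters constant on the family. -/
theorem Fam.budget (h : Fam A e) (hn : e + 1 < Nat.card A) :
    ∑ χ ∈ Finset.univ.filter (fun χ => χ ≠ oneChar G ∧ ¬ Own A χ), cc A χ ^ 2 + 1 ≤ (e : ℤ) := by
  obtain ⟨l, hl, m, hm, hlm⟩ := h.exists_pair hn
  obtain ⟨χ₀, -, hχ₀⟩ := Finset.exists_ne_zero_of_sum_ne_zero (hlm ▸ two_ne_zero)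
  have hne : mult A χ₀ l ≠ mult A χ₀ m := fun e' => hχ₀ (by rw [e']; simp)
  have hown : Own A χ₀ := ⟨l, hl, m, hm, hne⟩
  obtain ⟨x, hx, hx'⟩ : ∃ x ∈ dual' A, mult A χ₀ 1 - mult A χ₀ x ≠ 0 := by
    by_contra hcon
    push Not at hcon
    exact hne (by have := hcon l hl; have := hcon m hm; omega)
  rw [mem_dual'] at hx
  have hx1 : (1 : ℤ) ≤ (mult A χ₀ 1 - mult A χ₀ x) ^ 2 := by
    have := Int.one_le_abs hx'
    nlinarith [sq_abs (mult A χ₀ 1 - mult A χ₀ x)]
  have hg := h.gram_one hx
  set S := Finset.univ.filter (fun χ => χ ≠ oneChar G ∧ ¬ Own A χ)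
  have hdisj : oneChar G ∉ insert χ₀ S := by
    simp only [Finset.mem_insert, S, Finset.mem_filter, not_or]
    exact ⟨fun e' => one_not_own (e' ▸ hown), fun e' => e'.2.1 rfl⟩
  have hle := Finset.sum_le_univ_sum_of_nonneg (s := insert (oneChar G) (insert χ₀ S))
    (f := fun χ => (mult A χ 1 - mult A χ x) ^ 2) (fun χ => sq_nonneg _)
  rw [Finset.sum_insert hdisj, Finset.sum_insert (by
      simp only [S, Finset.mem_filter]; exact fun e' => e'.2.2 hown), hg,
    cc_spec one_not_own hx, cc_one ⟨x, hx⟩] at hle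
  have e2 : ∑ χ ∈ S, (mult A χ 1 - mult A χ x) ^ 2 = ∑ χ ∈ S, cc A χ ^ 2 :=
    Finset.sum_congr rfl fun χ hχ => by rw [cc_spec (Finset.mem_filter.1 hχ).2.2 hx]
  rw [e2] at hle
  linarith

end CfsgLib.TISuzuki
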