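import Cfsg.Agent.TISuzuki.Orbits

/-!
# A `2`-group with two orbits on an elementary abelian group

The bound for the Sylow subgroup of odd order of an involution centraliser: at most 9 for exponent 3,
at most 5 for exponent 5 unless the order is 25 and some element squares every point.
-/

set_option autoImplicit false
set_option linter.unusedSectionVars false
set_option linter.style.haveILetI false

namespace CfsgLib.TISuzuki

open scoped Classical

universe u v

variable {P : Type u} {H : Type v} [CommGroup P] [Finite P] [Group H] [Finite H]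
  [MulDistribMulAction H P] [FaithfulSMul H P]

theorem smul_fix_of_commute {s g : H} (hg : g * s = s * g) {x : P} (hx : s • x = x) :
    s • g • x = g • x := by rw [smul_smul, ← hg, mul_smul, hx]

set_option maxHeartbeats 2000000 in
/-- The bound. -/
theorem qbound {r : ℕ} (hr : r = 3 ∨ r = 5) (hexp : ∀ x : P, x ^ r = 1) (hH : IsPGroup 2 H)
    (u v : P) (horb : ∀ x : P, x ≠ 1 → (∃ h : H, h • u = x) ∨ ∃ h : H, h • v = x)
    (hfour : (∀ x : P, x ≠ 1 → ∃ h : H, h • u = x) ∨
      ((∀ g : H, g ^ 4 = 1) ∧ ∀ g : H, orderOf g = 4 → ∀ x : P, g • x = x → x = 1)) :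
    (r = 3 ∧ Nat.card P ≤ 9) ∨ (r = 5 ∧ (Nat.card P ≤ 5 ∨
      (Nat.card P = 25 ∧ (∃ g : H, ∀ x : P, g • x = x ^ 2) ∧ ∀ g : H, g ^ 4 = 1))) := by
  have hrodd : Odd r := by rcases hr with rfl | rfl <;> decide
  haveI hrp : Fact r.Prime := ⟨by rcases hr with rfl | rfl <;> norm_num⟩
  have hr2 : r ≠ 2 := by omega
  have hsmall : Nat.card P ≤ (if r = 3 then 9 else 5) →
      (r = 3 ∧ Nat.card P ≤ 9) ∨ (r = 5 ∧ (Nat.card P ≤ 5 ∨
        (Nat.card P = 25 ∧ (∃ g : H, ∀ x : P, g • x = x ^ 2) ∧ ∀ g : H, g ^ 4 = 1))) := by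
    intro h
    rcases hr with rfl | rfl
    · exact Or.inl ⟨rfl, by simpa using h⟩
    · exact Or.inr ⟨rfl, Or.inl (by simpa using h)⟩
  obtain ⟨d, hd⟩ := IsPGroup.iff_card.mp
    (show IsPGroup r P from fun x => ⟨1, by rw [pow_one, hexp]⟩)
  have hlarge : ∀ b : ℕ, ¬ Nat.card P ≤ (if r = 3 then 9 else 5) → b < (if r = 3 then 27 else 25) →
      b < Nat.card P := by
    intro b hb hb'
    rw [hd] at hb ⊢
    rcases hr with rfl | rfl
    · simp only [if_true] at hb hb'
      have : 3 ≤ d := by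
        by_contra h
        exact hb ((Nat.pow_le_pow_right (by norm_num) (show d ≤ 2 by omega)).trans (by norm_num))
      have := Nat.pow_le_pow_right (show 0 < 3 by norm_num) this
      omega
    · norm_num at hb hb'
      have : 2 ≤ d := by
        by_contra h
        have := Nat.pow_le_pow_right (show 0 < 5 by norm_num) (show d ≤ 1 by omega)
        omega
      have := Nat.pow_le_pow_right (show 0 < 5 by norm_num) this
      omega
  by_cases hP : Nat.card P ≤ (if r = 3 then 9 else 5)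
  · exact hsmall hP
  have hcs := card_sub_one_le horb
  have h2 : 2 ≤ Nat.card H := by
    by_contra h
    have := hlarge 3 hP (by split <;> norm_num)
    omega
  haveI : Nontrivial P := Finite.one_lt_card_iff_nontrivial.mp (by
    have := hlarge 3 hP (by split <;> norm_num); omega)
  haveI : Nontrivial H := Finite.one_lt_card_iff_nontrivial.mp (by omega)
  haveI := hH.center_nontrivial
  haveI : Fact (Nat.Prime 2) := ⟨Nat.prime_two⟩
  obtain ⟨n2, hn2⟩ := IsPGroup.iff_card.mp (hH.to_subgroup (Subgroup.center H))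
  have h2c : 2 ∣ Nat.card (Subgroup.center H) := by
    rcases n2 with _ | n2
    · exact absurd hn2 (by simpa using (Finite.one_lt_card (α := Subgroup.center H)).ne')
    · exact hn2 ▸ dvd_pow_self 2 n2.succ_ne_zero
  obtain ⟨c, hc⟩ := exists_prime_orderOf_dvd_card' 2 h2c
  set z : H := (c : H) with hzdef
  have hzz : z * z = 1 := by
    have := pow_orderOf_eq_one c
    rw [hc, pow_two] at this
    exact congrArg Subtype.val this
  have hz1 : z ≠ 1 := fun h => by
    rw [show c = 1 from Subtype.ext h, orderOf_one] at hc; exact absurd hc (by norm_num)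
  have hzcen : ∀ g : H, g * z = z * g := fun g => Subgroup.mem_center_iff.mp c.2 g
  have hfixorb : ∀ (g : H) (x : P), z • x = x → z • g • x = g • x := fun g x hx =>
    smul_fix_of_commute (hzcen g) hx
  have hinvorb : ∀ (g : H) (x : P), z • x = x⁻¹ → z • g • x = (g • x)⁻¹ := fun g x hx => by
    rw [smul_smul, ← hzcen g, mul_smul, hx, smul_inv']
  have hzinv : ∀ x : P, z • x = x⁻¹ := by
    refine smul_eq_inv_of_fix_bot hrodd hexp hzz fun a ha => ?_
    by_contra ha1
    obtain ⟨w, hw⟩ : ∃ w : P, z • w ≠ w := by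
      by_contra hcon
      push Not at hcon
      exact hz1 (FaithfulSMul.eq_of_smul_eq_smul (α := P) fun x => by rw [hcon, one_smul])
    obtain ⟨b, hb⟩ : ∃ b, b = w * (z • w)⁻¹ := ⟨_, rfl⟩
    have hb1 : b ≠ 1 := fun h => hw (mul_inv_eq_one.1 (hb.symm.trans h)).symm
    have hbz : z • b = b⁻¹ := by
      rw [hb, smul_mul', smul_inv', smul_smul, hzz, one_smul, mul_inv, inv_inv, mul_comm]
    have hab1 : z • (a * b) = a * b⁻¹ := by rw [smul_mul', ha, hbz]
    have hAB : ¬ z • (a * b) = a * b := fun h =>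
      hb1 (eq_one_of_self_inv hrodd hexp (mul_left_cancel (hab1.symm.trans h)).symm)
    have hAB' : ¬ z • (a * b) = (a * b)⁻¹ := fun h => ha1 (eq_one_of_self_inv hrodd hexp (by
      have := hab1.symm.trans h
      rw [mul_inv] at this
      exact mul_right_cancel this))
    have hba : ¬ z • b = b := fun h => hb1 (eq_one_of_self_inv hrodd hexp (h.symm.trans hbz))
    have key : ∀ (o : P) (g g' : H), g • o = a → g' • o = b → False := by
      intro o g g' h1 h2
      apply hba
      rw [← h2, show g' • o = (g' * g⁻¹) • a by rw [mul_smul, ← h1, inv_smul_smul]]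
      exact hfixorb _ a ha
    have key2 : ∀ (o : P) (g g' : H), g • o = a → g' • o = a * b → False := by
      intro o g g' h1 h2
      apply hAB
      rw [← h2, show g' • o = (g' * g⁻¹) • a by rw [mul_smul, ← h1, inv_smul_smul]]
      exact hfixorb _ a ha
    have key3 : ∀ (o : P) (g g' : H), g • o = b → g' • o = a * b → False := by
      intro o g g' h1 h2
      apply hAB'
      rw [← h2, show g' • o = (g' * g⁻¹) • b by rw [mul_smul, ← h1, inv_smul_smul]]
      exact hinvorb _ b hbz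
    have hab_ne : a * b ≠ 1 := fun h => hAB (by rw [h, smul_one])
    rcases horb a ha1 with ⟨g1, e1⟩ | ⟨g1, e1⟩ <;> rcases horb b hb1 with ⟨g2, e2⟩ | ⟨g2, e2⟩ <;>
      rcases horb (a * b) hab_ne with ⟨g3, e3⟩ | ⟨g3, e3⟩
    exacts [key _ _ _ e1 e2, key _ _ _ e1 e2, key2 _ _ _ e1 e3, key3 _ _ _ e2 e3,
      key3 _ _ _ e2 e3, key2 _ _ _ e1 e3, key _ _ _ e1 e2, key _ _ _ e1 e2]
  rcases hfour with htr | ⟨h4, hf4⟩
  · -- one orbit: its length is a power of two
    exfalso
    obtain ⟨n, hn⟩ := IsPGroup.iff_card.mp hH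
    have hu1 : u ≠ 1 := by
      rintro rfl
      obtain ⟨x0, hx0⟩ := exists_ne (1 : P)
      obtain ⟨h, hh⟩ := htr x0 hx0
      rw [smul_one] at hh
      exact hx0 hh.symm
    have horbit : MulAction.orbit H u = ({1}ᶜ : Set P) := by
      ext x
      refine ⟨?_, fun hx => htr x hx⟩
      rintro ⟨h, rfl⟩
      show h • u ≠ 1
      exact fun h1 => hu1 (smul_eq_iff_eq_inv_smul h |>.mp h1 |>.trans (smul_one _))
    have hidx := MulAction.index_stabilizer (G := H) (x := u)
    rw [horbit, Set.ncard_compl, Set.ncard_singleton] at hidx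
    have hdvd : Nat.card P - 1 ∣ Nat.card H := hidx ▸ Subgroup.index_dvd_card _
    rw [hn, hd] at hdvd
    obtain ⟨k, -, hk⟩ := (Nat.dvd_prime_pow Nat.prime_two).mp hdvd
    apply hP
    rw [hd]
    rcases hr with rfl | rfl
    · exact (Nat.pow_le_pow_right (by norm_num) (three_pow_sub_one hk)).trans (by norm_num)
    · exact (Nat.pow_le_pow_right (by norm_num) (five_pow_sub_one hk)).trans (by norm_num)
  have hord : ∀ g : H, g * g ≠ 1 → orderOf g = 4 := fun g hg => by
    refine orderOf_eq_prime_pow (p := 2) (n := 1) ?_ (h4 g)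
    simpa [pow_succ] using hg
  have hsq : ∀ g : H, g * g = 1 ∨ g * g = z := by
    intro g
    by_contra hcon
    push Not at hcon
    obtain ⟨hg1, hgz⟩ := hcon
    have hw : g * g * (g * g) = 1 := by
      have := h4 g
      rwa [show g ^ 4 = g * g * (g * g) by simp [pow_succ, mul_assoc]] at this
    refine hgz (eq_of_inv_all (smul_eq_inv_of_fix_bot hrodd hexp hw fun x hx => ?_) hzinv)
    have hy : x * g • x = 1 := hf4 g (hord g hg1) _ (by rw [smul_mul', smul_smul, hx, mul_comm])
    have hgx : g • x = x⁻¹ := eq_inv_of_mul_eq_one_right hy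
    refine hf4 (g * z) (hord _ ?_) x ?_
    · rw [mul_assoc, ← mul_assoc z g z, ← hzcen g, mul_assoc g z z, hzz, mul_one]; exact hg1
    · rw [mul_smul, hzinv, smul_inv', hgx, inv_inv]
  by_cases huniq : ∀ g : H, g * g = 1 → g = 1 ∨ g = z
  · exfalso
    have h8 := card_le_eight_of_unique h4 z hzz huniq
    have := hlarge 17 hP (by split <;> norm_num)
    omega
  push Not at huniq
  obtain ⟨s, hss, hs1, hsz⟩ := huniq
  have hP9 : (r = 3 → 9 < Nat.card P) ∧ (r = 5 → 5 < Nat.card P) :=
    ⟨fun h => by rw [if_pos h] at hP; omega, fun h => by rw [if_neg (by omega)] at hP; omega⟩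
  have hzc : ∀ g : H, Commute g z := fun g => hzcen g
  have hzi : z⁻¹ = z := inv_eq_of_mul_eq_one_right hzz
  -- involutions are normalised up to `z`
  have hsc : ∀ g w : H, w * w = 1 → g * w * g⁻¹ = w ∨ g * w * g⁻¹ = w * z := by
    intro g w hww
    have hwi : w⁻¹ = w := inv_eq_of_mul_eq_one_right hww
    obtain ⟨e1, he1, h1⟩ : ∃ e : H, (e = 1 ∨ e = z) ∧ w * g * (w * g) = e := ⟨_, hsq (w * g), rfl⟩
    obtain ⟨e2, he2, h2⟩ : ∃ e : H, (e = 1 ∨ e = z) ∧ g * g = e := ⟨_, hsq g, rfl⟩
    have key : g * w * g⁻¹ = w * (e1 * e2⁻¹) := by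
      rw [← h1, ← h2]
      calc g * w * g⁻¹ = w * w * (g * w * g⁻¹) := by rw [hww, one_mul]
        _ = w * (w * g * (w * g) * (g * g)⁻¹) := by group
    rcases he1 with rfl | rfl <;> rcases he2 with rfl | rfl <;>
      simp only [one_mul, inv_one, mul_one, hzi, hzz] at key
    · exact Or.inl key
    · exact Or.inr key
    · exact Or.inr key
    · exact Or.inl key
  have invol_fix : ∀ w : H, w * w = 1 → w ≠ z → ∃ x : P, x ≠ 1 ∧ w • x = x := by
    intro w hw hwz
    by_contra hcon
    refine hwz (eq_of_inv_all (smul_eq_inv_of_fix_bot hrodd hexp hw fun x hx => ?_) hzinv)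
    by_contra hx1
    exact hcon ⟨x, hx1, hx⟩
  have invol_inv : ∀ w : H, w * w = 1 → w ≠ 1 → ∃ x : P, x ≠ 1 ∧ w • x = x⁻¹ := by
    intro w hw hw1
    obtain ⟨y, hy⟩ : ∃ y : P, w • y ≠ y := by
      by_contra hcon
      push Not at hcon
      exact hw1 (FaithfulSMul.eq_of_smul_eq_smul (α := P) fun x => by rw [hcon, one_smul])
    refine ⟨y * (w • y)⁻¹, fun h => hy (mul_inv_eq_one.1 h).symm, ?_⟩
    rw [smul_mul', smul_inv', smul_smul, hw, one_smul, mul_inv, inv_inv, mul_comm]
  have nofixinv : ∀ (w : H) (x : P), w • x = x → w • x = x⁻¹ → x = 1 := fun w x h h' =>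
    eq_one_of_self_inv hrodd hexp (h.symm.trans h')
  -- the union of the two eigenspaces of an involution is invariant
  let Z : H → Set P := fun w => {x | x ≠ 1 ∧ (w • x = x ∨ w • x = x⁻¹)}
  have hZinv : ∀ w : H, w * w = 1 → ∀ (g : H) (x : P), x ∈ Z w → g • x ∈ Z w := by
    rintro w hww g x ⟨hx1, hx⟩
    refine ⟨fun h => hx1 (by simpa using congrArg (fun t => g⁻¹ • t) h), ?_⟩
    have e : w • g • x = g • ((g⁻¹ * w * g⁻¹⁻¹) • x) := by
      rw [inv_inv, smul_smul, smul_smul]; congr 1; group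
    rw [e]
    rcases hsc g⁻¹ w hww with h | h <;> rw [h]
    · rcases hx with hx | hx <;> rw [hx] <;> simp [smul_inv']
    · rw [mul_smul, hzinv, smul_inv']
      rcases hx with hx | hx <;> rw [hx] <;> simp [smul_inv']
  have hmixed : ∀ (w : H) (x y : P), x ≠ 1 → y ≠ 1 → w • x = x → w • y = y⁻¹ →
      x * y ∉ Z w ∧ x * y ≠ 1 := by
    intro w x y hx1 hy1 hx hy
    have hxy : w • (x * y) = x * y⁻¹ := by rw [smul_mul', hx, hy]
    refine ⟨?_, fun h => ?_⟩
    · rintro ⟨-, h | h⟩ <;> rw [hxy] at h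
      · exact hy1 (eq_one_of_self_inv hrodd hexp (mul_left_cancel h).symm)
      · rw [mul_inv] at h
        exact hx1 (eq_one_of_self_inv hrodd hexp (mul_right_cancel h))
    · have e : x = y⁻¹ := eq_inv_of_mul_eq_one_left h
      refine hx1 (nofixinv w x hx ?_)
      rw [e, smul_inv', hy]
  have same : ∀ (o x y : P) (g g' : H), g • o = x → g' • o = y → ∃ k : H, k • x = y := by
    intro o x y g g' h1 h2
    exact ⟨g' * g⁻¹, by rw [mul_smul, ← h1, inv_smul_smul, h2]⟩
  have hmov : ∀ (k : H) (x : P), x ≠ 1 → k • x ≠ 1 := fun k x hx h =>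
    hx (by simpa using congrArg (fun t => k⁻¹ • t) h)
  -- each union is one orbit and its complement the other
  have horbZ : ∀ (w : H) (a b : P), w * w = 1 → a ≠ 1 → b ≠ 1 → w • a = a → w • b = b⁻¹ →
      MulAction.orbit H a = Z w ∧ MulAction.orbit H (a * b) = {x | x ≠ 1 ∧ x ∉ Z w} := by
    intro w a b hww ha1 hb1 ha hb
    obtain ⟨habZ, hab1⟩ := hmixed w a b ha1 hb1 ha hb
    have haZ : a ∈ Z w := ⟨ha1, Or.inl ha⟩
    have hsep : ∀ k : H, k • a ≠ a * b := fun k hk => habZ (hk ▸ hZinv w hww k a haZ)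
    have hcov : ∀ x : P, x ≠ 1 → (∃ k : H, k • a = x) ∨ ∃ k : H, k • (a * b) = x := by
      intro x hx
      rcases horb a ha1 with ⟨g1, e1⟩ | ⟨g1, e1⟩ <;> rcases horb (a * b) hab1 with ⟨g2, e2⟩ | ⟨g2, e2⟩ <;>
        rcases horb x hx with ⟨g3, e3⟩ | ⟨g3, e3⟩
      all_goals
        first
          | exact Or.inl (same _ _ _ _ _ e1 e3)
          | exact Or.inr (same _ _ _ _ _ e2 e3)
          | (obtain ⟨k, hk⟩ := same _ _ _ _ _ e1 e2; exact absurd hk (hsep k))
    have hcompl : ∀ k : H, k • (a * b) ∉ Z w := fun k hk => habZ (by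
      simpa using hZinv w hww k⁻¹ _ hk)
    constructor <;> ext x <;> constructor
    · rintro ⟨k, rfl⟩; exact hZinv w hww k a haZ
    · intro hx
      rcases hcov x hx.1 with ⟨k, rfl⟩ | ⟨k, rfl⟩
      · exact ⟨k, rfl⟩
      · exact absurd hx (hcompl k)
    · rintro ⟨k, rfl⟩; exact ⟨hmov k _ hab1, hcompl k⟩
    · rintro ⟨hx1, hxZ⟩
      rcases hcov x hx1 with ⟨k, rfl⟩ | ⟨k, rfl⟩
      · exact absurd (hZinv w hww k a haZ) hxZ
      · exact ⟨k, rfl⟩
  -- cardinalities
  have hsize : ∀ w : H, w * w = 1 → w ≠ 1 → w ≠ z → ∃ c : ℕ, 1 < c ∧ c * c = Nat.card P ∧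
      (Z w).ncard = 2 * (c - 1) ∧ Nat.card (orbFix w : Subgroup P) = c ∧
      Nat.card (orbInv w : Subgroup P) = c := by
    intro w hww hw1 hwz
    obtain ⟨a, ha1, ha⟩ := invol_fix w hww hwz
    obtain ⟨b, hb1, hb⟩ := invol_inv w hww hw1
    obtain ⟨hA, -⟩ := horbZ w a b hww ha1 hb1 ha hb
    obtain ⟨k, hk⟩ : b ∈ MulAction.orbit H a := by rw [hA]; exact ⟨hb1, Or.inr hb⟩
    simp only at hk
    have hkw : k * w * k⁻¹ = w * z := by
      refine (hsc k w hww).resolve_left fun h => hb1 (nofixinv w b ?_ hb)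
      rw [← hk, ← h, mul_smul, mul_smul, inv_smul_smul, ha]
    have hwk : w * k = k * (w * z) := by
      calc w * k = w * z * (z * k) := by rw [← mul_assoc, mul_assoc w z z, hzz, mul_one]
        _ = k * w * k⁻¹ * (k * z) := by rw [hkw, (hzc k).eq]
        _ = k * (w * z) := by group
    have heq : Nat.card (orbFix w : Subgroup P) = Nat.card (orbInv w : Subgroup P) := by
      refine Nat.card_congr ((MulAction.toPerm k).subtypeEquiv fun x => ?_)
      show w • x = x ↔ w • k • x = (k • x)⁻¹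
      rw [smul_smul w, hwk, mul_smul, mul_smul, hzinv, smul_inv', smul_inv', inv_inj,
        smul_left_cancel_iff]
    have hmul := card_fix_mul_card_inv hrodd hexp hww (g := w) (P := P)
    rw [← heq] at hmul
    refine ⟨_, ?_, hmul, ?_, rfl, heq.symm⟩
    · haveI : Nontrivial (orbFix w : Subgroup P) :=
        ⟨⟨⟨a, ha⟩, 1, fun h => ha1 (congrArg Subtype.val h)⟩⟩
      exact Finite.one_lt_card
    · have hset : Z w = ((orbFix w : Subgroup P) : Set P) \ {1} ∪
          ((orbInv w : Subgroup P) : Set P) \ {1} := by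
        ext x
        simp only [Z, Set.mem_union, Set.mem_diff, SetLike.mem_coe, mem_orbFix, mem_orbInv,
          Set.mem_singleton_iff, Set.mem_setOf_eq]
        exact ⟨fun h => h.2.elim (fun e => Or.inl ⟨e, h.1⟩) (fun e => Or.inr ⟨e, h.1⟩),
          fun h => h.elim (fun e => ⟨e.2, Or.inl e.1⟩) (fun e => ⟨e.2, Or.inr e.1⟩)⟩
      rw [hset, Set.ncard_union_eq ?_ (Set.toFinite _) (Set.toFinite _),
        Set.ncard_diff_singleton_of_mem (Subgroup.one_mem _),
        Set.ncard_diff_singleton_of_mem (Subgroup.one_mem _), ← Nat.card_coe_set_eq,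
        ← Nat.card_coe_set_eq, SetLike.coe_sort_coe, SetLike.coe_sort_coe, ← heq, two_mul]
      exact Set.disjoint_left.2 fun x hx hx' => hx.2 (nofixinv w x hx.1 hx'.1)
  obtain ⟨c, hc1, hcc, hZs, hFc, hIc⟩ := hsize s hss hs1 hsz
  have hcpow : ∃ e, c = r ^ e := by
    obtain ⟨e, he⟩ := IsPGroup.iff_card.mp
      (show IsPGroup r (orbFix s : Subgroup P) from fun x => ⟨1, Subtype.ext (by simpa using hexp (x : P))⟩)
    exact ⟨e, hFc.symm.trans he⟩
  have hc3 : 3 < c := by
    obtain ⟨e, he⟩ := hcpow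
    rcases hr with rfl | rfl
    · by_contra h
      have := hP9.1 rfl
      nlinarith
    · rcases e with _ | e
      · simp [he] at hc1
      · rw [he, pow_succ]
        have : 1 ≤ 5 ^ e := Nat.one_le_pow _ _ (by norm_num)
        omega
  obtain ⟨a, ha1, ha⟩ := invol_fix s hss hsz
  obtain ⟨b, hb1, hb⟩ := invol_inv s hss hs1
  obtain ⟨hA, hB⟩ := horbZ s a b hss ha1 hb1 ha hb
  obtain ⟨habZ, hab1⟩ := hmixed s a b ha1 hb1 ha hb
  have hBcard : (MulAction.orbit H (a * b)).ncard = (c - 1) * (c - 1) := by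
    have hsub : Z s ⊆ ({1}ᶜ : Set P) := fun x hx => hx.1
    rw [hB, show {x : P | x ≠ 1 ∧ x ∉ Z s} = ({1}ᶜ : Set P) \ Z s from rfl,
      Set.ncard_diff hsub (Set.toFinite _), hZs, Set.ncard_compl, Set.ncard_singleton, ← hcc]
    obtain ⟨c', rfl⟩ : ∃ c', c = c' + 1 := ⟨c - 1, by omega⟩
    simp only [Nat.add_sub_cancel]
    have e : (c' + 1) * (c' + 1) = c' * c' + 2 * c' + 1 := by ring
    omega
  -- every other involution has the same two eigenspaces
  have honly : ∀ w : H, w * w = 1 → w = 1 ∨ w = z ∨ w = s ∨ w = s * z := by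
    intro w hww
    by_cases hw1 : w = 1
    · exact Or.inl hw1
    by_cases hwz : w = z
    · exact Or.inr (Or.inl hwz)
    obtain ⟨c2, -, hc2, hZw, hFw, hIw⟩ := hsize w hww hw1 hwz
    obtain rfl : c2 = c := Nat.mul_self_inj.mp (hc2.trans hcc.symm)
    obtain ⟨a', ha'1, ha'⟩ := invol_fix w hww hwz
    obtain ⟨b', hb'1, hb'⟩ := invol_inv w hww hw1
    obtain ⟨hA', -⟩ := horbZ w a' b' hww ha'1 hb'1 ha' hb'
    have hZZ : Z w = Z s := by
      rw [← hA']
      by_cases h : a' ∈ Z s
      · rw [← hA] at h ⊢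
        exact MulAction.orbit_eq_iff.mpr h
      · have h' : a' ∈ MulAction.orbit H (a * b) := by rw [hB]; exact ⟨ha'1, h⟩
        have h2 := congrArg Set.ncard (MulAction.orbit_eq_iff.mpr h')
        rw [hA', hBcard, hZw] at h2
        obtain ⟨c', rfl⟩ : ∃ c', c2 = c' + 1 := ⟨c2 - 1, by omega⟩
        simp only [Nat.add_sub_cancel] at h2
        nlinarith
    have hsubset : ∀ E : Subgroup P, (∀ x ∈ E, x ≠ 1 → x ∈ Z s) → Nat.card E = c2 →
        E = orbFix s ∨ E = orbInv s := by
      intro E hE hEc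
      by_cases hF : E ≤ orbFix s
      · exact Or.inl (Subgroup.eq_of_le_of_card_ge hF (by rw [hFc, hEc]))
      obtain ⟨y, hyE, hy⟩ := SetLike.not_le_iff_exists.mp hF
      have hy1 : y ≠ 1 := fun h => hy (h ▸ one_mem _)
      have hyI : s • y = y⁻¹ := (hE y hyE hy1).2.resolve_left hy
      refine Or.inr (Subgroup.eq_of_le_of_card_ge (fun x hx => ?_) (by rw [hIc, hEc]))
      show s • x = x⁻¹
      by_cases hx1 : x = 1
      · simp [hx1]
      by_contra hxI
      have hxF : s • x = x := (hE x hx hx1).2.resolve_right hxI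
      exact (hmixed s x y hx1 hy1 hxF hyI).1 (hE _ (mul_mem hx hyE) (hmixed s x y hx1 hy1 hxF hyI).2)
    have h1 := hsubset (orbFix w) (fun x hx hx1 => hZZ ▸ (⟨hx1, Or.inl hx⟩ : x ∈ Z w)) hFw
    have h2 := hsubset (orbInv w) (fun x hx hx1 => hZZ ▸ (⟨hx1, Or.inr hx⟩ : x ∈ Z w)) hIw
    have hne : (orbFix w : Subgroup P) ≠ orbInv w := fun h =>
      ha'1 (nofixinv w a' ha' (show a' ∈ (orbInv w : Subgroup P) from h ▸ ha'))
    have sq_inj : ∀ x y : P, x ^ 2 = y ^ 2 → x = y := by
      intro x y h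
      have h2 : (x * y⁻¹) ^ 2 = 1 := by rw [mul_pow, inv_pow, h, mul_inv_cancel]
      exact mul_inv_eq_one.1 (eq_one_of_self_inv hrodd hexp
        (eq_inv_of_mul_eq_one_left (by rwa [pow_two] at h2)))
    have agree : ∀ t : H, t * t = 1 → (∀ x : P, w • x = x → t • x = x) →
        (∀ x : P, w • x = x⁻¹ → t • x = x⁻¹) → w = t := by
      intro t _ h1 h2
      refine FaithfulSMul.eq_of_smul_eq_smul (α := P) fun x => sq_inj _ _ ?_
      rw [← smul_pow', ← smul_pow', show x ^ 2 = (x * w • x) * (x * (w • x)⁻¹) by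
        rw [pow_two, mul_mul_mul_comm, mul_inv_cancel, mul_one]]
      have hwf : w • (x * w • x) = x * w • x := by
        rw [smul_mul', smul_smul, hww, one_smul, mul_comm]
      have hwi : w • (x * (w • x)⁻¹) = (x * (w • x)⁻¹)⁻¹ := by
        rw [smul_mul', smul_inv', smul_smul, hww, one_smul, mul_inv, inv_inv, mul_comm]
      rw [smul_mul' w, smul_mul' t, hwf, hwi, h1 _ hwf, h2 _ hwi]
    have hszsq : s * z * (s * z) = 1 := by
      rw [mul_assoc, ← mul_assoc z s z, ← hzcen s, mul_assoc s z z, hzz, mul_one, hss]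
    rcases h1 with h1 | h1 <;> rcases h2 with h2 | h2
    · exact absurd (h1.trans h2.symm) hne
    · refine Or.inr (Or.inr (Or.inl (agree s hss (fun x hx => ?_) fun x hx => ?_)))
      · exact (show x ∈ (orbFix s : Subgroup P) from h1 ▸ (show x ∈ (orbFix w : Subgroup P) from hx))
      · exact (show x ∈ (orbInv s : Subgroup P) from h2 ▸ (show x ∈ (orbInv w : Subgroup P) from hx))
    · refine Or.inr (Or.inr (Or.inr (agree _ hszsq (fun x hx => ?_) fun x hx => ?_)))
      · have : s • x = x⁻¹ :=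
          show x ∈ (orbInv s : Subgroup P) from h1 ▸ (show x ∈ (orbFix w : Subgroup P) from hx)
        rw [mul_smul, hzinv, smul_inv', this, inv_inv]
      · have : s • x = x :=
          show x ∈ (orbFix s : Subgroup P) from h2 ▸ (show x ∈ (orbInv w : Subgroup P) from hx)
        rw [mul_smul, hzinv, smul_inv', this]
    · exact absurd (h1.trans h2.symm) hne
  have hstab4 : ∀ (k : H) (x : P), x ≠ 1 → k • x = x → k * k = 1 := by
    intro k x hx1 hk
    by_contra h
    exact hx1 (hf4 k (hord k h) x hk)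
  -- the stabilisers
  have hHB : Nat.card H = (c - 1) * (c - 1) := by
    have hstab : MulAction.stabilizer H (a * b) = ⊥ := by
      rw [Subgroup.eq_bot_iff_forall]
      intro k hk
      rw [MulAction.mem_stabilizer_iff] at hk
      rcases honly k (hstab4 k _ hab1 hk) with rfl | rfl | rfl | rfl
      · rfl
      · exact absurd (nofixinv z _ hk (hzinv _)) hab1
      · exact absurd ⟨hab1, Or.inl hk⟩ habZ
      · exfalso
        rw [mul_smul, hzinv, smul_inv', inv_eq_iff_eq_inv] at hk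
        exact habZ ⟨hab1, Or.inr hk⟩
    rw [← hBcard, ← MulAction.index_stabilizer, hstab, Subgroup.index_bot]
  have hHA : Nat.card H = 2 * (2 * (c - 1)) := by
    have hstab : MulAction.stabilizer H a = Subgroup.zpowers s := by
      apply le_antisymm
      · intro k hk
        rw [MulAction.mem_stabilizer_iff] at hk
        rcases honly k (hstab4 k _ ha1 hk) with rfl | rfl | rfl | rfl
        · exact one_mem _
        · exact absurd (nofixinv z _ hk (hzinv _)) ha1
        · exact Subgroup.mem_zpowers _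
        · rw [mul_smul, hzinv, smul_inv', ha] at hk
          exact absurd (eq_one_of_self_inv hrodd hexp hk.symm) ha1
      · rw [Subgroup.zpowers_le]; exact ha
    rw [← hZs, ← hA, ← MulAction.index_stabilizer, hstab, mul_comm,
      show (2 : ℕ) = Nat.card (Subgroup.zpowers s) by
        rw [Nat.card_zpowers, orderOf_eq_prime (by rw [pow_two, hss]) hs1],
      Subgroup.index_mul_card]
  have hc5 : c = 5 := by
    obtain ⟨c', rfl⟩ : ∃ c', c = c' + 1 := ⟨c - 1, by omega⟩
    simp only [Nat.add_sub_cancel] at hHA hHB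
    nlinarith
  subst hc5
  obtain rfl : r = 5 := by
    obtain ⟨e, he⟩ := hcpow
    rcases hr with rfl | rfl
    · exfalso
      have : (5 : ℕ) ∣ 3 ^ e := he ▸ dvd_refl _
      exact absurd ((Nat.prime_five).dvd_of_dvd_pow this) (by norm_num)
    · rfl
  refine Or.inr ⟨rfl, Or.inr ⟨hcc.symm, ?_, h4⟩⟩
  -- an element squaring every point
  have hgen : ∀ (E : Subgroup P), Nat.card E = 5 → ∀ y ∈ E, y ≠ 1 → ∀ x ∈ E, ∃ i : ℤ, y ^ i = x := by
    intro E hE y hy hy1 x hx
    have : Subgroup.zpowers y = E := by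
      refine Subgroup.eq_of_le_of_card_ge (Subgroup.zpowers_le.2 hy) ?_
      rw [Nat.card_zpowers, hE, orderOf_eq_prime (hexp y) hy1]
    rw [← this] at hx
    exact Subgroup.mem_zpowers_iff.1 hx
  obtain ⟨k, hk⟩ : a ^ 2 ∈ MulAction.orbit H a := by
    rw [hA]
    refine ⟨fun h => ?_, Or.inl (by rw [smul_pow', ha])⟩
    exact ha1 (eq_one_of_self_inv hrodd hexp (eq_inv_of_mul_eq_one_left (by rwa [pow_two] at h)))
  simp only at hk
  have hks : k * s * k⁻¹ = s := by
    refine (hsc k s hss).resolve_right fun h => ha1 ?_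
    have h1 : (k * s * k⁻¹) • (a ^ 2) = a ^ 2 := by
      rw [← hk, mul_smul, mul_smul, inv_smul_smul, ha]
    rw [h, mul_smul, hzinv, smul_inv', smul_pow', ha] at h1
    have := eq_one_of_self_inv hrodd hexp h1.symm
    exact eq_one_of_self_inv hrodd hexp (eq_inv_of_mul_eq_one_left (by rwa [pow_two] at this))
  have hkF : ∀ x : P, s • x = x → k • x = x ^ 2 := by
    intro x hx
    obtain ⟨i, rfl⟩ := hgen _ hFc a ha ha1 x hx
    rw [smul_zpow', hk, ← zpow_natCast, ← zpow_natCast, ← zpow_mul, ← zpow_mul, mul_comm]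
  have hskk : s * k = k * s := by
    calc s * k = k * s * k⁻¹ * k := by rw [hks]
      _ = k * s := by group
  have hbI : k • b ∈ (orbInv s : Subgroup P) := by
    show s • k • b = (k • b)⁻¹
    rw [smul_smul, hskk, mul_smul, hb, smul_inv']
  obtain ⟨i, hi⟩ := hgen _ hIc b hb hb1 _ hbI
  have hkk : k * k = z := by
    refine (hsq k).resolve_left fun h => ha1 ?_
    have h1 := congrArg (· • a) h
    simp only [one_smul, mul_smul, hk, smul_pow', ← pow_mul] at h1
    have h5 := hexp a
    have e : a ^ 3 = 1 := mul_left_cancel (a := a) (by rw [← pow_succ', mul_one]; exact h1)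
    calc a = a ^ 3 * a ^ 3 * (a ^ 5)⁻¹ := by rw [← pow_add]; group
      _ = 1 := by rw [e, h5]; simp
  have hi2 : b ^ (i * i) = b ^ (-1 : ℤ) := by
    rw [zpow_neg_one, ← hzinv b, ← hkk, mul_smul, ← hi, smul_zpow', ← hi, zpow_mul]
  have hbo : orderOf b = 5 := orderOf_eq_prime (hexp b) hb1
  rw [zpow_eq_zpow_iff_modEq, hbo] at hi2
  have hbm : k • b = b ^ (i % 5) := by
    rw [← hi, zpow_eq_zpow_iff_modEq, hbo]
    exact (Int.mod_modEq i 5).symm
  have hcases : i % 5 = 2 ∨ i % 5 = 3 := by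
    have h := hi2
    rw [Int.ModEq, Int.mul_emod] at h
    have h0 := Int.emod_nonneg i (show (5 : ℤ) ≠ 0 by norm_num)
    have h1 := Int.emod_lt_of_pos i (show (0 : ℤ) < 5 by norm_num)
    interval_cases hm : i % 5 <;> first | omega | norm_num at h
  have finish : ∀ g : H, (∀ x : P, s • x = x → g • x = x ^ 2) → g • b = b ^ 2 →
      ∃ g : H, ∀ x : P, g • x = x ^ 2 := by
    intro g h1 h2
    refine ⟨g, fun x => ?_⟩
    have hsf : s • (x * s • x) = x * s • x := by
      rw [smul_mul', smul_smul, hss, one_smul, mul_comm]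
    have hsi : s • (x * (s • x)⁻¹) = (x * (s • x)⁻¹)⁻¹ := by
      rw [smul_mul', smul_inv', smul_smul, hss, one_smul, mul_inv, inv_inv, mul_comm]
    have h3 : ∀ y ∈ (orbInv s : Subgroup P), g • y = y ^ 2 := by
      intro y hy
      obtain ⟨j, rfl⟩ := hgen _ hIc b hb hb1 y hy
      rw [smul_zpow', h2, ← zpow_natCast, ← zpow_natCast, ← zpow_mul, ← zpow_mul, mul_comm]
    have e : x ^ 2 = (x * s • x) * (x * (s • x)⁻¹) := by
      rw [pow_two, mul_mul_mul_comm, mul_inv_cancel, mul_one]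
    have h4' : g • (x ^ 2) = (x ^ 2) ^ 2 := by
      rw [e, smul_mul', h1 _ hsf, h3 _ hsi, ← mul_pow]
    rw [smul_pow'] at h4'
    have h6 : (g • x) ^ 6 = ((x ^ 2) ^ 2) ^ 3 := by rw [← h4', ← pow_mul]
    rw [pow_succ _ 5, hexp, one_mul, ← pow_mul, ← pow_mul] at h6
    rw [h6, show 2 * 2 * 3 = 5 + 5 + 2 by norm_num, pow_add, pow_add, hexp, one_mul, one_mul]
  rcases hcases with h | h
  · refine finish k hkF ?_
    rw [hbm, h]; norm_cast
  · refine finish (k * s) (fun x hx => by rw [mul_smul, hx, hkF x hx]) ?_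
    rw [mul_smul, hb, smul_inv', hbm, h, ← zpow_neg, ← zpow_natCast, zpow_eq_zpow_iff_modEq, hbo]
    rfl

end CfsgLib.TISuzuki
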