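import Cfsg.Agent.TISuzuki.Spectrum
import Cfsg.Agent.TISuzuki.QBound
import Cfsg.Agent.TISuzuki.Orbit25

/-!
# The Sylow subgroup of the odd prime commuting with an involution
-/

set_option autoImplicit false
set_option linter.unusedSectionVars false
set_option linter.style.haveILetI false

noncomputable section

namespace CfsgLib.TISuzuki

open Cfsg Sys
open scoped Classical IsMulCommutative

universe u

variable {G : Type u} [Group G] [Fintype G]

/-- The automiser of a subgroup. -/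
abbrev automiser (P : Subgroup G) : Subgroup (MulAut ↥P) := (Subgroup.normalizerMonoidHom P).range

instance automiserFaithful (P : Subgroup G) : FaithfulSMul ↥(automiser P) ↥P :=
  ⟨fun {_ _} h => Subtype.ext (MulEquiv.ext h)⟩

/-- The element of the automiser induced by `g`. -/
def auto (P : Subgroup G) (g : ↥(Subgroup.normalizer (P : Set G))) : ↥(automiser P) :=
  ⟨Subgroup.normalizerMonoidHom P g, g, rfl⟩

theorem auto_coe {P : Subgroup G} [IsMulCommutative ↥P] (g : ↥(Subgroup.normalizer (P : Set G)))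
    (x : ↥P) : ((auto P g • x : ↥P) : G) = (g : G) * x * (g : G)⁻¹ := rfl

theorem auto_mul (P : Subgroup G) (g h : ↥(Subgroup.normalizer (P : Set G))) :
    auto P (g * h) = auto P g * auto P h := Subtype.ext (map_mul _ g h)

theorem auto_pow (P : Subgroup G) (g : ↥(Subgroup.normalizer (P : Set G))) (n : ℕ) :
    auto P (g ^ n) = auto P g ^ n := Subtype.ext (by simp [auto, map_pow])

theorem auto_surj {P : Subgroup G} (a : ↥(automiser P)) : ∃ g, auto P g = a := by
  obtain ⟨_, g, rfl⟩ := a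
  exact ⟨g, rfl⟩

theorem commute_of_auto_fix {P : Subgroup G} [IsMulCommutative ↥P]
    {g : ↥(Subgroup.normalizer (P : Set G))} {x : ↥P} (h : auto P g • x = x) :
    Commute (g : G) (x : G) := by
  have h' := congrArg Subtype.val h
  rw [auto_coe, mul_inv_eq_iff_eq_mul] at h'
  exact h'

/-- An element of prime power order has a preimage of prime power order. -/
theorem exists_lift_prime_pow {P : Subgroup G} {p k : ℕ} [Fact p.Prime] (a : ↥(automiser P))
    (ha : orderOf a = p ^ k) :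
    ∃ g, auto P g = a ∧ ∃ j, orderOf (g : G) = p ^ j := by
  obtain ⟨g, rfl⟩ := auto_surj a
  obtain ⟨i, m, hm, hn⟩ :=
    Nat.exists_eq_pow_mul_and_not_dvd (orderOf_pos (g : G)).ne' p (Fact.out (p := p.Prime)).ne_one
  have hco : m.Coprime (p ^ k) := by
    apply Nat.Coprime.pow_right
    exact ((Fact.out : p.Prime).coprime_iff_not_dvd.2 hm).symm
  obtain ⟨b, hb⟩ : ∃ b : ℕ, m * b ≡ 1 [MOD p ^ k] := by
    rcases Nat.eq_zero_or_pos k with rfl | hk
    · exact ⟨0, by simp [Nat.modEq_one]⟩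
    obtain ⟨b, hb⟩ := Nat.exists_mul_mod_eq_one_of_coprime hco
      (Nat.one_lt_pow hk.ne' (Fact.out : p.Prime).one_lt)
    exact ⟨b, by rw [Nat.ModEq, hb.2, Nat.one_mod_eq_one.2 (Nat.one_lt_pow hk.ne' (Fact.out : p.Prime).one_lt).ne']⟩
  refine ⟨g ^ (m * b), ?_, ?_⟩
  · rw [auto_pow]
    conv_rhs => rw [← pow_one (auto P g)]
    rw [pow_eq_pow_iff_modEq, ha]; exact hb
  · have hd : orderOf ((g ^ (m * b) : ↥(Subgroup.normalizer (P : Set G))) : G) ∣ p ^ i := by
      rw [orderOf_dvd_iff_pow_eq_one, SubgroupClass.coe_pow, ← pow_mul,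
        show m * b * p ^ i = p ^ i * m * b by ring, pow_mul, ← hn, pow_orderOf_eq_one, one_pow]
    obtain ⟨j, -, hj⟩ := (Nat.dvd_prime_pow (Fact.out : p.Prime)).1 hd
    exact ⟨j, hj⟩

/-- A preimage has order divisible by the order of the image. -/
theorem dvd_orderOf_lift {P : Subgroup G} (g : ↥(Subgroup.normalizer (P : Set G))) :
    orderOf (auto P g) ∣ orderOf (g : G) := by
  rw [orderOf_dvd_iff_pow_eq_one, ← auto_pow,
    show g ^ orderOf (g : G) = 1 from Subtype.ext (by simp [pow_orderOf_eq_one])]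
  exact Subtype.ext (map_one _)

/-- A power of prime order. -/
theorem exists_pow_order {H : Type*} [Monoid H] {x : H} (hx : orderOf x ≠ 0) {n : ℕ}
    (hn : n ∣ orderOf x) : ∃ i : ℕ, orderOf (x ^ i) = n := by
  refine ⟨orderOf x / n, ?_⟩
  rw [orderOf_pow_of_dvd (fun e => hx (by rw [← Nat.div_mul_cancel hn, e, zero_mul]))
    (Nat.div_dvd_of_dvd hn), Nat.div_div_self hn hx]

/-- The centraliser of an element. -/
abbrev ct (t : G) : Subgroup G := Subgroup.centralizer ({t} : Set G)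

variable {A B C : Subgroup G} {r : ℕ} {t u h : G}

namespace Two

theorem orderOf_mul_comm (W : Two A B C r t u h) {s x : G} {k : ℕ} (hs : orderOf s = 2 ^ k)
    (hx : orderOf x = r) (hc : Commute s x) : orderOf (s * x) = 2 ^ k * r := by
  rw [hc.orderOf_mul_eq_mul_orderOf_of_coprime (by
    rw [hs, hx]; exact ((Nat.coprime_primes Nat.prime_two W.prime).2 W.odd.symm).pow_left k), hs, hx]

/-- No element has order `r ^ 2`. -/
theorem no_sq (W : Two A B C r t u h) (x : G) : orderOf x ≠ r ^ 2 := by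
  intro hx
  haveI := Fact.mk W.prime
  have hN := W.not_dvd_N
  have three := W.three_le
  have hodd2 : Odd (r ^ 2) := W.odd'.pow
  have hsq : 3 * r ≤ r ^ 2 := by nlinarith
  obtain ⟨P, hP⟩ := (IsPGroup.of_card (n := 2) (by rw [Nat.card_zpowers, hx]) :
    IsPGroup r (Subgroup.zpowers x)).exists_le_sylow
  haveI hPc := W.sys.abl r W.prime W.odd hN P
  have hxP : x ∈ (P : Subgroup G) := hP (Subgroup.mem_zpowers x)
  have hnb : ∀ y : G, orderOf y = r ^ 2 → NotBase A B C t u h y := fun y hy =>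
    W.notBase_of_order (W.sys.outer_of_prime W.prime (hy ▸ dvd_pow_self r two_ne_zero) hN)
      (by omega) (by rw [hy]; exact fun e => by obtain ⟨i, hi⟩ := hodd2; omega) (by omega) (by omega)
  let NP := Subgroup.normalizer ((P : Subgroup G) : Set G)
  let X : Set ↥(P : Subgroup G) := {y | orderOf y = r ^ 2}
  have horbit : X = Set.range fun a : ↥(automiser (P : Subgroup G)) => a • (⟨x, hxP⟩ : ↥(P : Subgroup G)) := by
    ext y
    constructor
    · intro hy
      have hy' : orderOf (y : G) = r ^ 2 := by rw [Subgroup.orderOf_coe]; exact hy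
      obtain ⟨g, hg⟩ := isConj_iff.1 (W.extra_conj (hnb x hx) (hnb _ hy'))
      obtain ⟨n, hn, hn'⟩ := P.conj_eq_normalizer_conj_of_mem x g⁻¹ hxP (by rw [inv_inv, hg]; exact y.2)
      rw [inv_inv] at hn'
      refine ⟨auto _ ⟨n⁻¹, inv_mem hn⟩, Subtype.ext ?_⟩
      rw [auto_coe]
      simp only [inv_inv]
      rw [← hg, hn']
    · rintro ⟨a, rfl⟩
      show orderOf (a • (⟨x, hxP⟩ : ↥(P : Subgroup G))) = r ^ 2
      exact ((MulDistribMulAction.toMulEquiv _ a).orderOf_eq _).trans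
        ((Subgroup.orderOf_mk x hxP).trans hx)
  -- the orbit length is prime to `r`
  have hlen : ¬ r ∣ X.ncard := by
    have hidx : X.ncard = (MulAction.stabilizer ↥(automiser (P : Subgroup G))
        (⟨x, hxP⟩ : ↥(P : Subgroup G))).index := by
      rw [MulAction.index_stabilizer, horbit]; rfl
    intro hd
    rw [hidx] at hd
    have h1 : r ∣ Nat.card ↥(automiser (P : Subgroup G)) := hd.trans (Subgroup.index_dvd_card _)
    rw [← Subgroup.index_ker, Subgroup.normalizerMonoidHom_ker] at h1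
    have hle : (P : Subgroup G).subgroupOf NP ≤
        (Subgroup.centralizer ((P : Subgroup G) : Set G)).subgroupOf NP :=
      fun y hy => (P : Subgroup G).le_centralizer hy
    exact P.not_dvd_index
      ((h1.trans (Subgroup.index_dvd_of_le hle)).trans
        (Subgroup.relIndex_dvd_index_of_le Subgroup.le_normalizer))
  -- but the number of elements of order `r ^ 2` is divisible by `r`
  apply hlen
  let U : ℕ → Subgroup ↥(P : Subgroup G) := fun k =>
    { carrier := {y | y ^ r ^ k = 1}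
      one_mem' := one_pow _
      mul_mem' := fun {a b} ha hb => by
        simp only [Set.mem_setOf_eq] at ha hb ⊢
        rw [Commute.mul_pow (show Commute a b from mul_comm' a b), ha, hb, one_mul]
      inv_mem' := fun {a} ha => by
        simp only [Set.mem_setOf_eq] at ha ⊢
        rw [inv_pow, ha, inv_one] }
  have hU : ∀ k, r ∣ Nat.card (U (k + 1)) := fun k => by
    obtain ⟨i, hi⟩ := exists_pow_order (x := (⟨x, hxP⟩ : ↥(P : Subgroup G))) (n := r)
      (orderOf_pos _).ne' (by rw [Subgroup.orderOf_mk, hx]; exact dvd_pow_self r two_ne_zero)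
    have hmem : (⟨x, hxP⟩ : ↥(P : Subgroup G)) ^ i ∈ U (k + 1) := by
      show _ = 1
      rw [← orderOf_dvd_iff_pow_eq_one, hi]
      exact dvd_pow_self r (Nat.succ_ne_zero k)
    have := orderOf_dvd_natCard (⟨_, hmem⟩ : U (k + 1))
    rwa [Subgroup.orderOf_mk, hi] at this
  have hle : (U 1 : Set ↥(P : Subgroup G)) ⊆ U 2 := fun y hy => by
    show y ^ r ^ 2 = 1
    rw [pow_two, pow_mul, show y ^ r = 1 by simpa using (show y ^ r ^ 1 = 1 from hy), one_pow]
  have hX : X = (U 2 : Set ↥(P : Subgroup G)) \ (U 1 : Set ↥(P : Subgroup G)) := by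
    ext y
    show orderOf y = r ^ 2 ↔ y ^ r ^ 2 = 1 ∧ ¬ y ^ r ^ 1 = 1
    constructor
    · intro hy
      refine ⟨by rw [← hy, pow_orderOf_eq_one], fun e => ?_⟩
      have := Nat.le_of_dvd (pow_pos W.prime.pos 1) (orderOf_dvd_of_pow_eq_one e)
      rw [pow_one] at this
      omega
    · rintro ⟨h2, h1⟩
      exact orderOf_eq_prime_pow h1 h2
  rw [hX, Set.ncard_diff hle (Set.toFinite _), ← Nat.card_coe_set_eq, ← Nat.card_coe_set_eq]
  exact Nat.dvd_sub (hU 1) (hU 0)

theorem pow_r_eq_one (W : Two A B C r t u h) {x : G} {k : ℕ} (hx : orderOf x = r ^ k) :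
    x ^ r = 1 := by
  rw [← orderOf_dvd_iff_pow_eq_one, hx]
  rcases k with _ | _ | k
  · simp
  · simp
  · exfalso
    obtain ⟨i, hi⟩ := exists_pow_order (x := x) (n := r ^ 2) (orderOf_pos x).ne'
      ((Nat.pow_dvd_pow r (show 2 ≤ k + 1 + 1 by omega)).trans hx.symm.dvd)
    exact W.no_sq _ hi

theorem sylow_exp (W : Two A B C r t u h) {P : Subgroup G} (hP : IsPGroup r P) (x : ↥P) :
    x ^ r = 1 := by
  haveI := Fact.mk W.prime
  obtain ⟨k, hk⟩ := IsPGroup.iff_orderOf.1 hP x
  exact Subtype.ext (by rw [SubgroupClass.coe_pow]; exact W.pow_r_eq_one (by rw [Subgroup.orderOf_coe, hk]))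

/-- A second class of order `r` or `2r` excludes orders 8 and `4r`. -/
theorem no_big (W : Two A B C r t u h) {v : G} (hv : NotBase A B C t u h v)
    (hvo : orderOf v = r ∨ orderOf v = 2 * r) (g : G) : orderOf g ≠ 8 ∧ orderOf g ≠ 4 * r := by
  have three := W.three_le
  obtain ⟨i, hi⟩ := W.odd'
  constructor <;> intro hg
  · have n1 := W.notBase_of_order (W.sys.outer_of_even (x := g) (hg ▸ ⟨4, rfl⟩)) (by omega)
      (by omega) (by omega) (by omega)
    have := orderOf_eq_of_isConj (W.extra_conj hv n1)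
    omega
  · have n1 := W.notBase_of_order
      (W.sys.outer_of_even (x := g) (hg ▸ (show 2 ∣ 4 by norm_num).mul_right r)) (by omega)
      (by omega) (by omega) (by omega)
    have := orderOf_eq_of_isConj (W.extra_conj hv n1)
    omega

theorem order_r (W : Two A B C r t u h) {P : Subgroup G} (hP : IsPGroup r P) {x : ↥P} (hx : x ≠ 1) :
    orderOf (x : G) = r := by
  haveI := Fact.mk W.prime
  rw [Subgroup.orderOf_coe]
  exact orderOf_eq_prime (W.sylow_exp hP x) hx

/-- A prime of an element fixing a point of an `r`-subgroup is `2` or `r`. -/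
theorem prime_of_fix (W : Two A B C r t u h) {P : Subgroup G} [IsMulCommutative ↥P]
    (hP : IsPGroup r P) {p k : ℕ} (hp : p.Prime) {a : ↥(automiser P)} (hk : k ≠ 0)
    (ha : orderOf a = p ^ k) {x : ↥P} (hx : x ≠ 1) (hax : a • x = x) : p = 2 ∨ p = r := by
  haveI := Fact.mk hp
  obtain ⟨g, hg, j, hj⟩ := exists_lift_prime_pow a ha
  have hd := dvd_orderOf_lift g
  rw [hg, ha, hj] at hd
  have hj0 : j ≠ 0 := fun e => by
    rw [e, pow_zero, Nat.dvd_one] at hd
    exact (Nat.one_lt_pow hk hp.one_lt).ne' hd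
  obtain ⟨i, hi⟩ := exists_pow_order (x := (g : G)) (n := p) (orderOf_pos _).ne'
    (hj ▸ dvd_pow_self p hj0)
  exact W.prime_of_commute (Or.inr rfl) (W.order_r hP hx) hi hp
    ((commute_of_auto_fix (hg ▸ hax)).symm.pow_right i)

/-- An involution of an automiser fixes points centralised by an involution. -/
theorem invol_lift (W : Two A B C r t u h) {P : Subgroup G} [IsMulCommutative ↥P]
    (s : ↥(automiser P)) (hs : orderOf s = 2) :
    ∃ g0 : G, orderOf g0 = 2 ∧ ∀ x : ↥P, s • x = x → Commute g0 (x : G) := by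
  haveI : Fact (Nat.Prime 2) := ⟨Nat.prime_two⟩
  obtain ⟨g, hg, j, hj⟩ := exists_lift_prime_pow (p := 2) (k := 1) s (by rw [hs, pow_one])
  have hd := dvd_orderOf_lift g
  rw [hg, hs] at hd
  obtain ⟨i, hi⟩ := exists_pow_order (x := (g : G)) (n := 2) (orderOf_pos _).ne' hd
  exact ⟨(g : G) ^ i, hi, fun x hx => (commute_of_auto_fix (hg ▸ hx)).pow_left i⟩

/-- An odd prime of the automiser does not commute with an involution. -/
theorem no_commute (W : Two A B C r t u h) {P : Subgroup G} {p : ℕ} (hp : p.Prime) (hp2 : p ≠ 2)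
    (hpr : p ≠ r) {a s : ↥(automiser P)} (ha : orderOf a = p) (hs : orderOf s = 2)
    (hc : Commute a s) : False := by
  haveI : Fact (Nat.Prime 2) := ⟨Nat.prime_two⟩
  have hw : orderOf (a * s) = p * 2 := by
    rw [hc.orderOf_mul_eq_mul_orderOf_of_coprime (by
      rw [ha, hs]; exact (Nat.coprime_primes hp Nat.prime_two).2 hp2), ha, hs]
  obtain ⟨g, hg⟩ := auto_surj (a * s)
  have hd := dvd_orderOf_lift g
  rw [hg, hw] at hd
  obtain ⟨i, hi⟩ := exists_pow_order (x := (g : G)) (n := 2) (orderOf_pos _).ne'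
    ((dvd_mul_left 2 p).trans hd)
  obtain ⟨j, hj⟩ := exists_pow_order (x := (g : G)) (n := p) (orderOf_pos _).ne'
    ((dvd_mul_right p 2).trans hd)
  rcases W.prime_of_commute (Or.inl rfl) hi hj hp ((Commute.refl (g : G)).pow_pow i j) with e | e
  · exact hp2 e
  · exact hpr e

theorem not_dvd_automiser (W : Two A B C r t u h) {K : Type u} [Group K] [Finite K]
    (Q : Sylow r K) [IsMulCommutative ↥(Q : Subgroup K)] :
    ¬ r ∣ Nat.card ↥((Subgroup.normalizerMonoidHom (Q : Subgroup K)).range) := by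
  haveI := Fact.mk W.prime
  intro h1
  rw [← Subgroup.index_ker, Subgroup.normalizerMonoidHom_ker] at h1
  have hle : (Q : Subgroup K).subgroupOf (Subgroup.normalizer ((Q : Subgroup K) : Set K)) ≤
      (Subgroup.centralizer ((Q : Subgroup K) : Set K)).subgroupOf
        (Subgroup.normalizer ((Q : Subgroup K) : Set K)) :=
    fun y hy => (Q : Subgroup K).le_centralizer hy
  exact Q.not_dvd_index
    ((h1.trans (Subgroup.index_dvd_of_le hle)).trans
      (Subgroup.relIndex_dvd_index_of_le Subgroup.le_normalizer))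

theorem isMulComm_of_isPGroup (W : Two A B C r t u h) {R : Subgroup G} (hR : IsPGroup r R) :
    IsMulCommutative ↥R := by
  haveI := Fact.mk W.prime
  obtain ⟨P, hP⟩ := hR.exists_le_sylow
  haveI := W.sys.abl r W.prime W.odd W.not_dvd_N P
  refine ⟨⟨fun a b => ?_⟩⟩
  have h := congrArg Subtype.val (mul_comm' (⟨a, hP a.2⟩ : ↥(P : Subgroup G)) ⟨b, hP b.2⟩)
  exact Subtype.ext h

/-- The bound for the Sylow `r`-subgroup of the centraliser of `t`. -/
theorem cent_sylow (W : Two A B C r t u h) (Q : Sylow r ↥(ct t)) :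
    (r = 3 ∧ Nat.card ↥(Q : Subgroup ↥(ct t)) ≤ 9) ∨
    (r = 5 ∧ (Nat.card ↥(Q : Subgroup ↥(ct t)) ≤ 5 ∨
      (Nat.card ↥(Q : Subgroup ↥(ct t)) = 25 ∧
       (∀ x y : G, orderOf x = r → orderOf y = r → IsConj x y) ∧
       (∀ g : G, orderOf g ≠ 8 ∧ orderOf g ≠ 4 * r) ∧
       ∃ k : G, Commute k t ∧
         ∀ x ∈ (Q : Subgroup ↥(ct t)), k * (x : G) * k⁻¹ = (x : G) ^ 2))) := by
  haveI := Fact.mk W.prime
  haveI : Fact (Nat.Prime 2) := ⟨Nat.prime_two⟩
  set Qg : Subgroup G := (Q : Subgroup (ct t)).map (ct t).subtype with hQg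
  have hQp : IsPGroup r Qg := Q.2.map _
  haveI := W.isMulComm_of_isPGroup hQp
  have hQT : Qg ≤ (ct t) := Subgroup.map_subtype_le _
  have htc : ∀ {y : G}, y ∈ (ct t) → Commute t y := fun hy =>
    (Subgroup.mem_centralizer_singleton_iff.1 hy).symm
  have hcard : Nat.card Qg = Nat.card ↥(Q : Subgroup (ct t)) :=
    Subgroup.card_map_of_injective (ct t).subtype_injective
  haveI hQc : IsMulCommutative ↥(Q : Subgroup (ct t)) := ⟨⟨fun a b => by
    have := congrArg Subtype.val (mul_comm' (⟨_, Subgroup.mem_map_of_mem (ct t).subtype a.2⟩ : Qg)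
      ⟨_, Subgroup.mem_map_of_mem (ct t).subtype b.2⟩)
    exact Subtype.ext (Subtype.ext this)⟩⟩
  -- the automiser inside the centraliser
  let NT := (Subgroup.normalizer ((Q : Subgroup (ct t)) : Set (ct t)))
  have hsmul : ∀ (n : NT) (x : ↥(Q : Subgroup (ct t))),
      ((((⟨_, n, rfl⟩ : (automiser (Q : Subgroup (ct t)))) • x : ↥(Q : Subgroup (ct t))) : (ct t)) : G) = ((n : (ct t)) : G) * ((x : (ct t)) : G) * ((n : (ct t)) : G)⁻¹ :=
    fun _ _ => rfl
  have hdvd : ∀ (n : NT), orderOf (⟨_, n, rfl⟩ : (automiser (Q : Subgroup (ct t)))) ∣ orderOf ((n : (ct t)) : G) := fun n => by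
    rw [Subgroup.orderOf_coe, Subgroup.orderOf_coe]
    exact orderOf_map_dvd (Subgroup.normalizerMonoidHom (Q : Subgroup (ct t))).rangeRestrict n
  have hsurj : ∀ a : (automiser (Q : Subgroup (ct t))), ∃ n : NT, (⟨_, n, rfl⟩ : (automiser (Q : Subgroup (ct t)))) = a := by
    rintro ⟨_, n, rfl⟩; exact ⟨n, rfl⟩
  have hH2 : IsPGroup 2 (automiser (Q : Subgroup (ct t))) := by
    refine IsPGroup.of_card (n := (Nat.card (automiser (Q : Subgroup (ct t)))).primeFactorsList.length)
      (Nat.eq_prime_pow_of_unique_prime_dvd Nat.card_pos.ne' fun {p} hp hpd => ?_)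
    haveI := Fact.mk hp
    obtain ⟨a, ha⟩ := exists_prime_orderOf_dvd_card' p hpd
    obtain ⟨n, rfl⟩ := hsurj a
    obtain ⟨i, hi⟩ := exists_pow_order (x := ((n : (ct t)) : G)) (n := p) (orderOf_pos _).ne'
      (ha ▸ hdvd n)
    exact (W.prime_of_commute (Or.inl rfl) W.ht hi hp ((htc (n : (ct t)).2).pow_right i)).resolve_right
      fun e => W.not_dvd_automiser Q (e ▸ hpd)
  have hexp : ∀ x : ↥(Q : Subgroup (ct t)), x ^ r = 1 := fun x => by
    have := congrArg Subtype.val
      (W.sylow_exp hQp ⟨((x : (ct t)) : G), Subgroup.mem_map_of_mem (ct t).subtype x.2⟩)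
    exact Subtype.ext (Subtype.ext this)
  have hxo : ∀ x : ↥(Q : Subgroup (ct t)), x ≠ 1 → orderOf ((x : (ct t)) : G) = r := fun x hx => by
    rw [Subgroup.orderOf_coe, Subgroup.orderOf_coe]; exact orderOf_eq_prime (hexp x) hx
  -- fusion of the elements `t x`
  have hfuse : ∀ x y : ↥(Q : Subgroup (ct t)), IsConj (t * ((x : (ct t)) : G)) (t * ((y : (ct t)) : G)) →
      ∃ a : (automiser (Q : Subgroup (ct t))), a • x = y := by
    intro x y hc
    obtain ⟨g, hg⟩ := isConj_iff.1 hc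
    have hxr : ∀ z : ↥(Q : Subgroup (ct t)), ((z : (ct t)) : G) ^ r = 1 := fun z =>
      congrArg (fun w : ↥(Q : Subgroup (ct t)) => ((w : (ct t)) : G)) (hexp z)
    obtain ⟨px, qx⟩ := W.pow_r W.sq_t (hxr x) (htc (x : (ct t)).2)
    obtain ⟨py, qy⟩ := W.pow_r W.sq_t (hxr y) (htc (y : (ct t)).2)
    have h1 : g * t * g⁻¹ = t := by
      have := congrArg (· ^ r) hg
      simp only [conj_pow] at this
      rwa [px, py] at this
    have h2 : g * ((x : (ct t)) : G) * g⁻¹ = ((y : (ct t)) : G) := by rw [← qy, ← hg, conj_pow, qx]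
    have hgT : g ∈ (ct t) := Subgroup.mem_centralizer_singleton_iff.2 (mul_inv_eq_iff_eq_mul.1 h1)
    have hgy : (⟨g, hgT⟩ : (ct t)) * (x : (ct t)) * (⟨g, hgT⟩ : (ct t))⁻¹ = (y : (ct t)) := Subtype.ext h2
    obtain ⟨n, hn, hn'⟩ := Q.conj_eq_normalizer_conj_of_mem (x : (ct t)) (⟨g, hgT⟩ : (ct t))⁻¹ x.2
      (by rw [inv_inv, hgy]; exact y.2)
    rw [inv_inv, hgy] at hn'
    refine ⟨⟨_, ⟨n⁻¹, inv_mem hn⟩, rfl⟩, Subtype.ext (Subtype.ext ?_)⟩
    rw [hsmul, hn']
    simp
  have hbase : ∀ x : ↥(Q : Subgroup (ct t)), x ≠ 1 → IsConj (t * ((x : (ct t)) : G)) (t * u) ∨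
      NotBase A B C t u h (t * ((x : (ct t)) : G)) := by
    intro x hx
    have ho : orderOf (t * ((x : (ct t)) : G)) = 2 * r := by
      rw [W.orderOf_mul_comm (k := 1) (by rw [W.ht, pow_one]) (hxo x hx) (htc (x : (ct t)).2), pow_one]
    by_cases hc : IsConj (t * ((x : (ct t)) : G)) (t * u)
    · exact Or.inl hc
    right
    have := W.three_le
    obtain ⟨i, hi⟩ := W.odd'
    exact ⟨W.sys.outer_of_even ((dvd_mul_right 2 r).trans ho.symm.dvd),
      fun e => by have := orderOf_eq_of_isConj e; rw [ho, W.ht] at this; omega,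
      fun e => by have := orderOf_eq_of_isConj e; rw [ho, W.hh] at this; omega,
      fun e => by have := orderOf_eq_of_isConj e; rw [ho, W.hu] at this; omega, hc⟩
  by_cases hQ1 : Nat.card ↥(Q : Subgroup (ct t)) ≤ 1
  · rcases W.three_or_five with rfl | rfl
    · exact Or.inl ⟨rfl, by omega⟩
    · exact Or.inr ⟨rfl, Or.inl (by omega)⟩
  haveI : Nontrivial ↥(Q : Subgroup (ct t)) := Finite.one_lt_card_iff_nontrivial.1 (by omega)
  obtain ⟨x0, hx0⟩ := exists_ne (1 : ↥(Q : Subgroup (ct t)))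
  by_cases htrans : ∀ x : ↥(Q : Subgroup (ct t)), x ≠ 1 → ∃ a : (automiser (Q : Subgroup (ct t))), a • x0 = x
  · -- one orbit
    rcases qbound W.three_or_five hexp hH2 x0 x0 (fun x hx => Or.inl (htrans x hx)) (Or.inl htrans)
      with ⟨h3, hb⟩ | ⟨h5, hb | ⟨h25, -, -⟩⟩
    · exact Or.inl ⟨h3, hb⟩
    · exact Or.inr ⟨h5, Or.inl hb⟩
    · exfalso
      obtain ⟨n, hn⟩ := IsPGroup.iff_card.1 hH2
      have horbit : MulAction.orbit (automiser (Q : Subgroup (ct t))) x0 = ({1}ᶜ : Set ↥(Q : Subgroup (ct t))) := by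
        ext x
        refine ⟨?_, fun hx => htrans x hx⟩
        rintro ⟨a, rfl⟩
        show a • x0 ≠ 1
        exact fun h1 => hx0 (smul_eq_iff_eq_inv_smul a |>.mp h1 |>.trans (smul_one _))
      have hidx := MulAction.index_stabilizer (G := (automiser (Q : Subgroup (ct t)))) (x := x0)
      rw [horbit, Set.ncard_compl, Set.ncard_singleton, h25] at hidx
      have h24 : (24 : ℕ) ∣ 2 ^ n := by
        rw [← hn, show 24 = 25 - 1 from rfl, ← hidx]; exact Subgroup.index_dvd_card _
      exact absurd ((Nat.prime_three).dvd_of_dvd_pow ((show 3 ∣ 24 by norm_num).trans h24)) (by norm_num)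
  push Not at htrans
  obtain ⟨x1, hx1, hx1'⟩ := htrans
  have hsame : ∀ x y : ↥(Q : Subgroup (ct t)),
      NotBase A B C t u h (t * ((x : (ct t)) : G)) → NotBase A B C t u h (t * ((y : (ct t)) : G)) →
      ∃ a : (automiser (Q : Subgroup (ct t))), a • x = y := fun x y hx hy => hfuse x y (W.extra_conj hx hy)
  obtain ⟨v, hv, hvQ, hvo⟩ : ∃ v : ↥(Q : Subgroup (ct t)), v ≠ 1 ∧ NotBase A B C t u h (t * ((v : (ct t)) : G)) ∧
      orderOf (t * ((v : (ct t)) : G)) = 2 * r := by
    rcases hbase x0 hx0 with h0 | h0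
    · rcases hbase x1 hx1 with h1 | h1
      · obtain ⟨a, ha⟩ := hfuse x0 x1 (h0.trans h1.symm)
        exact absurd ha (hx1' a)
      · exact ⟨x1, hx1, h1, by rw [W.orderOf_mul_comm (k := 1) (by rw [W.ht, pow_one]) (hxo x1 hx1) (htc (x1 : (ct t)).2), pow_one]⟩
    · exact ⟨x0, hx0, h0, by rw [W.orderOf_mul_comm (k := 1) (by rw [W.ht, pow_one]) (hxo x0 hx0) (htc (x0 : (ct t)).2), pow_one]⟩
  have hbig := W.no_big hvQ (Or.inr hvo)
  obtain ⟨w, hw⟩ : ∃ w : ↥(Q : Subgroup (ct t)), ∀ x : ↥(Q : Subgroup (ct t)), x ≠ 1 →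
      IsConj (t * ((x : (ct t)) : G)) (t * u) → ∃ a : (automiser (Q : Subgroup (ct t))), a • w = x := by
    by_cases he : ∃ w : ↥(Q : Subgroup (ct t)), IsConj (t * ((w : (ct t)) : G)) (t * u)
    · obtain ⟨w, hw⟩ := he
      exact ⟨w, fun x _ hc => hfuse w x (hw.trans hc.symm)⟩
    · exact ⟨x0, fun x _ hc => absurd ⟨x, hc⟩ he⟩
  have horb : ∀ x : ↥(Q : Subgroup (ct t)), x ≠ 1 → (∃ a : (automiser (Q : Subgroup (ct t))), a • w = x) ∨ ∃ a : (automiser (Q : Subgroup (ct t))), a • v = x := by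
    intro x hx
    rcases hbase x hx with hc | hc
    · exact Or.inl (hw x hx hc)
    · exact Or.inr (hsame v x hvQ hc)
  have h8 : ∀ a : (automiser (Q : Subgroup (ct t))), a ^ 4 = 1 := by
    intro a
    obtain ⟨j, hj⟩ := IsPGroup.iff_orderOf.1 hH2 a
    obtain ⟨n, rfl⟩ := hsurj a
    rw [← orderOf_dvd_iff_pow_eq_one, hj]
    by_contra hcon
    have h3 : 3 ≤ j := by
      by_contra h
      exact hcon ((Nat.pow_dvd_pow 2 (show j ≤ 2 by omega)).trans (by norm_num))
    obtain ⟨i, hi⟩ := exists_pow_order (x := ((n : (ct t)) : G)) (n := 8) (orderOf_pos _).ne'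
      ((show 8 ∣ 2 ^ j from Nat.pow_dvd_pow 2 h3).trans (hj ▸ hdvd n))
    exact (hbig _).1 hi
  have hf4 : ∀ a : (automiser (Q : Subgroup (ct t))), orderOf a = 4 → ∀ x : ↥(Q : Subgroup (ct t)), a • x = x → x = 1 := by
    intro a ha x hx
    by_contra hne
    obtain ⟨n, rfl⟩ := hsurj a
    obtain ⟨i, hi⟩ := exists_pow_order (x := ((n : (ct t)) : G)) (n := 4) (orderOf_pos _).ne' (ha ▸ hdvd n)
    have hc : Commute ((n : (ct t)) : G) ((x : (ct t)) : G) :=
      mul_inv_eq_iff_eq_mul.1 ((hsmul n x).symm.trans (congrArg (fun z : ↥(Q : Subgroup (ct t)) => ((z : (ct t)) : G)) hx))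
    refine (hbig (((n : (ct t)) : G) ^ i * ((x : (ct t)) : G))).2 ?_
    rw [W.orderOf_mul_comm (k := 2) (by rw [hi]; norm_num) (hxo x hne) (hc.pow_left i)]
    norm_num
  rcases qbound W.three_or_five hexp hH2 w v horb (Or.inr ⟨h8, hf4⟩)
    with ⟨h3, hb⟩ | ⟨h5, hb | ⟨h25, ⟨k, hk⟩, -⟩⟩
  · exact Or.inl ⟨h3, hb⟩
  · exact Or.inr ⟨h5, Or.inl hb⟩
  · obtain ⟨n, rfl⟩ := hsurj k
    refine Or.inr ⟨h5, Or.inr ⟨h25, ?_, hbig, ((n : (ct t)) : G), (htc (n : (ct t)).2).symm, fun x hx => ?_⟩⟩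
    · -- all elements of order `r` are conjugate
      have hall : ∀ x : G, orderOf x = r → IsConj x u := by
        intro x hx
        by_contra hne
        have three := W.three_le
        obtain ⟨i, hi⟩ := W.odd'
        have n1 : NotBase A B C t u h x := ⟨W.sys.outer_of_prime W.prime (hx ▸ dvd_refl r) W.not_dvd_N,
          fun e => by have := orderOf_eq_of_isConj e; rw [hx, W.ht] at this; omega,
          fun e => by have := orderOf_eq_of_isConj e; rw [hx, W.hh] at this; omega, hne,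
          fun e => by have := orderOf_eq_of_isConj e; rw [hx, W.orderOf_y] at this; omega⟩
        have := orderOf_eq_of_isConj (W.extra_conj n1 hvQ)
        omega
      exact fun x y hx hy => (hall x hx).trans (hall y hy).symm
    · have := congrArg (fun z : ↥(Q : Subgroup (ct t)) => ((z : (ct t)) : G)) (hk ⟨x, hx⟩)
      simpa [hsmul] using this

end Two

end CfsgLib.TISuzuki
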