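import Cfsg.Agent.TISuzuki.Family

/-!
# Multiplicities on a strongly self-centralising subgroup

The orthogonality relations of the columns give all inner products between the vectors
`χ ↦ <χ|A, φ>` for `φ` of degree zero.
-/

set_option autoImplicit false
set_option linter.unusedSectionVars false
set_option linter.style.haveILetI false

noncomputable section

namespace CfsgLib.TISuzuki

open Cfsg CfsgLib.Chars
open scoped ComplexConjugate Classical

universe u

variable {G : Type u} [Group G] [Fintype G] (A : Subgroup G)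

theorem dual_finite (A : Subgroup G) : Finite (Dual A) :=
  Nat.finite_of_card_ne_zero (by
    rw [card_monoidHom_units]; exact Subgroup.index_ne_zero_of_finite)

instance instFintypeDual : Fintype (Dual A) :=
  haveI := dual_finite A
  Fintype.ofFinite _

/-- The weighted restriction of a character. -/
def wt (φ : ↥A → ℂ) (χ : IrrCharacter G) : ℂ :=
  (Nat.card A : ℂ)⁻¹ * ∑ a : ↥A, (χ : G → ℂ) a * conj (φ a)

/-- A homomorphism as a function. -/
def lf (l : Dual A) : ↥A → ℂ := fun a => ((l a : ℂˣ) : ℂ)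

theorem wt_sub (φ ψ : ↥A → ℂ) (χ : IrrCharacter G) : wt A (φ - ψ) χ = wt A φ χ - wt A ψ χ := by
  simp only [wt, Pi.sub_apply, map_sub, mul_sub, Finset.sum_sub_distrib]

theorem exists_mult (χ : IrrCharacter G) (l : Dual A) :
    ∃ n : ℕ, wt A (lf A l) χ = n := by
  obtain ⟨n, hn⟩ := exists_nat_classInner (isCharacter_restrict (isCharacter_coe χ) A) (linChar l)
  exact ⟨n, by rw [← hn]; rfl⟩

/-- The multiplicity of `l` in the restriction of `χ`. -/
def mult (χ : IrrCharacter G) (l : Dual A) : ℤ := ((exists_mult A χ l).choose : ℤ)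

theorem mult_spec (χ : IrrCharacter G) (l : Dual A) : (mult A χ l : ℂ) = wt A (lf A l) χ := by
  rw [mult, Int.cast_natCast]; exact (exists_mult A χ l).choose_spec.symm

theorem wt_diff (χ : IrrCharacter G) (l m : Dual A) :
    wt A (lf A l - lf A m) χ = ((mult A χ l - mult A χ m : ℤ) : ℂ) := by
  rw [wt_sub, Int.cast_sub, mult_spec, mult_spec]

theorem lf_one_sub (l m : Dual A) : (lf A l - lf A m) 1 = 0 := by simp [lf]

theorem conj_lf (l : Dual A) (a : ↥A) : conj (lf A l a) = lf A l a⁻¹ :=
  (map_inv_eq_conj (isCharacter_coe (linChar l)) a).symm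

theorem sum_lf (l : Dual A) : ∑ a : ↥A, lf A l a = if l = 1 then (Nat.card A : ℂ) else 0 := by
  split_ifs with h
  · subst h; simp [lf]
  · have : (Units.coeHom ℂ).comp l ≠ 1 := fun e => h (by
      ext a; exact DFunLike.congr_fun e a)
    exact sum_hom_units_eq_zero _ this

theorem lf_inner (l m : Dual A) :
    (Nat.card A : ℂ)⁻¹ * ∑ a : ↥A, conj (lf A l a) * lf A m a = if l = m then 1 else 0 := by
  have e : ∑ a : ↥A, conj (lf A l a) * lf A m a = ∑ a : ↥A, lf A (l⁻¹ * m) a := by
    refine Finset.sum_congr rfl fun a _ => ?_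
    rw [conj_lf]; simp [lf, map_inv]
  rw [e, sum_lf]
  by_cases h : l = m
  · subst h
    have h1 : l⁻¹ * l = 1 := inv_mul_cancel l
    simp only [h1, if_true]
    exact inv_mul_cancel₀ (Nat.cast_ne_zero.2 Nat.card_pos.ne')
  · rw [if_neg h, if_neg (fun e' => h (inv_mul_eq_one.1 e')), mul_zero]

theorem mult_one (l : Dual A) : mult A (oneChar G) l = if l = 1 then 1 else 0 := by
  apply Int.cast_injective (α := ℂ)
  rw [mult_spec, wt]
  have := lf_inner A l 1
  simp only [lf, MonoidHom.one_apply, Units.val_one, mul_one] at this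
  simp only [oneChar_apply, one_mul, lf, this, eq_comm (a := (1 : Dual A))]
  split_ifs <;> simp

/-- The multiplicities are invariant under the normaliser. -/
theorem mult_act (χ : IrrCharacter G) (l : Dual A) (g : ↥(Nz A)) :
    mult A χ (act l g) = mult A χ l := by
  apply Int.cast_injective (α := ℂ)
  rw [mult_spec, mult_spec, wt, wt]
  congr 1
  refine Fintype.sum_bijective _ (cj_bijective A g) _ _ fun a => ?_
  rw [cj_coe, isClassFunction_coe χ (a : G) (g : G)]
  rfl

/-- The degree is the sum of all multiplicities. -/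
theorem sum_mult (hA : IsMulCommutative ↥A) (χ : IrrCharacter G) :
    ∑ l : Dual A, mult A χ l = (charDegree (χ : G → ℂ) : ℤ) := by
  apply Int.cast_injective (α := ℂ)
  have hc : commutator ↥A = ⊥ := by
    rw [commutator_eq_bot_iff_center_eq_top]
    haveI := hA
    exact Subgroup.center_eq_top ..
  have hdual : ∀ a : ↥A, ∑ l : Dual A, conj (lf A l a) = if a = 1 then (Nat.card A : ℂ) else 0 := by
    intro a
    split_ifs with h
    · subst h
      simp only [lf, map_one, Units.val_one, Finset.sum_const, Finset.card_univ, nsmul_eq_mul,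
        mul_one]
      rw [← Nat.card_eq_fintype_card, card_monoidHom_units, hc, Subgroup.index_bot]
    · obtain ⟨l0, hl0⟩ := exists_linChar_ne_one (g := a) (by rw [hc]; simpa using h)
      have e : ∑ l : Dual A, conj (lf A l a) =
          conj (lf A l0 a) * ∑ l : Dual A, conj (lf A l a) := by
        rw [Finset.mul_sum, ← Equiv.sum_comp (Equiv.mulLeft l0) (fun l : Dual A => conj (lf A l a))]
        exact Finset.sum_congr rfl fun l _ => by simp [lf]
      have hne : conj (lf A l0 a) ≠ 1 := fun e' => hl0 (by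
        have := congrArg conj e'
        simpa [lf] using this)
      by_contra h0
      exact hne (mul_right_cancel₀ h0 (e.symm.trans (one_mul _).symm))
  push_cast
  simp only [mult_spec, wt, ← Finset.mul_sum]
  rw [Finset.sum_comm]
  simp only [← Finset.mul_sum, hdual, mul_ite, mul_zero, Finset.sum_ite_eq', Finset.mem_univ,
    if_true, OneMemClass.coe_one, coe_charDegree]
  field_simp

theorem wt_degree (φ : ↥A → ℂ) (h1 : φ 1 = 0) :
    ∑ χ : IrrCharacter G, (χ : G → ℂ) 1 * wt A φ χ = 0 := by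
  simp only [wt, Finset.mul_sum]
  rw [Finset.sum_comm]
  refine Finset.sum_eq_zero fun a _ => ?_
  have e : ∀ χ : IrrCharacter G, (χ : G → ℂ) 1 * ((Nat.card A : ℂ)⁻¹ * ((χ : G → ℂ) a * conj (φ a)))
      = ((Nat.card A : ℂ)⁻¹ * conj (φ a)) * ((χ : G → ℂ) 1 * (χ : G → ℂ) a) := fun χ => by ring
  simp only [e, ← Finset.mul_sum, sum_irr_map_one_mul]
  by_cases ha : (a : G) = 1
  · rw [show a = 1 from Subtype.ext ha, h1]; simp
  · rw [if_neg ha, mul_zero]

/-- The general Gram formula. -/
theorem wt_gram (B : Subgroup G) (φ : ↥A → ℂ) (ψ : ↥B → ℂ) :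
    ∑ χ : IrrCharacter G, wt A φ χ * conj (wt B ψ χ) =
      (Nat.card A : ℂ)⁻¹ * (Nat.card B : ℂ)⁻¹ * ∑ a : ↥A, ∑ b : ↥B, conj (φ a) * ψ b *
        if IsConj (a : G) b then (Nat.card (Subgroup.centralizer ({(a : G)} : Set G)) : ℂ)
        else 0 := by
  simp only [wt, map_mul, map_sum, map_inv₀, map_natCast, Complex.conj_conj]
  simp only [Finset.mul_sum, Finset.sum_mul]
  conv_lhs => rw [Finset.sum_comm]
  conv_lhs => arg 2; ext b; rw [Finset.sum_comm]
  conv_rhs => rw [Finset.sum_comm]
  refine Finset.sum_congr rfl fun b _ => Finset.sum_congr rfl fun a _ => ?_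
  have hs := sum_irr_mul_conj (a : G) (b : G)
  calc _ = (Nat.card A : ℂ)⁻¹ * (Nat.card B : ℂ)⁻¹ * (conj (φ a) * ψ b *
        ∑ χ : IrrCharacter G, (χ : G → ℂ) a * conj ((χ : G → ℂ) b)) := by
        simp only [Finset.mul_sum]
        exact Finset.sum_congr rfl fun χ _ => by ring
    _ = _ := by rw [hs]; congr

variable {A} {e : ℕ}

theorem Fam.commInst (h : Fam A e) : IsMulCommutative ↥A :=
  ⟨⟨fun a b => Subtype.ext (h.comm a.2 b.2)⟩⟩

/-- The Gram formula within one family. -/
theorem Fam.wt_gram_self (h : Fam A e) (φ ψ : ↥A → ℂ) (hφ : φ 1 = 0) :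
    ∑ χ : IrrCharacter G, wt A φ χ * conj (wt A ψ χ) =
      ∑ q : Aut' A, (Nat.card A : ℂ)⁻¹ * ∑ a : ↥A, conj (φ a) * ψ (cj A q.out a) := by
  rw [wt_gram, ← Finset.mul_sum, mul_assoc, Finset.sum_comm (s := (Finset.univ : Finset (Aut' A)))]
  congr 1
  rw [Finset.mul_sum]
  refine Finset.sum_congr rfl fun a _ => ?_
  by_cases ha : a = 1
  · subst ha; simp [hφ]
  have hC : (Nat.card (Subgroup.centralizer ({(a : G)} : Set G)) : ℂ) = Nat.card A := by
    rw [h.cent _ a.2 (fun e' => ha (Subtype.ext e'))]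
  have e1 : ∀ b : ↥A, conj (φ a) * ψ b *
      (if IsConj (a : G) b then (Nat.card (Subgroup.centralizer ({(a : G)} : Set G)) : ℂ) else 0) =
      if IsConj (a : G) b then conj (φ a) * ψ b * Nat.card A else 0 := fun b => by
    rw [hC]; split_ifs <;> simp
  simp only [e1, ← Finset.sum_filter]
  have himg : (Finset.univ.filter fun b : ↥A => IsConj (a : G) b) =
      Finset.univ.image fun q : Aut' A => cj A q.out a := by
    ext b
    simp only [Finset.mem_filter, Finset.mem_univ, true_and, Finset.mem_image]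
    constructor
    · exact fun hb => h.exists_cj_out_of_isConj ha hb
    · rintro ⟨q, rfl⟩
      exact isConj_iff.2 ⟨q.out, by simp⟩
  rw [himg, Finset.sum_image (fun x _ y _ hxy => h.cj_out_injective ha hxy), Finset.mul_sum]
  refine Finset.sum_congr rfl fun q _ => ?_
  have : (Nat.card A : ℂ) ≠ 0 := Nat.cast_ne_zero.2 Nat.card_pos.ne'
  field_simp

/-- The number of images of `l` equal to `m`. -/
def ind (l m : Dual A) : ℕ := (Finset.univ.filter fun q : Aut' A => l = act m q.out).card

theorem Fam.ind_le_one (h : Fam A e) {m : Dual A} (hm : m ≠ 1) (l : Dual A) : ind l m ≤ 1 :=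
  Finset.card_le_one.2 fun x hx y hy => h.act_out_injective hm
    ((Finset.mem_filter.1 hx).2.symm.trans (Finset.mem_filter.1 hy).2)

theorem Fam.ind_self (h : Fam A e) {l : Dual A} (hl : l ≠ 1) : ind l l = 1 := by
  refine le_antisymm (h.ind_le_one hl l) (Finset.card_pos.2 ⟨((1 : ↥(Nz A)) : Aut' A), ?_⟩)
  simp only [Finset.mem_filter, Finset.mem_univ, true_and]
  obtain ⟨⟨c, hc⟩, hc'⟩ := QuotientGroup.mk_out_eq_mul (A.subgroupOf (Nz A)) (1 : ↥(Nz A))
  rw [hc', one_mul]
  ext a
  simp only [act, MonoidHom.coe_comp, Function.comp_apply]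
  congr
  ext
  rw [cj_coe, h.comm (a := (c : G)) hc a.2]
  group

theorem ind_one_right {l : Dual A} (hl : l ≠ 1) : ind l (1 : Dual A) = 0 :=
  Finset.card_eq_zero.2 (Finset.filter_eq_empty_iff.2 fun q _ e' =>
    hl (e'.trans ((act_eq_one_iff _ _).2 rfl)))

theorem ind_one_left {m : Dual A} (hm : m ≠ 1) : ind (1 : Dual A) m = 0 :=
  Finset.card_eq_zero.2 (Finset.filter_eq_empty_iff.2 fun q _ e' =>
    hm ((act_eq_one_iff _ _).1 e'.symm))

theorem Fam.ind_one_one (h : Fam A e) : ind (1 : Dual A) 1 = e := by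
  rw [ind, Finset.filter_true_of_mem (fun q _ => ((act_eq_one_iff _ _).2 rfl).symm),
    Finset.card_univ, ← Nat.card_eq_fintype_card, h.card_aut]

/-- Inner products of two differences. -/
theorem Fam.gram (h : Fam A e) (l m l' m' : Dual A) :
    ∑ χ : IrrCharacter G, (mult A χ l - mult A χ m) * (mult A χ l' - mult A χ m') =
      (ind l l' : ℤ) + ind m m' - ind l m' - ind m l' := by
  apply Int.cast_injective (α := ℂ)
  rw [Int.cast_sum]
  have e1 : ∀ χ : IrrCharacter G, (((mult A χ l - mult A χ m) * (mult A χ l' - mult A χ m') : ℤ) : ℂ)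
      = wt A (lf A l - lf A m) χ * conj (wt A (lf A l' - lf A m') χ) := fun χ => by
    rw [wt_diff, wt_diff, map_intCast, Int.cast_mul]
  simp only [e1, h.wt_gram_self _ _ (lf_one_sub A l m)]
  have key : ∀ (x y : Dual A), ∑ q : Aut' A, (Nat.card A : ℂ)⁻¹ *
      ∑ a : ↥A, conj (lf A x a) * lf A y (cj A q.out a) = (ind x y : ℂ) := by
    intro x y
    have : ∀ q : Aut' A, (Nat.card A : ℂ)⁻¹ * ∑ a : ↥A, conj (lf A x a) * lf A y (cj A q.out a)
        = if x = act y q.out then 1 else 0 := fun q => lf_inner A x (act y q.out)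
    simp only [this, Finset.sum_boole, ind]
  have e2 : ∀ q : Aut' A, (Nat.card A : ℂ)⁻¹ * ∑ a : ↥A, conj ((lf A l - lf A m) a) *
      (lf A l' - lf A m') (cj A q.out a) =
      (Nat.card A : ℂ)⁻¹ * (∑ a : ↥A, conj (lf A l a) * lf A l' (cj A q.out a))
      + (Nat.card A : ℂ)⁻¹ * (∑ a : ↥A, conj (lf A m a) * lf A m' (cj A q.out a))
      - (Nat.card A : ℂ)⁻¹ * (∑ a : ↥A, conj (lf A l a) * lf A m' (cj A q.out a))
      - (Nat.card A : ℂ)⁻¹ * (∑ a : ↥A, conj (lf A m a) * lf A l' (cj A q.out a)) := by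
    intro q
    simp only [Pi.sub_apply, map_sub, sub_mul, mul_sub, Finset.sum_sub_distrib]
    ring
  simp only [e2, Finset.sum_sub_distrib, Finset.sum_add_distrib, key]
  push_cast
  ring

/-- Two families without conjugate non-identity elements are orthogonal. -/
theorem gram_cross {B : Subgroup G} (hAB : ∀ a ∈ A, a ≠ 1 → ∀ b ∈ B, ¬ IsConj a b)
    (l m : Dual A) (l' m' : Dual B) :
    ∑ χ : IrrCharacter G, (mult A χ l - mult A χ m) * (mult B χ l' - mult B χ m') = 0 := by
  apply Int.cast_injective (α := ℂ)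
  rw [Int.cast_sum, Int.cast_zero]
  have e1 : ∀ χ : IrrCharacter G, (((mult A χ l - mult A χ m) * (mult B χ l' - mult B χ m') : ℤ) : ℂ)
      = wt A (lf A l - lf A m) χ * conj (wt B (lf B l' - lf B m') χ) := fun χ => by
    rw [wt_diff, wt_diff, map_intCast, Int.cast_mul]
  simp only [e1, wt_gram]
  rw [Finset.sum_eq_zero (fun a _ => ?_), mul_zero]
  by_cases ha : a = 1
  · subst ha
    refine Finset.sum_eq_zero fun b _ => ?_
    rw [lf_one_sub, map_zero, zero_mul, zero_mul]
  · exact Finset.sum_eq_zero fun b _ => by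
      rw [if_neg (hAB a a.2 (fun e' => ha (Subtype.ext e')) b b.2), mul_zero]

theorem gram_degree (l m : Dual A) :
    ∑ χ : IrrCharacter G, (charDegree (χ : G → ℂ) : ℤ) * (mult A χ l - mult A χ m) = 0 := by
  apply Int.cast_injective (α := ℂ)
  rw [Int.cast_sum, Int.cast_zero, ← wt_degree A (lf A l - lf A m) (lf_one_sub A l m)]
  refine Finset.sum_congr rfl fun χ _ => ?_
  rw [Int.cast_mul, wt_diff, Int.cast_natCast, coe_charDegree]

end CfsgLib.TISuzuki
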