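import Mathlib
import Cfsg.Agent.BaerSuzuki.Basic
import Cfsg.Agent.Chars.Apps.Burnside
import Cfsg.Agent.PrimeGraph.ThreePrimes
import Cfsg.Agent.LocalP.Basic

/-!
# Small orbit numbers of a group acting coprimely on an elementary abelian group

* `card_le_of_two_orbits`: a group of even order whose odd order elements act freely, whose
  involutions have small fixed subgroups lying in one of at most two orbits, forces a small module.
* `card_le_of_isolated`: the same for a transitive group all of whose involutions invert everything.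
-/

set_option autoImplicit false
set_option linter.unusedSectionVars false
set_option linter.style.haveILetI false

namespace CfsgLib.TISuzuki

variable {P H : Type*} [CommGroup P] [Finite P] [Group H] [Finite H] [MulDistribMulAction H P]

/-- The fixed subgroup of `g`. -/
def orbFix (g : H) : Subgroup P where
  carrier := {x | g • x = x}
  one_mem' := smul_one g
  mul_mem' := fun {x y} hx hy => by
    simp only [Set.mem_setOf_eq] at hx hy ⊢
    rw [smul_mul', hx, hy]
  inv_mem' := fun {x} hx => by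
    simp only [Set.mem_setOf_eq] at hx ⊢
    rw [smul_inv', hx]

/-- The subgroup inverted by `g`. -/
def orbInv (g : H) : Subgroup P where
  carrier := {x | g • x = x⁻¹}
  one_mem' := by simp
  mul_mem' := fun {x y} hx hy => by
    simp only [Set.mem_setOf_eq] at hx hy ⊢
    rw [smul_mul', hx, hy, mul_inv]
  inv_mem' := fun {x} hx => by
    simp only [Set.mem_setOf_eq] at hx ⊢
    rw [smul_inv', hx]

omit [Finite P] [Finite H] in
theorem mem_orbFix {g : H} {x : P} : x ∈ orbFix g ↔ g • x = x := Iff.rfl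

omit [Finite P] [Finite H] in
theorem mem_orbInv {g : H} {x : P} : x ∈ orbInv g ↔ g • x = x⁻¹ := Iff.rfl

section Two

variable {r : ℕ}

theorem eq_one_of_self_inv {r : ℕ} (hr : Odd r) (hexp : ∀ x : P, x ^ r = 1) {x : P}
    (hx : x = x⁻¹) : x = 1 := by
  obtain ⟨k, rfl⟩ := hr
  have h2 : x ^ 2 = 1 := by rw [pow_two]; nth_rw 2 [hx]; exact mul_inv_cancel x
  have := hexp x
  rw [pow_succ, pow_mul, h2, one_pow, one_mul] at this
  exact this

/-- `P` is the product of the fixed and the inverted subgroup of an involution. -/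
theorem card_fix_mul_card_inv (hr : Odd r) (hexp : ∀ x : P, x ^ r = 1) {g : H}
    (hg : g * g = 1) :
    Nat.card (orbFix g : Subgroup P) * Nat.card (orbInv g : Subgroup P) = Nat.card P := by
  rw [← Nat.card_prod]
  refine Nat.card_eq_of_bijective (fun q => (q.1 : P) * q.2) ⟨?_, ?_⟩
  · rintro ⟨a, b⟩ ⟨c, d⟩ h
    have h' : (a : P) * b = c * d := h
    have h1 : ((c : P)⁻¹ * a) = d * (b : P)⁻¹ := by
      rw [eq_mul_inv_iff_mul_eq, mul_assoc, h', inv_mul_cancel_left]
    have hm : ((c : P)⁻¹ * a) = 1 := by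
      refine eq_one_of_self_inv hr hexp ?_
      have e1 : g • ((c : P)⁻¹ * a) = (c : P)⁻¹ * a := mem_orbFix.mp (mul_mem (inv_mem c.2) a.2)
      have e2 : g • ((c : P)⁻¹ * a) = ((c : P)⁻¹ * a)⁻¹ := by
        rw [h1]; exact mem_orbInv.mp (mul_mem d.2 (inv_mem b.2))
      rw [← e2, e1]
    have ha : a = c := Subtype.ext (inv_mul_eq_one.mp hm).symm
    subst ha
    exact Prod.ext rfl (Subtype.ext (mul_left_cancel h'))
  · intro x
    obtain ⟨k, hk⟩ := hr
    have hgg : g • g • x = x := by rw [smul_smul, hg, one_smul]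
    have hf : g • (x * g • x) ^ (k + 1) = (x * g • x) ^ (k + 1) := by
      rw [smul_pow', smul_mul', hgg, mul_comm]
    have hi : g • (x * (g • x)⁻¹) ^ (k + 1) = ((x * (g • x)⁻¹) ^ (k + 1))⁻¹ := by
      rw [smul_pow', smul_mul', smul_inv', hgg, ← inv_pow, mul_inv, inv_inv, mul_comm]
    refine ⟨(⟨_, hf⟩, ⟨_, hi⟩), ?_⟩
    show (x * g • x) ^ (k + 1) * (x * (g • x)⁻¹) ^ (k + 1) = x
    rw [← mul_pow, mul_mul_mul_comm, mul_inv_cancel, mul_one, ← pow_two, ← pow_mul,
      show 2 * (k + 1) = r + 1 by omega, pow_succ, hexp, one_mul]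

theorem smul_eq_inv_of_fix_bot (hr : Odd r) (hexp : ∀ x : P, x ^ r = 1) {g : H} (hg : g * g = 1)
    (h : ∀ x : P, g • x = x → x = 1) (x : P) : g • x = x⁻¹ := by
  have hgg : g • g • x = x := by rw [smul_smul, hg, one_smul]
  have : x * g • x = 1 := h _ (by rw [smul_mul', hgg, mul_comm])
  exact eq_inv_of_mul_eq_one_right this

theorem eq_of_inv_all [FaithfulSMul H P] {g z : H} (hg : ∀ x : P, g • x = x⁻¹)
    (hz : ∀ x : P, z • x = x⁻¹) : g = z :=
  FaithfulSMul.eq_of_smul_eq_smul fun x : P => by rw [hg, hz]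

theorem comm_of_inv_all [FaithfulSMul H P] {z : H} (hz : ∀ x : P, z • x = x⁻¹) (g : H) :
    Commute g z :=
  FaithfulSMul.eq_of_smul_eq_smul (α := P) fun x => by
    rw [mul_smul, mul_smul, hz, hz, smul_inv']

theorem card_sub_one_le {u v : P}
    (horb : ∀ x : P, x ≠ 1 → (∃ h : H, h • u = x) ∨ ∃ h : H, h • v = x) :
    Nat.card P - 1 ≤ 2 * Nat.card H := by
  classical
  have hsub : ({1}ᶜ : Set P) ⊆ Set.range (fun h : H => h • u) ∪ Set.range (fun h : H => h • v) :=
    fun x hx => horb x hx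
  have h1 := Set.ncard_le_ncard hsub (Set.toFinite _)
  have h2 := Set.ncard_union_le (Set.range fun h : H => h • u) (Set.range fun h : H => h • v)
  have h3 : ∀ w : P, (Set.range fun h : H => h • w).ncard ≤ Nat.card H := fun w => by
    rw [← Nat.card_coe_set_eq]
    exact Nat.card_le_card_of_surjective (Set.rangeFactorization fun h : H => h • w)
      Set.rangeFactorization_surjective
  rw [Set.ncard_compl, Set.ncard_singleton] at h1
  have := h3 u
  have := h3 v
  omega

/-- A group of exponent four with a single involution has order at most eight. -/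
theorem card_le_eight_of_unique (h4 : ∀ g : H, g ^ 4 = 1) (z : H) (hz : z * z = 1)
    (huniq : ∀ g : H, g * g = 1 → g = 1 ∨ g = z) : Nat.card H ≤ 8 := by
  classical
  have hsq : ∀ g : H, g * g = 1 ∨ g * g = z := fun g => huniq _ (by
    have := h4 g
    rw [show g ^ 4 = g * g * (g * g) by simp [pow_succ, mul_assoc]] at this
    exact this)
  have hzc : ∀ g : H, g * z = z * g := by
    intro g
    rcases huniq (g * z * g⁻¹) (by
      rw [show g * z * g⁻¹ * (g * z * g⁻¹) = g * (z * z) * g⁻¹ by group, hz]; group) with h | h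
    · have : z = 1 := by
        have := congrArg (fun t => g⁻¹ * t * g) h
        simpa [mul_assoc] using this
      simp [this]
    · exact mul_inv_eq_iff_eq_mul.mp h
  by_cases hall : ∀ g : H, g * g = 1
  · have : Nat.card H ≤ 2 := by
      have hs : (Set.univ : Set H) ⊆ {1, z} := fun g _ => huniq g (hall g)
      have h1 := Set.ncard_le_ncard hs (Set.toFinite _)
      rw [Set.ncard_univ] at h1
      exact h1.trans ((Set.ncard_insert_le _ _).trans (by simp))
    omega
  push Not at hall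
  obtain ⟨g, hg⟩ := hall
  have hgz : g * g = z := (hsq g).resolve_left hg
  have hgi : g⁻¹ = z * g := inv_eq_of_mul_eq_one_left (by rw [mul_assoc, hgz, hz])
  -- every element centralises or inverts `g`
  have hconj : ∀ h : H, h * g * h⁻¹ = g ∨ h * g * h⁻¹ = z * g := by
    intro h
    obtain ⟨e1, he1, h1⟩ : ∃ e : H, (e = 1 ∨ e = z) ∧ h * g * (h * g) = e := ⟨_, hsq (h * g), rfl⟩
    obtain ⟨e2, he2, h2⟩ : ∃ e : H, (e = 1 ∨ e = z) ∧ h * h = e := ⟨_, hsq h, rfl⟩
    have key : h * g * h⁻¹ = e1 * g⁻¹ * e2⁻¹ := by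
      rw [← h1, ← h2]; group
    have hzi : z⁻¹ = z := inv_eq_of_mul_eq_one_right hz
    rw [key, hgi]
    have c1 : z * g * z = g := by rw [mul_assoc, hzc g, ← mul_assoc, hz, one_mul]
    have c2 : z * (z * g) = g := by rw [← mul_assoc, hz, one_mul]
    rcases he1 with e1' | e1' <;> rcases he2 with e2' | e2' <;> rw [e1', e2']
    · right; simp
    · left; rw [one_mul, hzi, c1]
    · left; rw [inv_one, mul_one, c2]
    · right; rw [c2, hzi, hzc g]
  -- the centralizer of `g`
  have hC : {c : H | c * g = g * c} ⊆ ({1, z, g, g⁻¹} : Set H) := by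
    intro c hc
    rcases hsq c with h | h
    · rcases huniq c h with h' | h' <;> simp [h']
    · have hh : c * g * (c * g) = 1 := by
        rw [show c * g * (c * g) = c * (g * c) * g by group, ← show c * g = g * c from hc,
          show c * (c * g) * g = (c * c) * (g * g) by group, h, hgz, hz]
      rcases huniq _ hh with h' | h'
      · simp [eq_inv_of_mul_eq_one_left h']
      · have : c = g := by
          rw [eq_mul_inv_of_mul_eq h', hgi, ← mul_assoc, hz, one_mul]
        simp [this]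
  have hC4 : {c : H | c * g = g * c}.ncard ≤ 4 := by
    refine (Set.ncard_le_ncard hC (Set.toFinite _)).trans ?_
    refine (Set.ncard_insert_le _ _).trans (Nat.succ_le_succ ?_)
    refine (Set.ncard_insert_le _ _).trans (Nat.succ_le_succ ?_)
    exact (Set.ncard_insert_le _ _).trans (by simp)
  have hD4 : {c : H | c * g * c⁻¹ = z * g}.ncard ≤ 4 := by
    rcases Set.eq_empty_or_nonempty {c : H | c * g * c⁻¹ = z * g} with h | ⟨d, hd⟩
    · simp [h]
    refine le_trans ?_ hC4
    refine Set.ncard_le_ncard_of_injOn (fun c => d⁻¹ * c) (fun c hc => ?_)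
      (fun a _ b _ h => mul_left_cancel h) (Set.toFinite _)
    have h1 : d * g * d⁻¹ = c * g * c⁻¹ := (show _ = z * g from hd).trans (Eq.symm hc)
    show d⁻¹ * c * g = g * (d⁻¹ * c)
    calc d⁻¹ * c * g = d⁻¹ * (c * g * c⁻¹) * c := by group
      _ = d⁻¹ * (d * g * d⁻¹) * c := by rw [h1]
      _ = g * (d⁻¹ * c) := by group
  have hU : (Set.univ : Set H) ⊆ {c : H | c * g = g * c} ∪ {c : H | c * g * c⁻¹ = z * g} :=
    fun c _ => (hconj c).imp mul_inv_eq_iff_eq_mul.mp id
  have h1 := (Set.ncard_le_ncard hU (Set.toFinite _)).trans (Set.ncard_union_le _ _)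
  rw [Set.ncard_univ] at h1
  omega

end Two

/-- An odd power of two plus one. -/
theorem three_pow_sub_one {d k : ℕ} (h : 3 ^ d - 1 = 2 ^ k) : d ≤ 2 := by
  rcases Nat.even_or_odd d with ⟨e, he⟩ | ho
  · subst he
    rcases Nat.eq_zero_or_pos e with rfl | hpos
    · omega
    have hfac : 3 ^ (e + e) - 1 = (3 ^ e + 1) * (3 ^ e - 1) := by
      rw [← Nat.sq_sub_sq]; simp [pow_two, pow_add]
    rw [hfac] at h
    obtain ⟨a, -, ha⟩ := (Nat.dvd_prime_pow Nat.prime_two).mp (h ▸ Dvd.intro _ rfl :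
      3 ^ e + 1 ∣ 2 ^ k)
    obtain ⟨b, -, hb⟩ := (Nat.dvd_prime_pow Nat.prime_two).mp (h ▸ Dvd.intro_left _ rfl :
      3 ^ e - 1 ∣ 2 ^ k)
    have h3 : 1 < 3 ^ e := Nat.one_lt_pow hpos.ne' (by norm_num)
    rcases b with _ | _ | b
    · have h30 : 3 ^ e % 2 = 1 := by rw [Nat.pow_mod]; norm_num
      simp only [pow_zero] at hb; omega
    · have : 3 ^ e = 3 ^ 1 := by simp only [zero_add, pow_one] at hb ⊢; omega
      have := Nat.pow_right_injective (le_of_lt (by norm_num : 2 < 3)) this
      omega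
    · have h4b : 4 ∣ 2 ^ (b + 1 + 1) := ⟨2 ^ b, by ring⟩
      rcases a with _ | _ | a
      · simp only [pow_zero] at ha; omega
      · simp only [zero_add, pow_one] at ha; omega
      · have h4a : 4 ∣ 2 ^ (a + 1 + 1) := ⟨2 ^ a, by ring⟩
        omega
  · obtain ⟨e, he⟩ := ho
    subst he
    rcases k with _ | _ | k
    · have : 3 ^ (2 * e + 1) % 2 = 1 := by rw [Nat.pow_mod]; norm_num
      simp only [pow_zero] at h
      generalize (3 : ℕ) ^ (2 * e + 1) = N at *
      omega
    · have : 3 ^ (2 * e + 1) = 3 ^ 1 := by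
        simp only [zero_add, pow_one] at h ⊢
        generalize (3 : ℕ) ^ (2 * e + 1) = N at *
        omega
      have := Nat.pow_right_injective (le_of_lt (by norm_num : 2 < 3)) this
      omega
    · have h4 : 4 ∣ 2 ^ (k + 1 + 1) := ⟨2 ^ k, by ring⟩
      have : 3 ^ (2 * e + 1) % 4 = 3 := by
        rw [Nat.pow_mod, pow_succ, pow_mul]; simp [Nat.mul_mod, Nat.pow_mod]
      generalize (3 : ℕ) ^ (2 * e + 1) = N at *
      generalize 2 ^ (k + 1 + 1) = K at *
      omega

theorem five_pow_sub_one {d k : ℕ} (h : 5 ^ d - 1 = 2 ^ k) : d ≤ 1 := by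
  rcases Nat.even_or_odd d with ⟨e, he⟩ | ho
  · subst he
    rcases Nat.eq_zero_or_pos e with rfl | hpos
    · omega
    have h24 : 5 ^ (e + e) % 3 = 1 := by
      rw [← two_mul, pow_mul, Nat.pow_mod]; norm_num
    have h2 : 3 ∣ 2 ^ k := by
      rw [← h]
      have := Nat.one_le_pow (e + e) 5 (by norm_num)
      omega
    have := (Nat.prime_dvd_prime_iff_eq Nat.prime_three Nat.prime_two).mp
      (Nat.prime_three.dvd_of_dvd_pow h2)
    omega
  · obtain ⟨e, he⟩ := ho
    subst he
    rcases k with _ | _ | _ | k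
    · have : 5 ^ (2 * e + 1) % 2 = 1 := by rw [Nat.pow_mod]; norm_num
      simp only [pow_zero] at h
      generalize (5 : ℕ) ^ (2 * e + 1) = N at *
      omega
    · have : 5 ^ (2 * e + 1) % 4 = 1 := by rw [Nat.pow_mod]; norm_num
      simp only [zero_add, pow_one] at h
      generalize (5 : ℕ) ^ (2 * e + 1) = N at *
      omega
    · have : 5 ^ (2 * e + 1) = 5 ^ 1 := by
        simp only [zero_add, pow_one, Nat.reducePow, Nat.reduceAdd] at h ⊢
        generalize (5 : ℕ) ^ (2 * e + 1) = N at *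
        omega
      have := Nat.pow_right_injective (le_of_lt (by norm_num : 2 < 5)) this
      omega
    · have h8 : 8 ∣ 2 ^ (k + 1 + 1 + 1) := ⟨2 ^ k, by ring⟩
      have : 5 ^ (2 * e + 1) % 8 = 5 := by
        rw [pow_succ, pow_mul]; simp [Nat.mul_mod, Nat.pow_mod]
      generalize (5 : ℕ) ^ (2 * e + 1) = N at *
      generalize 2 ^ (k + 1 + 1 + 1) = K at *
      omega

variable [FaithfulSMul H P]

/-- The first case: some element inverts every point. -/
theorem card_le_of_inverter {r : ℕ} (hr : r = 3 ∨ r = 5) (hexp : ∀ x : P, x ^ r = 1)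
    (hnc : ∀ a s : H, Odd (orderOf a) → a ≠ 1 → orderOf s = 2 → Commute a s → False)
    (u v : P) (horb : ∀ x : P, x ≠ 1 → (∃ h : H, h • u = x) ∨ ∃ h : H, h • v = x)
    (hU : ∀ s : H, orderOf s = 2 → ∀ x : P, x ≠ 1 → s • x = x → ∃ h : H, h • u = x)
    (hfour : (∀ x : P, x ≠ 1 → ∃ h : H, h • u = x) ∨
      ((∀ g : H, (∃ k, orderOf g = 2 ^ k) → g ^ 4 = 1) ∧
        ∀ g : H, orderOf g = 4 → ∀ x : P, g • x = x → x = 1))
    {z : H} (hz : ∀ x : P, z • x = x⁻¹) :
    Nat.card P ≤ (if r = 3 then 9 else 5) := by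
  classical
  have hrodd : Odd r := by rcases hr with rfl | rfl <;> decide
  haveI hrp : Fact r.Prime := ⟨by rcases hr with rfl | rfl <;> norm_num⟩
  obtain ⟨d, hd⟩ := IsPGroup.iff_card.mp (show IsPGroup r P from fun x => ⟨1, by rw [pow_one, hexp]⟩)
  by_cases hP1 : Subsingleton P
  · haveI := hP1
    rw [Nat.card_of_subsingleton 1]
    split <;> norm_num
  rw [not_subsingleton_iff_nontrivial] at hP1
  obtain ⟨x0, hx0⟩ := exists_ne (1 : P)
  have hz1 : z ≠ 1 := by
    rintro rfl
    exact hx0 (eq_one_of_self_inv hrodd hexp (by simpa using hz x0))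
  have hzz : z * z = 1 :=
    FaithfulSMul.eq_of_smul_eq_smul (α := P) fun x => by rw [mul_smul, hz, hz, inv_inv, one_smul]
  have hz2 : orderOf z = 2 := orderOf_eq_prime (by rw [pow_two, hzz]) hz1
  have hzc : ∀ g : H, Commute g z := comm_of_inv_all hz
  have htwo : ∀ g : H, ∃ k, orderOf g = 2 ^ k := by
    intro g
    obtain ⟨k, m, hm, hkm⟩ := Nat.exists_eq_two_pow_mul_odd (orderOf_pos g).ne'
    refine ⟨k, ?_⟩
    have ho : orderOf (g ^ (2 ^ k)) = m := by
      rw [orderOf_pow' g (pow_ne_zero k two_ne_zero), hkm, Nat.gcd_eq_right (Dvd.intro m rfl),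
        Nat.mul_div_cancel_left m (pow_pos two_pos k)]
    by_contra hne
    refine hnc (g ^ (2 ^ k)) z (ho ▸ hm) (fun h1 => hne ?_) hz2 ((hzc g).pow_left _)
    rw [h1, orderOf_one] at ho
    rw [hkm, ← ho, mul_one]
  have hHp : IsPGroup 2 H := fun g => by
    obtain ⟨k, hk⟩ := htwo g
    exact ⟨k, hk ▸ pow_orderOf_eq_one g⟩
  obtain ⟨n, hn⟩ := IsPGroup.iff_card.mp hHp
  have hsmall : Nat.card P ≤ 17 → Nat.card P ≤ (if r = 3 then 9 else 5) := by
    intro h17
    rw [hd] at h17 ⊢
    rcases hr with rfl | rfl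
    · rw [if_pos rfl]
      calc 3 ^ d ≤ 3 ^ 2 := Nat.pow_le_pow_right (by norm_num) (by
            by_contra hc
            have := Nat.pow_le_pow_right (show 0 < 3 by norm_num) (show 3 ≤ d by omega)
            omega)
        _ = 9 := by norm_num
    · rw [if_neg (by norm_num)]
      calc 5 ^ d ≤ 5 ^ 1 := Nat.pow_le_pow_right (by norm_num) (by
            by_contra hc
            have := Nat.pow_le_pow_right (show 0 < 5 by norm_num) (show 2 ≤ d by omega)
            omega)
        _ = 5 := by norm_num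
  rcases hfour with htr | ⟨he4, hf4⟩
  · -- one orbit: its length is a power of two
    have horbit : MulAction.orbit H u = ({1}ᶜ : Set P) := by
      have hu1 : u ≠ 1 := by
        rintro rfl
        obtain ⟨h, hh⟩ := htr x0 hx0
        rw [smul_one] at hh
        exact hx0 hh.symm
      ext x
      refine ⟨?_, fun hx => htr x hx⟩
      rintro ⟨h, rfl⟩
      show h • u ≠ 1
      exact fun h1 => hu1 (smul_eq_iff_eq_inv_smul h |>.mp h1 |>.trans (smul_one _))
    have hdvd : Nat.card P - 1 ∣ Nat.card H := by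
      have := MulAction.index_stabilizer (G := H) (x := u)
      rw [horbit, Set.ncard_compl, Set.ncard_singleton] at this
      rw [← this]
      exact Subgroup.index_dvd_card _
    rw [hn, hd] at hdvd
    obtain ⟨k, -, hk⟩ := (Nat.dvd_prime_pow Nat.prime_two).mp hdvd
    rw [hd]
    rcases hr with rfl | rfl
    · rw [if_pos rfl]
      calc 3 ^ d ≤ 3 ^ 2 := Nat.pow_le_pow_right (by norm_num) (three_pow_sub_one hk)
        _ = 9 := by norm_num
    · rw [if_neg (by norm_num)]
      calc 5 ^ d ≤ 5 ^ 1 := Nat.pow_le_pow_right (by norm_num) (five_pow_sub_one hk)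
        _ = 5 := by norm_num
  -- exponent four
  have h4 : ∀ g : H, g ^ 4 = 1 := fun g => he4 g (htwo g)
  have hsq : ∀ g : H, g * g = 1 ∨ g * g = z := by
    intro g
    by_contra hcon
    push Not at hcon
    obtain ⟨hg1, hgz⟩ := hcon
    have hwinv : g * g * (g * g) = 1 := by
      have := h4 g
      rw [show g ^ 4 = g * g * (g * g) by simp [pow_succ, mul_assoc]] at this
      exact this
    have hord : ∀ e : H, e * e = g * g → orderOf e = 4 := fun e he => by
      haveI : Fact (Nat.Prime 2) := ⟨Nat.prime_two⟩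
      refine orderOf_eq_prime_pow (p := 2) (n := 1) ?_ ?_
      · simpa [pow_succ, he] using hg1
      · show e ^ 4 = 1
        exact h4 e
    refine hgz (eq_of_inv_all (smul_eq_inv_of_fix_bot hrodd hexp hwinv fun x hx => ?_) hz)
    have hy : x * g • x = 1 := hf4 g (hord g rfl) _ (by
      rw [smul_mul', smul_smul, hx, mul_comm])
    have hgx : g • x = x⁻¹ := eq_inv_of_mul_eq_one_right hy
    refine hf4 (g * z) (hord _ ?_) x ?_
    · rw [mul_assoc, ← mul_assoc z g z, ← (hzc g).eq, mul_assoc g z z, hzz, mul_one]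
    · rw [mul_smul, hz, smul_inv', hgx, inv_inv]
  by_cases huniq : ∀ g : H, g * g = 1 → g = 1 ∨ g = z
  · have h8 := card_le_eight_of_unique h4 z hzz huniq
    have hc := card_sub_one_le horb
    exact hsmall (by omega)
  push Not at huniq
  obtain ⟨s, hss, hs1, hsz⟩ := huniq
  exfalso
  have hfixne : ∀ w : H, w * w = 1 → w ≠ z → ∃ x : P, x ≠ 1 ∧ w • x = x := by
    intro w hw hwz
    by_contra hcon
    refine hwz (eq_of_inv_all (smul_eq_inv_of_fix_bot hrodd hexp hw fun x hx => ?_) hz)
    by_contra hx1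
    exact hcon ⟨x, hx1, hx⟩
  have hord2 : ∀ w : H, w * w = 1 → w ≠ 1 → orderOf w = 2 := fun w hw hw1 =>
    orderOf_eq_prime (by rw [pow_two, hw]) hw1
  obtain ⟨x1, hx11, hx1⟩ := hfixne s hss hsz
  have hsz1 : s * z * (s * z) = 1 := by
    rw [show s * z * (s * z) = s * (z * s) * z by group, ← (hzc s).eq,
      show s * (s * z) * z = (s * s) * (z * z) by group, hss, hzz, one_mul]
  obtain ⟨y1, hy11, hy1⟩ := hfixne (s * z) hsz1 (fun h => hs1 (by simpa using h))
  -- `s` is not central
  obtain ⟨h, hh⟩ : ∃ h : H, ¬ s * h = h * s := by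
    by_contra hcon
    push Not at hcon
    obtain ⟨a, ha⟩ := hU s (hord2 s hss hs1) x1 hx11 hx1
    obtain ⟨b, hb⟩ := hU (s * z) (hord2 _ hsz1 fun h => hsz
      (by rw [eq_inv_of_mul_eq_one_left h, inv_eq_of_mul_eq_one_right hzz])) y1 hy11 hy1
    have h1 : s • y1 = y1 := by
      have : s • u = u := by
        have := congrArg (fun t => a⁻¹ • t) hx1
        rwa [← ha, smul_smul s, hcon a, mul_smul, inv_smul_smul, inv_smul_smul] at this
      rw [← hb, smul_smul, hcon b, mul_smul, this]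
    rw [mul_smul, hz, smul_inv', h1] at hy1
    exact hy11 (eq_one_of_self_inv hrodd hexp hy1.symm)
  have hrel : ∀ g : H, s * g = g * s ∨ s * g * s = g * z := by
    intro g
    have hzi : z⁻¹ = z := inv_eq_of_mul_eq_one_right hzz
    obtain ⟨e1, he1, h1⟩ : ∃ e : H, (e = 1 ∨ e = z) ∧ g * s * (g * s) = e := ⟨_, hsq (g * s), rfl⟩
    obtain ⟨e2, he2, h2⟩ : ∃ e : H, (e = 1 ∨ e = z) ∧ g * g = e := ⟨_, hsq g, rfl⟩
    have key : s * g * s = g * (e2⁻¹ * e1) := by rw [← h1, ← h2]; group
    rcases he1 with rfl | rfl <;> rcases he2 with rfl | rfl <;>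
      simp only [one_mul, inv_one, mul_one, hzi, hzz] at key
    · exact Or.inl (mul_right_cancel (b := s) (by rw [key, mul_assoc, hss, mul_one]))
    · exact Or.inr key
    · exact Or.inr key
    · exact Or.inl (mul_right_cancel (b := s) (by rw [key, mul_assoc, hss, mul_one]))
  obtain ⟨w, hw, hws⟩ : ∃ w : H, w * w = 1 ∧ ¬ s * w = w * s := by
    rcases hsq h with hh2 | hh2
    · exact ⟨h, hh2, hh⟩
    refine ⟨h * s, ?_, fun e => hh (mul_right_cancel (b := s) ?_)⟩
    · rw [show h * s * (h * s) = h * (s * h * s) by group, (hrel h).resolve_left hh, ← mul_assoc,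
        hh2, hzz]
    · rw [mul_assoc s h s, e]
  have hw1 : w ≠ 1 := fun h => hws (by simp [h])
  obtain ⟨x, hx1', hx⟩ := hfixne w hw (fun h => hws (by rw [h]; exact (hzc s).eq))
  obtain ⟨a, ha⟩ := hU s (hord2 s hss hs1) x1 hx11 hx1
  obtain ⟨b, hb⟩ := hU w (hord2 w hw hw1) x hx1' hx
  -- the conjugate of `s` fixing `x`
  obtain ⟨g, hg⟩ : ∃ g : H, g = b * a⁻¹ := ⟨_, rfl⟩
  have hgx : g • x1 = x := by rw [hg, mul_smul, ← ha, inv_smul_smul, hb]
  have hfix : (g * s * g⁻¹) • x = x := by
    rw [mul_smul, mul_smul, ← hgx, inv_smul_smul, hx1]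
  have hform : g * s * g⁻¹ = s ∨ g * s * g⁻¹ = s * z := by
    rcases hrel g with e | e
    · left; rw [← e]; group
    · right
      have : g * s = s * g * z := by
        calc g * s = s * (s * g * s) := by simp [← mul_assoc, hss]
          _ = s * g * z := by rw [e, mul_assoc]
      rw [this, mul_assoc (s * g) z, ← (hzc g⁻¹).eq]; group
  set s' := g * s * g⁻¹ with hs'
  have hs'2 : s' * s' = 1 := by
    rw [hs', show g * s * g⁻¹ * (g * s * g⁻¹) = g * (s * s) * g⁻¹ by group, hss]; group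
  have hs'w : ¬ w * s' = s' * w := by
    rcases hform with e | e <;> rw [e]
    · exact fun h => hws h.symm
    · rw [← mul_assoc, mul_assoc s z w, ← (hzc w).eq, ← mul_assoc]
      exact fun h => hws (mul_right_cancel h).symm
  have hne : w * s' * (w * s') ≠ 1 := fun h1 => hs'w (by
    rw [eq_inv_of_mul_eq_one_left h1, mul_inv_rev, inv_eq_of_mul_eq_one_right hs'2,
      inv_eq_of_mul_eq_one_right hw])
  refine hx1' (hf4 (w * s') ?_ x (by rw [mul_smul, hfix, hx]))
  haveI : Fact (Nat.Prime 2) := ⟨Nat.prime_two⟩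
  refine orderOf_eq_prime_pow (p := 2) (n := 1) ?_ ?_
  · simpa [pow_succ] using hne
  · show (w * s') ^ 4 = 1
    exact h4 _

/-- The second case: without an element inverting everything there is no nontrivial normal
elementary abelian `2`-subgroup. -/
theorem false_of_normal_two {r : ℕ} (hr : Odd r) (hexp : ∀ x : P, x ^ r = 1) [Nontrivial P]
    (u v : P) (horb : ∀ x : P, x ≠ 1 → (∃ h : H, h • u = x) ∨ ∃ h : H, h • v = x)
    (hU : ∀ s : H, orderOf s = 2 → ∀ x : P, x ≠ 1 → s • x = x → ∃ h : H, h • u = x)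
    (hno : ∀ s : H, s * s = 1 → s ≠ 1 → ∃ x : P, x ≠ 1 ∧ s • x = x)
    (W : Subgroup H) [W.Normal] (hW : ∀ w ∈ W, w * w = 1)
    (hWc : ∀ a ∈ W, ∀ b ∈ W, a * b = b * a) (hWne : W ≠ ⊥) : False := by
  classical
  obtain ⟨w1, hw1, hw11⟩ : ∃ w ∈ W, w ≠ 1 := by
    by_contra hcon
    push Not at hcon
    exact hWne ((Subgroup.eq_bot_iff_forall _).mpr hcon)
  have hord2 : ∀ w ∈ W, w ≠ 1 → orderOf w = 2 := fun w hw h1 =>
    orderOf_eq_prime (by rw [pow_two, hW w hw]) h1
  -- points fixed by some element of `W`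
  set F : Set P := {x | x ≠ 1 ∧ ∃ w ∈ W, w ≠ 1 ∧ w • x = x} with hF
  have hFu : ∀ x ∈ F, ∃ h : H, h • u = x := fun x hx => by
    obtain ⟨w, hw, hw1, hwx⟩ := hx.2
    exact hU w (hord2 w hw hw1) x hx.1 hwx
  have hconj : ∀ (h : H) (w : H), w ∈ W → h⁻¹ * w * h ∈ W := fun h w hw => by
    simpa using ‹W.Normal›.conj_mem w hw h⁻¹
  -- the set of eigenvectors
  have hEinv : ∀ (h : H) (x : P), (∀ w ∈ W, w • x = x ∨ w • x = x⁻¹) →
      ∀ w ∈ W, w • (h • x) = h • x ∨ w • (h • x) = (h • x)⁻¹ := by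
    intro h x hx w hw
    have e : w • h • x = h • (h⁻¹ * w * h) • x := by
      rw [smul_smul, smul_smul]
      congr 1
      group
    rcases hx _ (hconj h w hw) with h1 | h1
    · left; rw [e, h1]
    · right; rw [e, h1, smul_inv']
  -- some point of `F` is an eigenvector
  obtain ⟨e0, he0, he0'⟩ : ∃ x ∈ F, ∀ w ∈ W, w • x = x ∨ w • x = x⁻¹ := by
    obtain ⟨y, hy1, hy⟩ := hno w1 (hW w1 hw1) hw11
    obtain ⟨x, hxF, hxmax⟩ := Set.exists_max_image F
      (fun x => {w : H | w ∈ W ∧ w • x = x}.ncard) (Set.toFinite _)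
      ⟨y, hy1, w1, hw1, hw11, hy⟩
    refine ⟨x, hxF, fun w hw => ?_⟩
    by_contra hcon
    push Not at hcon
    set y := x * w • x with hy
    have hy1 : y ≠ 1 := fun h => hcon.2 (eq_inv_of_mul_eq_one_right h)
    have hwy : w • y = y := by rw [hy, smul_mul', smul_smul, hW w hw, one_smul, mul_comm]
    have hw1 : w ≠ 1 := fun h => hcon.1 (by rw [h, one_smul])
    have hsub : {t : H | t ∈ W ∧ t • x = x} ⊂ {t : H | t ∈ W ∧ t • y = y} := by
      have hss : {t : H | t ∈ W ∧ t • x = x} ⊆ {t : H | t ∈ W ∧ t • y = y} := by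
        intro t ht
        refine ⟨ht.1, ?_⟩
        show t • (x * w • x) = x * w • x
        rw [smul_mul', smul_smul, hWc t ht.1 w hw, mul_smul, ht.2]
      exact (Set.ssubset_iff_of_subset hss).mpr ⟨w, ⟨hw, hwy⟩, fun ht => hcon.1 ht.2⟩
    have := Set.ncard_lt_ncard hsub (Set.toFinite _)
    have := hxmax y ⟨hy1, w, hw, hw1, hwy⟩
    omega
  -- every point of `F` is an eigenvector
  have hEig : ∀ x ∈ F, ∀ w ∈ W, w • x = x ∨ w • x = x⁻¹ := by
    obtain ⟨a, ha⟩ := hFu e0 he0
    intro x hx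
    obtain ⟨b, hb⟩ := hFu x hx
    have : x = (b * a⁻¹) • e0 := by rw [mul_smul, ← ha, inv_smul_smul, hb]
    rw [this]
    exact hEinv _ e0 he0'
  -- not everything in `W` fixes a point of `F`
  have hnotall : ∀ x ∈ F, ∃ w ∈ W, w • x = x⁻¹ := by
    intro x hx
    by_contra hcon
    push Not at hcon
    have hall : ∀ t ∈ W, t • x = x := fun t ht => (hEig x hx t ht).resolve_right (hcon t ht)
    obtain ⟨a, ha⟩ := hFu x hx
    have hallu : ∀ y ∈ F, ∀ t ∈ W, t • y = y := by
      intro y hy t ht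
      obtain ⟨b, hb⟩ := hFu y hy
      have hg : y = (b * a⁻¹) • x := by rw [mul_smul, ← ha, inv_smul_smul, hb]
      rw [hg, smul_smul, show t * (b * a⁻¹) = (b * a⁻¹) * ((b * a⁻¹)⁻¹ * t * (b * a⁻¹)) by group,
        mul_smul, hall _ (hconj _ t ht)]
    -- then `w1` would be inverting or trivial on every point
    by_cases h2 : ∃ w ∈ W, w ≠ 1 ∧ w ≠ w1
    · obtain ⟨w, hw, hw0, hwne⟩ := h2
      have hww : w * w1 ≠ 1 := fun h => hwne (by
        rw [eq_inv_of_mul_eq_one_left h, inv_eq_of_mul_eq_one_right (hW w1 hw1)])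
      refine hw11 (FaithfulSMul.eq_of_smul_eq_smul (α := P) fun p => ?_)
      rw [one_smul]
      -- the inverted part of `p` is fixed by `w * w1`, hence by `w1`
      have hq1 : w1 • (p * (w1 • p)⁻¹) = (p * (w1 • p)⁻¹)⁻¹ := by
        rw [smul_mul', smul_inv', smul_smul, hW w1 hw1, one_smul, mul_inv, inv_inv, mul_comm]
      generalize hq : p * (w1 • p)⁻¹ = q at hq1
      have hqw : w1 • (q * w • q) = (q * w • q)⁻¹ := by
        rw [smul_mul', hq1, smul_smul, hWc w1 hw1 w hw, mul_smul, hq1, smul_inv', mul_inv]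
      have hm : q * w • q = 1 := by
        by_contra hne
        have hfw : w • (q * w • q) = q * w • q := by
          rw [smul_mul', smul_smul, hW w hw, one_smul, mul_comm]
        have := hallu _ ⟨hne, w, hw, hw0, hfw⟩ w1 hw1
        rw [hqw] at this
        exact hne (eq_one_of_self_inv hr hexp this.symm)
      have hwq : (w * w1) • q = q := by
        rw [mul_smul, hq1, smul_inv', eq_inv_of_mul_eq_one_right hm, inv_inv]
      have hq' : q = 1 := by
        by_contra hne
        have := hallu _ ⟨hne, w * w1, mul_mem hw hw1, hww, hwq⟩ w1 hw1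
        rw [hq1] at this
        exact hne (eq_one_of_self_inv hr hexp this.symm)
      rw [← hq] at hq'
      exact (mul_inv_eq_one.mp hq').symm
    · -- `w1` is central, giving three invariant sets
      push Not at h2
      have hc : ∀ h : H, w1 * h = h * w1 := fun h => by
        have hne : h⁻¹ * w1 * h ≠ 1 := fun e => hw11 (by
          have := congrArg (fun t => h * t * h⁻¹) e
          simpa [mul_assoc] using this)
        have := h2 _ (hconj h w1 hw1) hne
        calc w1 * h = h * (h⁻¹ * w1 * h) := by group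
          _ = h * w1 := by rw [this]
      obtain ⟨c, hc1, hcf⟩ := hno w1 (hW w1 hw1) hw11
      obtain ⟨p, hp⟩ : ∃ p : P, w1 • p ≠ p := by
        by_contra hcon'
        push Not at hcon'
        exact hw11 (FaithfulSMul.eq_of_smul_eq_smul (α := P) fun p => by rw [hcon' p, one_smul])
      obtain ⟨q, hq⟩ : ∃ q : P, q = p * (w1 • p)⁻¹ := ⟨_, rfl⟩
      have hq1 : q ≠ 1 := fun h => hp (mul_inv_eq_one.mp (hq ▸ h)).symm
      have hqi : w1 • q = q⁻¹ := by
        rw [hq, smul_mul', smul_inv', smul_smul, hW w1 hw1, one_smul, mul_inv, inv_inv, mul_comm]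
      obtain ⟨hu, huc⟩ := hU w1 (hord2 w1 hw1 hw11) c hc1 hcf
      have hinvU : ∀ h : H, w1 • (h • u) = h • u := by
        intro h
        have hu' : w1 • u = u := by
          have := congrArg (fun t => hu⁻¹ • t) hcf
          rwa [← huc, smul_smul w1, hc, mul_smul, inv_smul_smul, inv_smul_smul] at this
        rw [smul_smul, hc, mul_smul, hu']
      have hcq : c * q ≠ 1 := fun h => by
        have e := congrArg (fun t => w1 • t) h
        simp only [smul_mul', hcf, hqi, smul_one] at e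
        have : q = q⁻¹ := mul_left_cancel (h.trans e.symm)
        exact hq1 (eq_one_of_self_inv hr hexp this)
      rcases horb q hq1 with ⟨h, hh⟩ | ⟨h, hh⟩
      · have := hinvU h
        rw [hh, hqi] at this
        exact hq1 (eq_one_of_self_inv hr hexp this.symm)
      rcases horb (c * q) hcq with ⟨k, hk⟩ | ⟨k, hk⟩
      · have := hinvU k
        rw [hk, smul_mul', hcf, hqi] at this
        exact hq1 (eq_one_of_self_inv hr hexp (mul_left_cancel this).symm)
      · have e : c * q = (k * h⁻¹) • q := by rw [mul_smul, ← hh, inv_smul_smul, hk, hh]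
        have : w1 • (c * q) = (c * q)⁻¹ := by
          rw [e, smul_smul, hc, mul_smul, hqi, smul_inv']
        rw [smul_mul', hcf, hqi, mul_inv] at this
        exact hc1 (eq_one_of_self_inv hr hexp (mul_right_cancel this))
  -- two points with different kernels meet trivially
  have hsep : ∀ x ∈ F, ∀ y ∈ F, ∀ t ∈ W, t • x = x → t • y = y → t ≠ 1 →
      ∀ w ∈ W, (w • x = x ↔ w • y = y) := by
    intro x hx y hy t ht htx hty ht1 w hw
    by_cases hxy : x * y = 1
    · rw [eq_inv_of_mul_eq_one_right hxy, smul_inv', inv_inj]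
    have hm : x * y ∈ F := ⟨hxy, t, ht, ht1, by rw [smul_mul', htx, hty]⟩
    rcases hEig x hx w hw with h1 | h1 <;> rcases hEig y hy w hw with h2 | h2
    · simp [h1, h2]
    · exfalso
      rcases hEig _ hm w hw with h3 | h3 <;> rw [smul_mul', h1, h2] at h3
      · exact hy.1 (eq_one_of_self_inv hr hexp (mul_left_cancel h3).symm)
      · rw [mul_inv] at h3
        exact hx.1 (eq_one_of_self_inv hr hexp (mul_right_cancel h3))
    · exfalso
      rcases hEig _ hm w hw with h3 | h3 <;> rw [smul_mul', h1, h2] at h3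
      · exact hx.1 (eq_one_of_self_inv hr hexp (mul_right_cancel h3).symm)
      · rw [mul_inv] at h3
        exact hy.1 (eq_one_of_self_inv hr hexp (mul_left_cancel h3))
    · constructor <;> intro h
      · exact absurd (h1.symm.trans h) fun e => hx.1 (eq_one_of_self_inv hr hexp e.symm)
      · exact absurd (h2.symm.trans h) fun e => hy.1 (eq_one_of_self_inv hr hexp e.symm)
  have hmul : ∀ x : P, ∀ a b : H, a • x = x → b • x = x⁻¹ → (a * b) • x = x⁻¹ :=
    fun x a b h1 h2 => by rw [mul_smul, h2, smul_inv', h1]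
  -- pick `a`, `b`
  obtain ⟨x, hx1, hax⟩ := hno w1 (hW w1 hw1) hw11
  have hxF : x ∈ F := ⟨hx1, w1, hw1, hw11, hax⟩
  obtain ⟨b, hbW, hbx⟩ := hnotall x hxF
  have hb1 : b ≠ 1 := fun h => hx1 (eq_one_of_self_inv hr hexp (by rw [← hbx, h, one_smul]))
  obtain ⟨y, hy1, hby⟩ := hno b (hW b hbW) hb1
  have hyF : y ∈ F := ⟨hy1, b, hbW, hb1, hby⟩
  have hcW : w1 * b ∈ W := mul_mem hw1 hbW
  have hc1 : w1 * b ≠ 1 := fun h => hx1 (eq_one_of_self_inv hr hexp (by
    rw [← hmul x w1 b hax hbx, h, one_smul]))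
  obtain ⟨zz, hz1, hcz⟩ := hno (w1 * b) (hW _ hcW) hc1
  have hzF : zz ∈ F := ⟨hz1, _, hcW, hc1, hcz⟩
  have hay : w1 • y = y⁻¹ := (hEig y hyF w1 hw1).resolve_left fun h => by
    have := (hsep x hxF y hyF w1 hw1 hax h hw11 b hbW).mpr hby
    exact hx1 (eq_one_of_self_inv hr hexp (this.symm.trans hbx))
  have haz : w1 • zz = zz⁻¹ := (hEig zz hzF w1 hw1).resolve_left fun h => by
    have := (hsep x hxF zz hzF w1 hw1 hax h hw11 (w1 * b) hcW).mpr hcz
    exact hx1 (eq_one_of_self_inv hr hexp (this.symm.trans (hmul x w1 b hax hbx)))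
  have hbz : b • zz = zz⁻¹ := by
    have := hcz
    rw [mul_smul] at this
    have e : w1 • w1 • b • zz = w1 • zz := congrArg _ this
    rwa [smul_smul w1 w1, hW w1 hw1, one_smul, haz] at e
  -- kernels of the three points
  have hker : ∀ w ∈ W, w • x = x → w = 1 ∨ w = w1 := by
    intro w hw hwx
    by_contra hcon
    push Not at hcon
    obtain ⟨hw0, hwa⟩ := hcon
    -- adjust `w` inside the kernel of `x` so that it also fixes `y`
    obtain ⟨t, htW, htx, hty, ht1⟩ : ∃ t ∈ W, t • x = x ∧ t • y = y ∧ t ≠ 1 := by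
      rcases hEig y hyF w hw with h | h
      · exact ⟨w, hw, hwx, h, hw0⟩
      · refine ⟨w * w1, mul_mem hw hw1, by rw [mul_smul, hax, hwx], by
          rw [mul_smul, hay, smul_inv', h, inv_inv], fun e => hwa ?_⟩
        rw [eq_inv_of_mul_eq_one_left e, inv_eq_of_mul_eq_one_right (hW w1 hw1)]
    have := (hsep x hxF y hyF t htW htx hty ht1 b hbW).mpr hby
    exact hx1 (eq_one_of_self_inv hr hexp (this.symm.trans hbx))
  have hW4 : ∀ w ∈ W, w = 1 ∨ w = w1 ∨ w = b ∨ w = w1 * b := by
    intro w hw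
    rcases hEig x hxF w hw with h | h
    · rcases hker w hw h with e | e
      · exact Or.inl e
      · exact Or.inr (Or.inl e)
    · have hm : (w * b) • x = x := by rw [mul_smul, hbx, smul_inv', h, inv_inv]
      rcases hker _ (mul_mem hw hbW) hm with e | e
      · right; right; left
        rw [eq_inv_of_mul_eq_one_left e, inv_eq_of_mul_eq_one_right (hW b hbW)]
      · right; right; right
        rw [← e, mul_assoc, hW b hbW, mul_one]
  -- neither `x * y` nor `x * y * zz` is an eigenvector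
  have hnu : ∀ p : P, p ≠ 1 → w1 • p ≠ p → w1 • p ≠ p⁻¹ → ∃ h : H, h • v = p := by
    intro p hp1 hp2 hp3
    refine (horb p hp1).resolve_left fun ⟨h, hh⟩ => ?_
    obtain ⟨a, ha⟩ := hFu x hxF
    have : p = (h * a⁻¹) • x := by rw [mul_smul, ← ha, inv_smul_smul, hh]
    rcases hEinv (h * a⁻¹) x (hEig x hxF) w1 hw1 with e | e
    · exact hp2 (this ▸ e)
    · exact hp3 (this ▸ e)
  have sq1 : ∀ p : P, p * p = 1 → p = 1 := fun p hp =>
    eq_one_of_self_inv hr hexp (eq_inv_of_mul_eq_one_left hp)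
  have hxy_a : w1 • (x * y) = x * y⁻¹ := by rw [smul_mul', hax, hay]
  obtain ⟨h1, hh1⟩ := hnu (x * y) (fun e => by
      have e' := congrArg (fun t => w1 • t) e
      simp only [smul_one, hxy_a] at e'
      exact hy1 (eq_one_of_self_inv hr hexp (mul_left_cancel (e.trans e'.symm))))
    (fun e => by rw [hxy_a] at e; exact hy1 (eq_one_of_self_inv hr hexp (mul_left_cancel e).symm))
    (fun e => by
      rw [hxy_a, mul_inv] at e
      exact hx1 (eq_one_of_self_inv hr hexp (mul_right_cancel e)))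
  have hxyz_a : w1 • (x * y * zz) = x * y⁻¹ * zz⁻¹ := by rw [smul_mul', hxy_a, haz]
  have hxyz1 : x * y * zz ≠ 1 := fun e => by
    have ea := congrArg (fun t => b • t) e
    simp only [smul_one, smul_mul', hbx, hby, hbz] at ea
    have e2 : (x * y * zz) * (x⁻¹ * y * zz⁻¹) = 1 := by rw [e, ea, one_mul]
    have : y * y = 1 := by
      rw [← e2, mul_mul_mul_comm, mul_mul_mul_comm x, mul_inv_cancel, one_mul, mul_inv_cancel, mul_one]
    exact hy1 (sq1 y this)
  obtain ⟨h2, hh2⟩ := hnu (x * y * zz) hxyz1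
    (fun e => by
      rw [hxyz_a, mul_assoc, mul_assoc, ← mul_inv] at e
      have hyz : y * zz = 1 := eq_one_of_self_inv hr hexp (mul_left_cancel e).symm
      have e' := congrArg (fun t => b • t) hyz
      simp only [smul_one, smul_mul', hby, hbz] at e'
      exact hz1 (eq_one_of_self_inv hr hexp (mul_left_cancel (hyz.trans e'.symm))))
    (fun e => by
      rw [hxyz_a, mul_inv, mul_inv] at e
      exact hx1 (eq_one_of_self_inv hr hexp (mul_right_cancel (mul_right_cancel e))))
  -- some element of `W` inverts `x * y`, none inverts `x * y * zz`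
  have e : x * y * zz = (h2 * h1⁻¹) • (x * y) := by
    rw [mul_smul, ← hh1, inv_smul_smul, hh2, hh1]
  set g := h2 * h1⁻¹
  have hc : (w1 * b) • (x * y) = (x * y)⁻¹ := by
    rw [mul_smul, smul_mul' b, hbx, hby, smul_mul', smul_inv', hax, hay, mul_inv]
  have hcz' : (g * (w1 * b) * g⁻¹) • (x * y * zz) = (x * y * zz)⁻¹ := by
    rw [e, mul_smul, mul_smul, inv_smul_smul, hc, smul_inv']
  rcases hW4 _ (‹W.Normal›.conj_mem _ hcW g) with h | h | h | h <;> rw [h] at hcz'
  · rw [one_smul] at hcz'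
    exact hxyz1 (eq_one_of_self_inv hr hexp hcz')
  · rw [hxyz_a, mul_inv, mul_inv] at hcz'
    exact hx1 (eq_one_of_self_inv hr hexp (mul_right_cancel (mul_right_cancel hcz')))
  · rw [smul_mul', smul_mul', hbx, hby, hbz, mul_inv, mul_inv] at hcz'
    exact hy1 (eq_one_of_self_inv hr hexp (mul_left_cancel (mul_right_cancel hcz')))
  · rw [smul_mul', hcz, hc, mul_inv (x * y) zz] at hcz'
    exact hz1 (eq_one_of_self_inv hr hexp (mul_left_cancel hcz'))

theorem card_fix_conj (g h : H) :
    Nat.card (orbFix (g * h * g⁻¹) : Subgroup P) = Nat.card (orbFix h : Subgroup P) := by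
  refine (Nat.card_congr ((MulAction.toPerm g).subtypeEquiv fun x => ?_)).symm
  show h • x = x ↔ (g * h * g⁻¹) • (g • x) = g • x
  rw [mul_smul, mul_smul, inv_smul_smul, smul_left_cancel_iff]

theorem card_sylow_dvd_of_free {q : ℕ} [Fact q.Prime] (Q : Sylow q H)
    (hfree : ∀ a ∈ (Q : Subgroup H), a ≠ 1 → ∀ x : P, a • x = x → x = 1) :
    Nat.card (Q : Subgroup H) ∣ Nat.card P - 1 := by
  let S : Subgroup H := (Q : Subgroup H)
  have hinv : ∀ (a : S) (x : {x : P // x ≠ 1}), a • (x : P) ≠ 1 := fun a x h => x.2 (by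
    have := congrArg (fun t => a⁻¹ • t) h
    simpa using this)
  letI : MulAction S {x : P // x ≠ 1} :=
    { smul := fun a x => ⟨a • (x : P), hinv a x⟩
      one_smul := fun x => Subtype.ext (one_smul S (x : P))
      mul_smul := fun a b x => Subtype.ext (mul_smul a b (x : P)) }
  have hcard : Nat.card {x : P // x ≠ 1} = Nat.card P - 1 := by
    have := Set.ncard_compl ({1} : Set P)
    rw [Set.ncard_singleton, ← Nat.card_coe_set_eq] at this
    exact this
  have hstab : ∀ x : {x : P // x ≠ 1}, MulAction.stabilizer S x = ⊥ := by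
    intro x
    rw [Subgroup.eq_bot_iff_forall]
    intro a ha
    by_contra ha1
    have h1 : (a : H) • (x : P) = x := congrArg Subtype.val (MulAction.mem_stabilizer_iff.mp ha)
    exact x.2 (hfree a a.2 (fun h => ha1 (Subtype.ext h)) x h1)
  letI := Fintype.ofFinite (Quotient (MulAction.orbitRel S {x : P // x ≠ 1}))
  rw [← hcard, Nat.card_congr (MulAction.selfEquivSigmaOrbitsQuotientStabilizer S {x : P // x ≠ 1}),
    Nat.card_sigma]
  refine Finset.dvd_sum fun o _ => ?_
  rw [hstab, ← Subgroup.index_eq_card, Subgroup.index_bot]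

/-- A group with at most two orbits on the nonidentity points is small. -/
theorem card_le_of_two_orbits {r : ℕ} (hr : r = 3 ∨ r = 5) (hexp : ∀ x : P, x ^ r = 1)
    (hrH : ¬ r ∣ Nat.card H) (heven : 2 ∣ Nat.card H)
    (hfpf : ∀ a : H, Odd (orderOf a) → a ≠ 1 → ∀ x : P, a • x = x → x = 1)
    (hnc : ∀ a s : H, Odd (orderOf a) → a ≠ 1 → orderOf s = 2 → Commute a s → False)
    (hinv : ∀ s : H, orderOf s = 2 →
      Nat.card {x : P // s • x = x} ≤ (if r = 3 then 9 else 5))
    (u v : P) (horb : ∀ x : P, x ≠ 1 → (∃ h : H, h • u = x) ∨ ∃ h : H, h • v = x)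
    (hU : ∀ s : H, orderOf s = 2 → ∀ x : P, x ≠ 1 → s • x = x → ∃ h : H, h • u = x)
    (hfour : (∀ x : P, x ≠ 1 → ∃ h : H, h • u = x) ∨
      ((∀ g : H, (∃ k, orderOf g = 2 ^ k) → g ^ 4 = 1) ∧
        ∀ g : H, orderOf g = 4 → ∀ x : P, g • x = x → x = 1)) :
    Nat.card P ≤ (if r = 3 then 9 else 5) := by
  classical
  haveI : Fact (Nat.Prime 2) := ⟨Nat.prime_two⟩
  by_cases hz : ∃ z : H, ∀ x : P, z • x = x⁻¹
  · obtain ⟨z, hz⟩ := hz
    exact card_le_of_inverter hr hexp hnc u v horb hU hfour hz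
  by_cases hP1 : Subsingleton P
  · haveI := hP1
    rw [Nat.card_of_subsingleton 1]
    split <;> norm_num
  rw [not_subsingleton_iff_nontrivial] at hP1
  have hrodd : Odd r := by rcases hr with rfl | rfl <;> decide
  haveI hrp : Fact r.Prime := ⟨by rcases hr with rfl | rfl <;> norm_num⟩
  have hno : ∀ s : H, s * s = 1 → s ≠ 1 → ∃ x : P, x ≠ 1 ∧ s • x = x := by
    intro s hs _
    by_contra hcon
    refine hz ⟨s, smul_eq_inv_of_fix_bot hrodd hexp hs fun x hx => ?_⟩
    by_contra hx1
    exact hcon ⟨x, hx1, hx⟩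
  obtain ⟨s, hs⟩ := exists_prime_orderOf_dvd_card' 2 heven
  have hss : s * s = 1 := by rw [← pow_two, ← hs, pow_orderOf_eq_one]
  have hO : s ∉ Cfsg.pCore 2 H := by
    intro hmem
    have hpc : IsPGroup 2 (Cfsg.pCore 2 H) := CfsgLib.LocalP.isPGroup_pCore
    haveI hpn : (Cfsg.pCore 2 H).Normal := inferInstance
    let W : Subgroup H :=
      { carrier := {w | w ∈ Cfsg.pCore 2 H ∧ (∀ k ∈ Cfsg.pCore 2 H, w * k = k * w) ∧ w * w = 1}
        one_mem' := ⟨one_mem _, by simp, by simp⟩
        mul_mem' := fun {a b} ha hb => ⟨mul_mem ha.1 hb.1,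
          fun k hk => by rw [mul_assoc, hb.2.1 k hk, ← mul_assoc, ha.2.1 k hk, mul_assoc],
          by rw [show a * b * (a * b) = a * (b * a) * b by group, ← ha.2.1 b hb.1,
            show a * (a * b) * b = (a * a) * (b * b) by group, ha.2.2, hb.2.2, one_mul]⟩
        inv_mem' := fun {a} ha => ⟨inv_mem ha.1,
          fun k hk => by rw [inv_eq_of_mul_eq_one_right ha.2.2]; exact ha.2.1 k hk,
          by rw [inv_eq_of_mul_eq_one_right ha.2.2]; exact ha.2.2⟩ }
    haveI hWn : W.Normal := ⟨fun w hw g => ⟨hpn.conj_mem w hw.1 g, fun k hk => by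
        have := hw.2.1 (g⁻¹ * k * g) (by simpa using hpn.conj_mem k hk g⁻¹)
        calc g * w * g⁻¹ * k = g * (w * (g⁻¹ * k * g)) * g⁻¹ := by group
          _ = g * ((g⁻¹ * k * g) * w) * g⁻¹ := by rw [this]
          _ = k * (g * w * g⁻¹) := by group,
        by rw [show g * w * g⁻¹ * (g * w * g⁻¹) = g * (w * w) * g⁻¹ by group, hw.2.2]; group⟩⟩
    haveI : Nontrivial (Cfsg.pCore 2 H) := ⟨⟨⟨s, hmem⟩, 1, fun h => by
      have h' : s = 1 := congrArg Subtype.val h
      rw [h', orderOf_one] at hs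
      exact absurd hs (by norm_num)⟩⟩
    haveI := hpc.center_nontrivial
    obtain ⟨n, hn⟩ := IsPGroup.iff_card.mp (hpc.to_subgroup (Subgroup.center (Cfsg.pCore 2 H)))
    have h2 : 2 ∣ Nat.card (Subgroup.center (Cfsg.pCore 2 H)) := by
      have h1 : 1 < Nat.card (Subgroup.center (Cfsg.pCore 2 H)) := Finite.one_lt_card
      rcases n with _ | n
      · simp [hn] at h1
      · exact hn ▸ dvd_pow_self 2 n.succ_ne_zero
    obtain ⟨c, hc⟩ := exists_prime_orderOf_dvd_card' 2 h2
    have hcW : ((c : Cfsg.pCore 2 H) : H) ∈ W := ⟨c.1.2, fun k hk =>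
      congrArg Subtype.val (Subgroup.mem_center_iff.mp c.2 ⟨k, hk⟩).symm, by
      have := pow_orderOf_eq_one c
      rw [hc, pow_two] at this
      exact congrArg (fun t => ((t : Subgroup.center (Cfsg.pCore 2 H)).1 : H)) this⟩
    refine false_of_normal_two hrodd hexp u v horb hU hno W (fun w hw => hw.2.2)
      (fun a ha b hb => ha.2.1 b hb.1) fun hbot => ?_
    rw [hbot, Subgroup.mem_bot] at hcW
    have : c = 1 := Subtype.ext (Subtype.ext hcW)
    rw [this, orderOf_one] at hc
    exact absurd hc (by norm_num)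
  obtain ⟨a, ha1, ha2, ha3⟩ := CfsgLib.BaerSuzuki.involution_inverts_odd hs hO
  have hsi : s⁻¹ = s := inv_eq_of_mul_eq_one_right hss
  rw [hsi] at ha3
  have hsa : s * a * (s * a) = 1 := by
    rw [← mul_assoc, ha3, inv_mul_cancel]
  -- `s * a` is a conjugate of `s`
  obtain ⟨m, hm⟩ := ha2
  have hbrel : ∀ k : ℕ, s * a ^ k * s = (a ^ k)⁻¹ := fun k => by
    have := congrArg (fun t => t ^ k) (show s * a * s⁻¹ = a⁻¹ by rw [hsi, ha3])
    simp only [conj_pow, inv_pow] at this
    rwa [hsi] at this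
  set b := a ^ (m + 1) with hb
  have hconj : b⁻¹ * s * b⁻¹⁻¹ = s * a := by
    have hbb : b * b = a := by
      rw [hb, ← pow_add, show m + 1 + (m + 1) = 2 * m + 1 + 1 by omega, pow_succ, ← hm,
        pow_orderOf_eq_one, one_mul]
    rw [inv_inv, ← hbrel (m + 1)]
    calc s * b * s * s * b = s * b * (s * s) * b := by group
      _ = s * a := by rw [hss, mul_one, mul_assoc, hbb]
  have hmeet : ∀ x : P, (s • x = x → (s * a) • x = x → x = 1) ∧
      (s • x = x⁻¹ → (s * a) • x = x⁻¹ → x = 1) := by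
    intro x
    constructor <;> intro h1 h2 <;> refine hfpf a ⟨m, hm⟩ ha1 x ?_
    · have := congrArg (fun t => s • t) h2
      simpa [smul_smul, ← mul_assoc, hss, h1] using this
    · have := congrArg (fun t => s • t) h2
      simpa [smul_smul, ← mul_assoc, hss, h1, smul_inv'] using this
  have hprod : ∀ A B : Subgroup P, (∀ x, x ∈ A → x ∈ B → x = 1) →
      Nat.card A * Nat.card B ≤ Nat.card P := by
    intro A B h
    rw [← Nat.card_prod]
    refine Nat.card_le_card_of_injective (fun q => (q.1 : P) * q.2) ?_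
    rintro ⟨a, b⟩ ⟨c, d⟩ e
    have e' : (a : P) * b = c * d := e
    have e1 : ((c : P)⁻¹ * a) = d * (b : P)⁻¹ := by
      rw [eq_mul_inv_iff_mul_eq, mul_assoc, e', inv_mul_cancel_left]
    have hm : ((c : P)⁻¹ * a) = 1 :=
      h _ (mul_mem (inv_mem c.2) a.2) (e1 ▸ mul_mem d.2 (inv_mem b.2))
    have hac : a = c := Subtype.ext (inv_mul_eq_one.mp hm).symm
    subst hac
    exact Prod.ext rfl (Subtype.ext (mul_left_cancel e'))
  have h1 := card_fix_mul_card_inv hrodd hexp hss
  have h2 := card_fix_mul_card_inv hrodd hexp hsa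
  have hcc : Nat.card (orbFix (s * a) : Subgroup P) = Nat.card (orbFix s : Subgroup P) := by
    rw [← hconj]; exact card_fix_conj _ _
  rw [hcc] at h2
  have h3 := hprod (orbFix s) (orbFix (s * a)) fun x h h' => (hmeet x).1 h h'
  have h4 := hprod (orbInv s) (orbInv (s * a)) fun x h h' => (hmeet x).2 h h'
  rw [hcc] at h3
  set c := Nat.card (orbFix s : Subgroup P) with hcdef
  set i := Nat.card (orbInv s : Subgroup P)
  have hcpos : 0 < c := Nat.card_pos
  have hipos : 0 < i := Nat.card_pos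
  have hi' : Nat.card (orbInv (s * a) : Subgroup P) = i :=
    Nat.eq_of_mul_eq_mul_left hcpos (h2.trans h1.symm)
  rw [hi'] at h4
  have hci : c = i := by
    rw [← h1] at h3 h4
    exact le_antisymm (Nat.le_of_mul_le_mul_left h3 hcpos) (Nat.le_of_mul_le_mul_right h4 hipos)
  have hPc : Nat.card P = c * c := by rw [← h1, ← hci]
  obtain ⟨k, hk⟩ := IsPGroup.iff_card.mp
    (show IsPGroup r (orbFix s : Subgroup P) from fun x => ⟨1, by
      rw [pow_one]; exact Subtype.ext (hexp x)⟩)
  have hcB : c ≤ (if r = 3 then 9 else 5) := hinv s hs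
  rw [← hcdef] at hk
  have hcases : Nat.card P ≤ (if r = 3 then 9 else 5) ∨ (r = 3 ∧ Nat.card P = 81) ∨
      (r = 5 ∧ Nat.card P = 25) := by
    rcases hr with rfl | rfl
    · rw [if_pos rfl] at hcB ⊢
      have : k ≤ 2 := by
        by_contra hk2
        have := Nat.pow_le_pow_right (show 0 < 3 by norm_num) (show 3 ≤ k by omega)
        omega
      interval_cases k <;> simp [hPc, hk]
    · rw [if_neg (by norm_num)] at hcB ⊢
      have : k ≤ 1 := by
        by_contra hk2
        have := Nat.pow_le_pow_right (show 0 < 5 by norm_num) (show 2 ≤ k by omega)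
        omega
      interval_cases k <;> simp [hPc, hk]
  rcases hcases with h | hbig
  · exact h
  exfalso
  -- the only odd prime divisor of the order is `p`
  obtain ⟨p, hp, hp2, hpsq, hpd, hlim⟩ : ∃ p : ℕ, p.Prime ∧ p ≠ 2 ∧ ¬ p ^ 2 ∣ Nat.card P - 1 ∧
      (∀ q : ℕ, q.Prime → q ∣ Nat.card P - 1 → q = 2 ∨ q = p) ∧
      2 * (p * (p - 1)) < Nat.card P - 1 := by
    rcases hbig with ⟨-, h⟩ | ⟨-, h⟩
    · refine ⟨5, by norm_num, by norm_num, by rw [h]; norm_num, fun q hq hd => ?_, by rw [h]; norm_num⟩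
      rw [h, show 81 - 1 = 2 ^ 4 * 5 from rfl] at hd
      rcases hq.dvd_mul.mp hd with e | e
      · exact Or.inl ((Nat.prime_dvd_prime_iff_eq hq Nat.prime_two).mp (hq.dvd_of_dvd_pow e))
      · exact Or.inr ((Nat.prime_dvd_prime_iff_eq hq (by norm_num)).mp e)
    · refine ⟨3, by norm_num, by norm_num, by rw [h]; norm_num, fun q hq hd => ?_, by rw [h]; norm_num⟩
      rw [h, show 25 - 1 = 2 ^ 3 * 3 from rfl] at hd
      rcases hq.dvd_mul.mp hd with e | e
      · exact Or.inl ((Nat.prime_dvd_prime_iff_eq hq Nat.prime_two).mp (hq.dvd_of_dvd_pow e))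
      · exact Or.inr ((Nat.prime_dvd_prime_iff_eq hq (by norm_num)).mp e)
  haveI := Fact.mk hp
  have hsyl : ∀ q : ℕ, q.Prime → q ≠ 2 → ∀ Q : Sylow q H,
      Nat.card (Q : Subgroup H) ∣ Nat.card P - 1 := by
    intro q hq hq2 Q
    haveI := Fact.mk hq
    refine card_sylow_dvd_of_free Q fun t ht ht1 => hfpf t ?_ ht1
    obtain ⟨j, hj⟩ := IsPGroup.iff_orderOf.mp Q.2 ⟨t, ht⟩
    rw [Subgroup.orderOf_mk] at hj
    rw [hj]
    exact (hq.odd_of_ne_two hq2).pow
  have hprimes : ∀ q : ℕ, q.Prime → q ∣ Nat.card H → q = 2 ∨ q = p := by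
    intro q hq hd
    by_cases hq2 : q = 2
    · exact Or.inl hq2
    haveI := Fact.mk hq
    exact hpd q hq (dvd_trans (Sylow.dvd_card_of_dvd_card (default : Sylow q H) hd)
      (hsyl q hq hq2 default))
  haveI hsol : Group.IsSolvable H :=
    CfsgLib.Chars.Apps.isSolvable_of_primeFactors_subset H Nat.prime_two hp hprimes
  haveI : Nontrivial H := ⟨⟨s, 1, fun h => by
    rw [h, orderOf_one] at hs
    exact absurd hs (by norm_num)⟩⟩
  obtain ⟨q, E, hq, hEn, hEne, hEc, hEq⟩ := CfsgLib.PrimeGraph.exists_normal_elementary (G := H)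
  haveI := hEn
  haveI := Fact.mk hq
  by_cases hq2 : q = 2
  · subst hq2
    exact false_of_normal_two hrodd hexp u v horb hU hno E
      (fun w hw => by rw [← pow_two, hEq w hw]) hEc hEne
  have hEp : IsPGroup q E := fun w => ⟨1, Subtype.ext (by simpa using hEq w w.2)⟩
  obtain ⟨j, hj⟩ := IsPGroup.iff_card.mp hEp
  have hjne : j ≠ 0 := fun h => hEne (Subgroup.eq_bot_of_card_eq _ (by rw [hj, h, pow_zero]))
  have hqd : q ∣ Nat.card H := (dvd_pow_self q hjne).trans (hj ▸ Subgroup.card_subgroup_dvd_card E)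
  obtain rfl : q = p := (hprimes q hq hqd).resolve_left hq2
  -- the Sylow `q`-subgroups have order `q`
  obtain ⟨Q, hQ⟩ := hEp.exists_le_sylow
  obtain ⟨l, hl⟩ := IsPGroup.iff_card.mp Q.2
  have hl1 : l ≤ 1 := by
    by_contra hl2
    refine hpsq (dvd_trans ?_ (hsyl q hq hq2 Q))
    rw [hl]; exact pow_dvd_pow q (by omega)
  have hEle : Nat.card E ≤ q := by
    calc Nat.card E ≤ Nat.card (Q : Subgroup H) :=
          Nat.le_of_dvd Nat.card_pos (Subgroup.card_dvd_of_le hQ)
      _ ≤ q ^ 1 := hl ▸ Nat.pow_le_pow_right hq.pos hl1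
      _ = q := pow_one q
  obtain ⟨e, heE, he1⟩ : ∃ e ∈ E, e ≠ 1 := by
    by_contra hcon
    push Not at hcon
    exact hEne ((Subgroup.eq_bot_iff_forall _).mpr hcon)
  have heord : orderOf e = q := orderOf_eq_prime (hEq e heE) he1
  set C := Subgroup.centralizer ({e} : Set H) with hC
  -- the centralizer has odd order, hence order at most `q`
  have hCodd : ¬ 2 ∣ Nat.card C := by
    intro h
    obtain ⟨t, ht⟩ := exists_prime_orderOf_dvd_card' 2 h
    exact hnc e t (heord ▸ hq.odd_of_ne_two hq2) he1 (by rw [Subgroup.orderOf_coe, ht])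
      (Subgroup.mem_centralizer_singleton_iff.mp t.2).symm
  have hCle : Nat.card C ≤ q := by
    have hCq : IsPGroup q C := by
      refine IsPGroup.of_card (Nat.eq_prime_pow_of_unique_prime_dvd Nat.card_pos.ne'
        fun {t} ht hd => ?_)
      exact (hprimes t ht (hd.trans (Subgroup.card_subgroup_dvd_card C))).resolve_left
          (fun h => hCodd (h ▸ hd))
    obtain ⟨Q', hQ'⟩ := hCq.exists_le_sylow
    obtain ⟨l', hl'⟩ := IsPGroup.iff_card.mp Q'.2
    have : l' ≤ 1 := by
      by_contra hl2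
      refine hpsq (dvd_trans ?_ (hsyl q hq hq2 Q'))
      rw [hl']; exact pow_dvd_pow q (by omega)
    calc Nat.card C ≤ Nat.card (Q' : Subgroup H) :=
          Nat.le_of_dvd Nat.card_pos (Subgroup.card_dvd_of_le hQ')
      _ ≤ q ^ 1 := hl' ▸ Nat.pow_le_pow_right hq.pos this
      _ = q := pow_one q
  have hidx : C.index ≤ q - 1 := by
    rw [Subgroup.index_eq_card]
    have hmap : ∀ g : H, g * e * g⁻¹ ∈ E ∧ g * e * g⁻¹ ≠ 1 := fun g =>
      ⟨hEn.conj_mem e heE g, fun h => he1 (by
        have := congrArg (fun t => g⁻¹ * t * g) h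
        simpa [mul_assoc] using this)⟩
    have hle : Nat.card (H ⧸ C) ≤ Nat.card {x : H // x ∈ E ∧ x ≠ 1} := by
      refine Nat.card_le_card_of_injective (fun g => ⟨g.out * e * g.out⁻¹, hmap _⟩) ?_
      intro g g' h
      have h' : g.out * e * g.out⁻¹ = g'.out * e * g'.out⁻¹ := congrArg Subtype.val h
      rw [← QuotientGroup.out_eq' g, ← QuotientGroup.out_eq' g', QuotientGroup.eq]
      refine Subgroup.mem_centralizer_singleton_iff.mpr ?_
      calc g.out⁻¹ * g'.out * e = g.out⁻¹ * (g'.out * e * g'.out⁻¹) * g'.out := by group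
        _ = g.out⁻¹ * (g.out * e * g.out⁻¹) * g'.out := by rw [h']
        _ = e * (g.out⁻¹ * g'.out) := by group
    refine hle.trans ?_
    have hsub : {x : H | x ∈ E ∧ x ≠ 1} = (E : Set H) \ {1} := by ext x; simp
    show Nat.card ({x : H | x ∈ E ∧ x ≠ 1} : Set H) ≤ q - 1
    rw [hsub, Nat.card_coe_set_eq, Set.ncard_diff (by simp) (Set.toFinite _), Set.ncard_singleton,
      ← Nat.card_coe_set_eq]
    exact Nat.sub_le_sub_right hEle 1
  have hH : Nat.card H ≤ q * (q - 1) := by
    rw [← Subgroup.card_mul_index C]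
    exact Nat.mul_le_mul hCle hidx
  have := card_sub_one_le horb
  omega

/-- A transitive group all of whose involutions invert everything is small. -/
theorem card_le_of_isolated {q : ℕ} (hq : q.Prime) (hq3 : 3 < q) (hexp : ∀ x : P, x ^ q = 1)
    (htr : ∀ x y : P, x ≠ 1 → y ≠ 1 → ∃ h : H, h • x = y)
    (hinv : ∀ s : H, orderOf s = 2 → ∀ x : P, s • x = x → x = 1)
    (h3 : ∀ a : H, orderOf a = 3 → ∀ x : P, a • x = x → x = 1)
    (hord : ∀ g : H, orderOf g ∈ ({1, 2, 3, 4, 6} : Set ℕ) ∨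
      ∀ s : H, orderOf s = 2 → ¬ Commute g s) : Nat.card P ≤ 25 := by
  classical
  have hqodd : Odd q := hq.odd_of_ne_two (by omega)
  haveI := Fact.mk hq
  haveI : Fact (Nat.Prime 2) := ⟨Nat.prime_two⟩
  haveI : Fact (Nat.Prime 3) := ⟨Nat.prime_three⟩
  by_cases hP1 : Subsingleton P
  · haveI := hP1; rw [Nat.card_of_subsingleton 1]; norm_num
  rw [not_subsingleton_iff_nontrivial] at hP1
  obtain ⟨x0, hx0⟩ := exists_ne (1 : P)
  have horbit : MulAction.orbit H x0 = ({1}ᶜ : Set P) := by
    ext x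
    refine ⟨?_, fun hx => htr x0 x hx0 hx⟩
    rintro ⟨h, rfl⟩
    show h • x0 ≠ 1
    exact fun h1 => hx0 ((smul_eq_iff_eq_inv_smul h).mp h1 |>.trans (smul_one _))
  have hidx := MulAction.index_stabilizer (G := H) (x := x0)
  rw [horbit, Set.ncard_compl, Set.ncard_singleton] at hidx
  have hPH : Nat.card P - 1 ∣ Nat.card H := hidx ▸ Subgroup.index_dvd_card _
  obtain ⟨d, hd⟩ := IsPGroup.iff_card.mp (show IsPGroup q P from fun x => ⟨1, by rw [pow_one, hexp]⟩)
  have h2P : 2 ∣ Nat.card P - 1 := by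
    have hodd : Odd (Nat.card P) := hd ▸ hqodd.pow
    obtain ⟨e, he⟩ := hodd
    omega
  obtain ⟨z, hz⟩ := exists_prime_orderOf_dvd_card' 2 (h2P.trans hPH)
  have hzz : z * z = 1 := by rw [← pow_two, ← hz, pow_orderOf_eq_one]
  have hzinv : ∀ x : P, z • x = x⁻¹ := smul_eq_inv_of_fix_bot hqodd hexp hzz (hinv z hz)
  have hzc : ∀ g : H, Commute g z := comm_of_inv_all hzinv
  have huniq : ∀ g : H, g * g = 1 → g = 1 ∨ g = z := fun g hg => by
    by_cases hg1 : g = 1
    · exact Or.inl hg1
    exact Or.inr (eq_of_inv_all (smul_eq_inv_of_fix_bot hqodd hexp hg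
      (hinv g (orderOf_eq_prime (by rw [pow_two, hg]) hg1))) hzinv)
  have hords : ∀ g : H, orderOf g ∈ ({1, 2, 3, 4, 6} : Set ℕ) := fun g =>
    (hord g).resolve_right fun h => h z hz (hzc g)
  -- primes
  have hprimes : ∀ l : ℕ, l.Prime → l ∣ Nat.card H → l = 2 ∨ l = 3 := by
    intro l hl hd'
    haveI := Fact.mk hl
    obtain ⟨g, hg⟩ := exists_prime_orderOf_dvd_card' l hd'
    have := hords g
    rw [hg] at this
    simp only [Set.mem_insert_iff, Set.mem_singleton_iff] at this
    rcases this with rfl | rfl | rfl | rfl | rfl <;> norm_num at hl <;> simp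
  -- the Sylow `2`-subgroup
  have hS2 : ∀ S : Sylow 2 H, Nat.card (S : Subgroup H) ≤ 8 := by
    intro S
    have hzS : z ∈ (S : Subgroup H) := by
      obtain ⟨T, hT⟩ := (IsPGroup.of_card (n := 1) (by rw [Nat.card_zpowers, hz]; rfl) :
        IsPGroup 2 (Subgroup.zpowers z)).exists_le_sylow
      obtain ⟨g, rfl⟩ := MulAction.exists_smul_eq H T S
      refine Subgroup.mem_map.mpr ⟨z, hT (Subgroup.mem_zpowers z), ?_⟩
      show g * z * g⁻¹ = z
      rw [(hzc g).eq, mul_assoc, mul_inv_cancel, mul_one]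
    refine card_le_eight_of_unique (fun g => ?_) ⟨z, hzS⟩ (Subtype.ext hzz) fun g hg => ?_
    · apply Subtype.ext
      show (g : H) ^ 4 = 1
      obtain ⟨j, hj⟩ := IsPGroup.iff_orderOf.mp S.2 g
      rw [← Subgroup.orderOf_coe] at hj
      have := hords (g : H)
      rw [hj] at this
      rw [← orderOf_dvd_iff_pow_eq_one, hj]
      simp only [Set.mem_insert_iff, Set.mem_singleton_iff] at this
      rcases j with _ | _ | _ | j
      · norm_num
      · norm_num
      · norm_num
      · exfalso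
        have h8 : 8 ∣ 2 ^ (j + 1 + 1 + 1) := ⟨2 ^ j, by ring⟩
        omega
    · rcases huniq (g : H) (congrArg Subtype.val hg) with h | h
      · exact Or.inl (Subtype.ext h)
      · exact Or.inr (Subtype.ext h)
  -- the Sylow `3`-subgroup
  have hS3 : ∀ S : Sylow 3 H, Nat.card (S : Subgroup H) ≤ 3 := by
    intro S
    by_contra hS
    haveI : Nontrivial (S : Subgroup H) := Finite.one_lt_card_iff_nontrivial.mp (by omega)
    haveI := S.2.center_nontrivial
    obtain ⟨c, hc1⟩ := exists_ne (1 : Subgroup.center (S : Subgroup H))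
    set cH : H := ((c : (S : Subgroup H)) : H) with hcH
    have hc0 : cH ≠ 1 := fun h => hc1 (Subtype.ext (Subtype.ext h))
    have hexp3 : ∀ g : H, g ∈ (S : Subgroup H) → g ^ 3 = 1 := by
      intro g hg
      obtain ⟨j, hj⟩ := IsPGroup.iff_orderOf.mp S.2 ⟨g, hg⟩
      rw [Subgroup.orderOf_mk] at hj
      have := hords g
      rw [hj] at this
      rw [← orderOf_dvd_iff_pow_eq_one, hj]
      simp only [Set.mem_insert_iff, Set.mem_singleton_iff] at this
      rcases j with _ | _ | j
      · norm_num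
      · norm_num
      · exfalso
        have h9 : 9 ∣ 3 ^ (j + 1 + 1) := ⟨3 ^ j, by ring⟩
        omega
    have hcS : cH ∈ (S : Subgroup H) := c.1.2
    obtain ⟨e, heS, hec⟩ : ∃ e ∈ (S : Subgroup H), e ∉ Subgroup.zpowers cH := by
      by_contra hcon
      push Not at hcon
      refine hS (le_trans (Nat.le_of_dvd Nat.card_pos
        (Subgroup.card_dvd_of_le (show (S : Subgroup H) ≤ Subgroup.zpowers cH from hcon))) ?_)
      rw [Nat.card_zpowers]
      exact Nat.le_of_dvd (by norm_num) (orderOf_dvd_of_pow_eq_one (hexp3 cH hcS))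
    have hcomm : Commute cH e :=
      (congrArg Subtype.val (Subgroup.mem_center_iff.mp c.2 ⟨e, heS⟩)).symm
    have hfree : ∀ g : H, g ∈ (S : Subgroup H) → g ≠ 1 → ∀ x : P, x * g • x * g • g • x = 1 := by
      intro g hg hg1 x
      refine h3 g (orderOf_eq_prime (hexp3 g hg) hg1) _ ?_
      have h333 : g • g • g • x = x := by
        rw [smul_smul, smul_smul, show g * g * g = g ^ 3 by simp [pow_succ, mul_assoc],
          hexp3 g hg, one_smul]
      rw [smul_mul', smul_mul', h333]
      ac_rfl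
    obtain ⟨x, hx⟩ := exists_ne (1 : P)
    have hne1 : ∀ i : ℕ, cH ^ i * e ≠ 1 := fun i h => hec (by
      rw [eq_inv_of_mul_eq_one_right h]
      exact inv_mem (Subgroup.npow_mem_zpowers cH i))
    have hmem : ∀ i : ℕ, cH ^ i * e ∈ (S : Subgroup H) := fun i =>
      mul_mem (pow_mem hcS i) heS
    have k0 := hfree cH hcS hc0 x
    have k1 := hfree _ (hmem 0) (hne1 0) x
    have k2 := hfree _ (hmem 1) (hne1 1) x
    have k3 := hfree _ (hmem 2) (hne1 2) x
    have kc := hfree cH hcS hc0 (e • x)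
    have kd := hfree cH hcS hc0 (e • e • x)
    simp only [pow_zero, one_mul, pow_one, pow_two, smul_smul] at k0 k1 k2 k3 kc kd
    have hc3 : cH * (cH * cH) = 1 := by
      have := hexp3 cH hcS
      simpa [pow_succ, mul_assoc] using this
    have n1 : cH * e * (cH * e) = cH * cH * (e * e) := hcomm.symm.mul_mul_mul_comm cH e
    have n2 : cH * cH * e * (cH * cH * e) = cH * (e * e) := by
      rw [((hcomm.mul_left hcomm).symm).mul_mul_mul_comm (cH * cH) e,
        show cH * cH * (cH * cH) = (cH * (cH * cH)) * cH by group, hc3, one_mul]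
    rw [n1] at k2
    rw [n2] at k3
    simp only [mul_assoc] at k0 k1 k2 k3 kc kd
    have key : x ^ 3 = 1 := by
      calc x ^ 3 = (x ^ 3) * ((e • x) * ((cH * e) • x * (cH * (cH * e)) • x)) *
            ((e * e) • x * ((cH * (e * e)) • x * (cH * (cH * (e * e))) • x)) := by
              rw [kc, kd, mul_one, mul_one]
        _ = (x * (e • x * (e * e) • x)) * (x * ((cH * e) • x * (cH * (cH * (e * e))) • x)) *
            (x * ((cH * (cH * e)) • x * (cH * (e * e)) • x)) := by
              simp only [pow_succ, pow_zero, one_mul, mul_one, mul_assoc, mul_comm, mul_left_comm]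
        _ = 1 := by rw [k1, k2, k3, one_mul, one_mul]
    refine hx (orderOf_eq_one_iff.mp ?_)
    have h1 := orderOf_dvd_of_pow_eq_one key
    have h2 := orderOf_dvd_of_pow_eq_one (hexp x)
    rcases (Nat.dvd_prime Nat.prime_three).mp h1 with h | h
    · exact h
    · rw [h] at h2
      have := (Nat.prime_dvd_prime_iff_eq Nat.prime_three hq).mp h2
      omega
  -- the order
  have hH : Nat.card H ≤ 24 := by
    have hdecomp : Nat.card H = 2 ^ (Nat.card H).factorization 2 * 3 ^ (Nat.card H).factorization 3 := by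
      conv_lhs => rw [← Nat.prod_factorization_pow_eq_self Nat.card_pos.ne']
      rw [Finsupp.prod_of_support_subset _ (s := {2, 3}) ?_ _ (fun _ _ => pow_zero _)]
      · simp
      · intro l hl
        rw [Nat.support_factorization] at hl
        have := Nat.mem_primeFactors.mp hl
        rcases hprimes l this.1 this.2.1 with rfl | rfl <;> simp
    have a2 := hS2 default
    have a3 := hS3 default
    rw [Sylow.card_eq_multiplicity] at a2 a3
    rw [hdecomp]
    exact Nat.mul_le_mul a2 a3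
  have := Nat.le_of_dvd Nat.card_pos hPH
  omega

end CfsgLib.TISuzuki
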