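import Cfsg.Agent.TISuzuki.Counting
import Mathlib.GroupTheory.SpecificGroups.Cyclic
import Mathlib.RingTheory.IntegralDomain

/-!
# The outer classes when an involution commutes with an element of odd prime order
-/

set_option autoImplicit false
set_option linter.unusedSectionVars false
set_option linter.style.haveILetI false

noncomputable section

namespace CfsgLib.TISuzuki

open Cfsg
open scoped Classical

universe u

variable {G : Type u} [Group G] [Fintype G] {A B C : Subgroup G}

theorem orderOf_eq_of_isConj {x y : G} (h : IsConj x y) : orderOf x = orderOf y := by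
  obtain ⟨g, rfl⟩ := isConj_iff.1 h
  exact ((MulAut.conj g).orderOf_eq x).symm

theorem isConj_pow {x y : G} (h : IsConj x y) (n : ℕ) : IsConj (x ^ n) (y ^ n) := by
  obtain ⟨g, rfl⟩ := isConj_iff.1 h
  exact isConj_iff.2 ⟨g, (map_pow (MulAut.conj g) x n)⟩

namespace Sys

/-- The product of the three orders. -/
abbrev N (_S : Sys A B C) : ℕ := Nat.card A * Nat.card B * Nat.card C

theorem odd_N (S : Sys A B C) : Odd S.N :=
  ((odd_fam S.fa (dvd_refl 2)).mul (odd_fam S.fb ⟨2, rfl⟩)).mul (odd_fam S.fc ⟨2, rfl⟩)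

theorem fam_of_mem (S : Sys A B C) {K : Subgroup G} (hK : K ∈ ({A, B, C} : Set (Subgroup G))) :
    (∃ e, Fam K e) ∧ Nat.card K ∣ S.N := by
  rcases hK with rfl | rfl | rfl
  · exact ⟨⟨2, S.fa⟩, Dvd.dvd.mul_right (dvd_mul_right _ _) _⟩
  · exact ⟨⟨4, S.fb⟩, Dvd.dvd.mul_right (dvd_mul_left _ _) _⟩
  · exact ⟨⟨4, S.fc⟩, dvd_mul_left _ _⟩

theorem outer_of_prime (S : Sys A B C) {x : G} {p : ℕ} (hp : p.Prime) (hpx : p ∣ orderOf x)
    (hpN : ¬ p ∣ S.N) : IsOuter A B C x := by
  refine ⟨fun e => hp.not_dvd_one (by rwa [e, orderOf_one] at hpx), fun K hK a ha _ hc => ?_⟩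
  refine hpN ((hpx.trans ?_).trans (S.fam_of_mem hK).2)
  rw [orderOf_eq_of_isConj hc, ← Subgroup.orderOf_mk a ha]
  exact orderOf_dvd_natCard _

theorem outer_of_even (S : Sys A B C) {x : G} (hx : 2 ∣ orderOf x) : IsOuter A B C x :=
  S.outer_of_prime Nat.prime_two hx S.odd_N.not_two_dvd_nat

/-- A prime dividing `N` divides no outer centraliser. -/
theorem not_dvd_cent (S : Sys A B C) {x y : G} (hx : IsOuter A B C x) (hxy : Commute x y) {p : ℕ}
    (hp : p.Prime) (hy : orderOf y = p) : ¬ p ∣ S.N := by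
  intro hd
  haveI : Fact p.Prime := ⟨hp⟩
  obtain ⟨K, hK, hpK⟩ : ∃ K ∈ ({A, B, C} : Set (Subgroup G)), p ∣ Nat.card K := by
    rcases hp.dvd_mul.1 hd with h | h
    · rcases hp.dvd_mul.1 h with h | h
      · exact ⟨A, Or.inl rfl, h⟩
      · exact ⟨B, Or.inr (Or.inl rfl), h⟩
    · exact ⟨C, Or.inr (Or.inr rfl), h⟩
  obtain ⟨⟨e, hKe⟩, -⟩ := S.fam_of_mem hK
  obtain ⟨P, hP⟩ := hKe.sylow_le_of_dvd hpK
  obtain ⟨Q, hQ⟩ := (IsPGroup.of_card (n := 1)
    (by rw [Nat.card_zpowers, hy, pow_one]) : IsPGroup p (Subgroup.zpowers y)).exists_le_sylow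
  obtain ⟨g, hg⟩ := MulAction.exists_smul_eq G Q P
  have hy' : g * y * g⁻¹ ∈ K := hP (by
    rw [← hg, Sylow.coe_subgroup_smul]
    exact Subgroup.smul_mem_pointwise_smul y (MulAut.conj g) _ (hQ (Subgroup.mem_zpowers y)))
  have hy1 : g * y * g⁻¹ ≠ 1 := by
    intro h
    rw [conj_eq_one_iff] at h
    rw [h, orderOf_one] at hy
    exact hp.one_lt.ne hy
  have hx' : g * x * g⁻¹ ∈ K := hKe.mem_of_commute hy' hy1
    ((hxy.map (MulAut.conj g).toMonoidHom).eq)
  exact hx.2 K hK _ hx' (by simpa using hx.1) (isConj_iff.2 ⟨g, rfl⟩)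

/-- Six pairwise non-conjugate outer elements do not exist. -/
theorem six (S : Sys A B C) (l : List G) (hlen : l.length = 6) (hout : ∀ x ∈ l, IsOuter A B C x)
    (hpw : l.Pairwise fun x y => ¬ IsConj x y) : False := by
  have hnd : (l.map ConjClasses.mk).Nodup := by
    rw [List.nodup_iff_pairwise_ne, List.pairwise_map]
    exact hpw.imp fun h e => h (ConjClasses.mk_eq_mk_iff_isConj.1 e)
  have hsub : (l.map ConjClasses.mk).toFinset ⊆ outer A B C := by
    intro c hc
    rw [List.mem_toFinset, List.mem_map] at hc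
    obtain ⟨x, hx, rfl⟩ := hc
    exact mem_outer.2 (hout x hx)
  have := Finset.card_le_card hsub
  rw [List.toFinset_card_of_nodup hnd, List.length_map, hlen] at this
  have := S.card_outer.1
  omega

/-- The normaliser of `B` contains an element of order four. -/
theorem exists_four (S : Sys A B C) : ∃ h : G, orderOf h = 4 := by
  haveI : Fact (Nat.Prime 2) := ⟨Nat.prime_two⟩
  have hcard : Nat.card (Nz B) = 4 * Nat.card B := by
    have h := (B.subgroupOf (Nz B)).index_mul_card
    rw [show (B.subgroupOf (Nz B)).index = 4 from S.fb.idx,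
      Nat.card_congr (Subgroup.subgroupOfEquivOfLe Subgroup.le_normalizer).toEquiv] at h
    exact h.symm
  obtain ⟨T⟩ := (inferInstance : Nonempty (Sylow 2 (Nz B)))
  have hB2 : ¬ 2 ∣ Nat.card B := (odd_fam S.fb ⟨2, rfl⟩).not_two_dvd_nat
  have hT : Nat.card ↥(T : Subgroup (Nz B)) = 4 := by
    rw [T.card_eq_multiplicity, hcard, Nat.factorization_mul (by norm_num) Nat.card_pos.ne',
      Finsupp.add_apply, Nat.factorization_eq_zero_of_not_dvd hB2, add_zero,
      show (4 : ℕ) = 2 ^ 2 by norm_num, Nat.Prime.factorization_pow Nat.prime_two,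
      Finsupp.single_eq_same]
  by_contra hcon
  push Not at hcon
  have hsq : ∀ s : ↥(T : Subgroup (Nz B)), ((s : Nz B) : G) * (s : Nz B) = 1 := by
    intro s
    have h4 : orderOf ((s : Nz B) : G) ∣ 4 := by
      rw [Subgroup.orderOf_coe, Subgroup.orderOf_coe, ← hT]; exact orderOf_dvd_natCard _
    have : orderOf ((s : Nz B) : G) ∣ 2 := by
      have := Nat.le_of_dvd (by norm_num) h4
      have := hcon ((s : Nz B) : G)
      interval_cases (orderOf ((s : Nz B) : G)) <;> first | omega | norm_num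
    rw [← sq]; exact orderOf_dvd_iff_pow_eq_one.1 this
  have hinv : ∀ s : ↥(T : Subgroup (Nz B)), s ≠ 1 → ∀ b ∈ B,
      ((s : Nz B) : G) * b * ((s : Nz B) : G)⁻¹ = b⁻¹ := by
    intro s hs b hb
    set g : G := ((s : Nz B) : G)
    have hgi : g⁻¹ = g := inv_eq_of_mul_eq_one_right (hsq s)
    have hg : g * b * g⁻¹ ∈ B := (Subgroup.mem_normalizer_iff.1 (s : Nz B).2 b).1 hb
    by_contra hne
    have hne' : b * (g * b * g⁻¹) ≠ 1 := fun h => hne (eq_inv_of_mul_eq_one_right h)
    have hcomm : g * (b * (g * b * g⁻¹)) = b * (g * b * g⁻¹) * g := by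
      have h1 := S.fb.comm hb hg
      calc g * (b * (g * b * g⁻¹)) = g * b * (g * b) * g⁻¹ := by group
        _ = (g * b * g) * (b * g⁻¹) := by group
        _ = (g * b * g⁻¹) * (b * g⁻¹) := by rw [hgi]
        _ = (g * b * g⁻¹ * b) * g⁻¹ := by group
        _ = (b * (g * b * g⁻¹)) * g⁻¹ := by rw [h1]
        _ = (b * (g * b * g⁻¹)) * g := by rw [hgi]
    have hgB : g ∈ B := S.fb.mem_of_commute (B.mul_mem hb hg) hne' hcomm
    apply hs
    have h2 : orderOf g ∣ 2 := orderOf_dvd_iff_pow_eq_one.2 (by rw [sq]; exact hsq s)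
    have h3 : orderOf g ∣ Nat.card B := by
      rw [← Subgroup.orderOf_mk g hgB]; exact orderOf_dvd_natCard _
    have : orderOf g = 1 := by
      rcases (Nat.dvd_prime Nat.prime_two).1 h2 with h | h
      · exact h
      · exact absurd (h ▸ h3) hB2
    exact Subtype.ext (Subtype.ext (orderOf_eq_one_iff.1 this))
  haveI : Nontrivial ↥(T : Subgroup (Nz B)) :=
    Finite.one_lt_card_iff_nontrivial.1 (by rw [hT]; norm_num)
  obtain ⟨s, hs⟩ := exists_ne (1 : ↥(T : Subgroup (Nz B)))
  obtain ⟨s', hs', hss'⟩ : ∃ s' : ↥(T : Subgroup (Nz B)), s' ≠ 1 ∧ s' ≠ s := by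
    by_contra h
    push Not at h
    have hsub : (Finset.univ : Finset ↥(T : Subgroup (Nz B))) ⊆ {1, s} := fun x _ => by
      by_cases hx : x = 1
      · simp [hx]
      · simp [h x hx]
    have := Finset.card_le_card hsub
    rw [Finset.card_univ, ← Nat.card_eq_fintype_card, hT] at this
    have := Finset.card_le_two (a := (1 : ↥(T : Subgroup (Nz B)))) (b := s)
    omega
  have hp : s * s' ≠ 1 := fun h => hss' (by
    have hi : s⁻¹ = s := inv_eq_of_mul_eq_one_right (Subtype.ext (Subtype.ext (hsq s)))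
    rw [← hi]; exact (inv_eq_of_mul_eq_one_right h).symm)
  have hb : ∃ b ∈ B, b ≠ 1 := (Subgroup.bot_or_exists_ne_one B).resolve_left fun h => by
    have := S.nb; rw [h, Subgroup.card_bot] at this; omega
  obtain ⟨b, hbB, hb1⟩ := hb
  have e1 := hinv (s * s') hp b hbB
  simp only [Subgroup.coe_mul, mul_inv_rev] at e1
  have e2 : ((s : Nz B) : G) * (((s' : Nz B) : G) * b * ((s' : Nz B) : G)⁻¹) * ((s : Nz B) : G)⁻¹ =
      b⁻¹ := by rw [← e1]; group
  rw [hinv s' hs' b hbB, hinv s hs b⁻¹ (B.inv_mem hbB), inv_inv] at e2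
  apply hb1
  have h2 : orderOf b ∣ 2 := orderOf_dvd_iff_pow_eq_one.2 (by
    rw [sq]; nth_rewrite 2 [e2]; exact mul_inv_cancel b)
  have h3 : orderOf b ∣ Nat.card B := by
    rw [← Subgroup.orderOf_mk b hbB]; exact orderOf_dvd_natCard _
  rcases (Nat.dvd_prime Nat.prime_two).1 h2 with h | h
  · exact orderOf_eq_one_iff.1 h
  · exact absurd (h ▸ h3) hB2

end Sys

/-- An involution commuting with an element of odd prime order, and an element of order four. -/
structure Two (A B C : Subgroup G) (r : ℕ) (t u h : G) : Prop where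
  sys : Sys A B C
  prime : r.Prime
  odd : r ≠ 2
  ht : orderOf t = 2
  hu : orderOf u = r
  comm : Commute t u
  hh : orderOf h = 4

open Sys

/-- Not conjugate to any of the four standard outer elements. -/
def NotBase (A B C : Subgroup G) (t u h g : G) : Prop :=
  IsOuter A B C g ∧ ¬ IsConj g t ∧ ¬ IsConj g h ∧ ¬ IsConj g u ∧ ¬ IsConj g (t * u)

namespace Two

variable {r : ℕ} {t u h : G}

theorem three_le (W : Two A B C r t u h) : 3 ≤ r := by
  have := W.prime.two_le; have := W.odd; omega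

theorem odd' (W : Two A B C r t u h) : Odd r := W.prime.odd_of_ne_two W.odd

theorem not_dvd_N (W : Two A B C r t u h) : ¬ r ∣ W.sys.N :=
  W.sys.not_dvd_cent (W.sys.outer_of_even (W.ht.symm.dvd)) W.comm W.prime W.hu

theorem orderOf_y (W : Two A B C r t u h) : orderOf (t * u) = 2 * r := by
  rw [W.comm.orderOf_mul_eq_mul_orderOf_of_coprime (by
    rw [W.ht, W.hu]; exact (Nat.coprime_primes Nat.prime_two W.prime).2 W.odd.symm), W.ht, W.hu]

theorem four_ne (W : Two A B C r t u h) : r ≠ 4 := fun e => by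
  have h' := W.prime; rw [e] at h'; exact absurd h' (by decide)

theorem pairwise_base (W : Two A B C r t u h) :
    [t, h, u, t * u].Pairwise fun x y => ¬ IsConj x y := by
  have := W.three_le
  have := W.odd'
  have := W.four_ne
  have e1 := W.ht
  have e2 := W.hh
  have e3 := W.hu
  have e4 := W.orderOf_y
  simp only [List.pairwise_cons, List.mem_cons, List.not_mem_nil, or_false, forall_eq_or_imp,
    forall_eq, IsEmpty.forall_iff, implies_true, List.Pairwise.nil, and_true]
  refine ⟨⟨?_, ?_, ?_⟩, ⟨?_, ?_⟩, ?_⟩ <;> intro hc <;>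
    have := orderOf_eq_of_isConj hc <;> simp only [e1, e2, e3, e4] at this <;> grind

theorem outer_base (W : Two A B C r t u h) : ∀ x ∈ [t, h, u, t * u], IsOuter A B C x := by
  simp only [List.mem_cons, List.not_mem_nil, or_false, forall_eq_or_imp, forall_eq]
  exact ⟨W.sys.outer_of_even (W.ht.symm.dvd), W.sys.outer_of_even ((show 2 ∣ 4 by norm_num).trans W.hh.symm.dvd),
    W.sys.outer_of_prime W.prime (W.hu.symm.dvd) W.not_dvd_N,
    W.sys.outer_of_even ((dvd_mul_right 2 r).trans W.orderOf_y.symm.dvd)⟩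

theorem four_le (W : Two A B C r t u h) : 4 ≤ (outer A B C).card := by
  have hnd : ([t, h, u, t * u].map ConjClasses.mk).Nodup := by
    rw [List.nodup_iff_pairwise_ne, List.pairwise_map]
    exact W.pairwise_base.imp fun h e => h (ConjClasses.mk_eq_mk_iff_isConj.1 e)
  have hsub : ([t, h, u, t * u].map ConjClasses.mk).toFinset ⊆ outer A B C := by
    intro c hc
    rw [List.mem_toFinset, List.mem_map] at hc
    obtain ⟨x, hx, rfl⟩ := hc
    exact mem_outer.2 (W.outer_base x hx)
  have := Finset.card_le_card hsub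
  rwa [List.toFinset_card_of_nodup hnd] at this

/-- At most one class besides the four standard ones. -/
theorem extra_conj (W : Two A B C r t u h) {g g' : G} (hg : NotBase A B C t u h g)
    (hg' : NotBase A B C t u h g') : IsConj g g' := by
  by_contra hne
  refine W.sys.six ([t, h, u, t * u] ++ [g, g']) rfl ?_ ?_
  · intro x hx
    rcases List.mem_append.1 hx with hx | hx
    · exact W.outer_base x hx
    · simp only [List.mem_cons, List.not_mem_nil, or_false] at hx
      rcases hx with rfl | rfl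
      · exact hg.1
      · exact hg'.1
  · rw [List.pairwise_append]
    refine ⟨W.pairwise_base, List.pairwise_pair.2 hne, ?_⟩
    intro x hx y hy hc
    simp only [List.mem_cons, List.not_mem_nil, or_false] at hx hy
    obtain ⟨-, a1, a2, a3, a4⟩ := hg
    obtain ⟨-, b1, b2, b3, b4⟩ := hg'
    rcases hy with rfl | rfl <;> rcases hx with rfl | rfl | rfl | rfl
    exacts [a1 hc.symm, a2 hc.symm, a3 hc.symm, a4 hc.symm, b1 hc.symm, b2 hc.symm, b3 hc.symm,
      b4 hc.symm]

/-- Elements outside the four standard orders are extra. -/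
theorem notBase_of_order (W : Two A B C r t u h) {g : G} (ho : IsOuter A B C g)
    (h2 : orderOf g ≠ 2) (h4 : orderOf g ≠ 4) (hr : orderOf g ≠ r) (h2r : orderOf g ≠ 2 * r) :
    NotBase A B C t u h g :=
  ⟨ho, fun e => h2 ((orderOf_eq_of_isConj e).trans W.ht),
    fun e => h4 ((orderOf_eq_of_isConj e).trans W.hh),
    fun e => hr ((orderOf_eq_of_isConj e).trans W.hu),
    fun e => h2r ((orderOf_eq_of_isConj e).trans W.orderOf_y)⟩

theorem pow_r (W : Two A B C r t u h) {s x : G} (hs : s * s = 1) (hx : x ^ r = 1)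
    (hc : Commute s x) : (s * x) ^ r = s ∧ (s * x) ^ (r + 1) = x := by
  obtain ⟨k, hk⟩ := W.odd'
  have h1 : (s * x) ^ r = s := by
    rw [hc.mul_pow, hx, mul_one, hk, pow_succ, pow_mul, sq, hs, one_pow, one_mul]
  exact ⟨h1, by rw [pow_succ, h1, ← mul_assoc, hs, one_mul]⟩

theorem sq_t (W : Two A B C r t u h) : t * t = 1 := by
  rw [← sq, ← W.ht]; exact pow_orderOf_eq_one t

theorem u_pow (W : Two A B C r t u h) : u ^ r = 1 := by rw [← W.hu]; exact pow_orderOf_eq_one u

/-- An element commuting with another of coprime prime order: no third prime. -/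
theorem prime_of_commute (W : Two A B C r t u h) {x g : G} {q p : ℕ} (hq : q = 2 ∨ q = r)
    (hx : orderOf x = q) (hg : orderOf g = p) (hp : p.Prime) (hc : Commute x g) :
    p = 2 ∨ p = r := by
  by_contra hcon
  push Not at hcon
  have hxo : IsOuter A B C x := by
    rcases hq with rfl | rfl
    · exact W.sys.outer_of_even (hx.symm.dvd)
    · exact W.sys.outer_of_prime W.prime (hx.symm.dvd) W.not_dvd_N
  have hpN := W.sys.not_dvd_cent hxo hc hp hg
  have hqp : q ≠ p := by rcases hq with rfl | rfl <;> [exact hcon.1.symm; exact hcon.2.symm]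
  have hqprime : q.Prime := by rcases hq with rfl | rfl <;> [exact Nat.prime_two; exact W.prime]
  have ho : orderOf (x * g) = q * p := by
    rw [hc.orderOf_mul_eq_mul_orderOf_of_coprime (by
      rw [hx, hg]; exact (Nat.coprime_primes hqprime hp).2 hqp), hx, hg]
  have hne : ∀ {a b : ℕ}, p ∣ a → (b = 2 ∨ b = 4 ∨ b = r ∨ b = 2 * r) → a ≠ b := by
    intro a b hpa hb hab
    subst hab
    rcases hb with rfl | rfl | rfl | rfl
    · exact hcon.1 ((Nat.prime_dvd_prime_iff_eq hp Nat.prime_two).1 hpa)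
    · exact hcon.1 ((Nat.prime_dvd_prime_iff_eq hp Nat.prime_two).1
        (hp.dvd_of_dvd_pow (show p ∣ 2 ^ 2 by simpa using hpa)))
    · exact hcon.2 ((Nat.prime_dvd_prime_iff_eq hp W.prime).1 hpa)
    · rcases hp.dvd_mul.1 hpa with h | h
      · exact hcon.1 ((Nat.prime_dvd_prime_iff_eq hp Nat.prime_two).1 h)
      · exact hcon.2 ((Nat.prime_dvd_prime_iff_eq hp W.prime).1 h)
  have n1 : NotBase A B C t u h g := W.notBase_of_order
    (W.sys.outer_of_prime hp (hg.symm.dvd) hpN) (hne (hg.symm.dvd) (by simp))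
    (hne (hg.symm.dvd) (by simp)) (hne (hg.symm.dvd) (by simp))
    (hne (hg.symm.dvd) (by simp))
  have n2 : NotBase A B C t u h (x * g) := W.notBase_of_order
    (W.sys.outer_of_prime hp ((dvd_mul_left p q).trans ho.symm.dvd) hpN) (hne ((dvd_mul_left p q).trans ho.symm.dvd) (by simp))
    (hne ((dvd_mul_left p q).trans ho.symm.dvd) (by simp)) (hne ((dvd_mul_left p q).trans ho.symm.dvd) (by simp))
    (hne ((dvd_mul_left p q).trans ho.symm.dvd) (by simp))
  have := orderOf_eq_of_isConj (W.extra_conj n1 n2)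
  rw [hg, ho] at this
  have := hp.pos
  have := hqprime.two_le
  nlinarith

/-- An involution commuting with an element of order `r` is conjugate to `t`. -/
theorem invol_conj (W : Two A B C r t u h) {s x : G} (hs : orderOf s = 2) (hx : orderOf x = r)
    (hc : Commute s x) : IsConj s t := by
  by_contra hne
  have hss : s * s = 1 := by rw [← sq, ← hs]; exact pow_orderOf_eq_one s
  have hxr : x ^ r = 1 := by rw [← hx]; exact pow_orderOf_eq_one x
  have ho : orderOf (s * x) = 2 * r := by
    rw [hc.orderOf_mul_eq_mul_orderOf_of_coprime (by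
      rw [hs, hx]; exact (Nat.coprime_primes Nat.prime_two W.prime).2 W.odd.symm), hs, hx]
  have := W.three_le
  have n1 : NotBase A B C t u h s := ⟨W.sys.outer_of_even (hs.symm.dvd), hne,
    fun e => by have := orderOf_eq_of_isConj e; rw [hs, W.hh] at this; omega,
    fun e => by have := orderOf_eq_of_isConj e; rw [hs, W.hu] at this; omega,
    fun e => by have := orderOf_eq_of_isConj e; rw [hs, W.orderOf_y] at this; omega⟩
  have n2 : NotBase A B C t u h (s * x) := ⟨W.sys.outer_of_even ((dvd_mul_right 2 r).trans ho.symm.dvd),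
    fun e => by have := orderOf_eq_of_isConj e; rw [ho, W.ht] at this; omega,
    fun e => by have := orderOf_eq_of_isConj e; rw [ho, W.hh] at this; omega,
    fun e => by have := orderOf_eq_of_isConj e; rw [ho, W.hu] at this; omega,
    fun e => hne (by simpa [(W.pow_r hss hxr hc).1, (W.pow_r W.sq_t W.u_pow W.comm).1] using isConj_pow e r)⟩
  have := orderOf_eq_of_isConj (W.extra_conj n1 n2)
  rw [hs, ho] at this
  omega

/-- `u` is conjugate to any element of order `r` commuting with an involution. -/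
theorem r_conj (W : Two A B C r t u h) {s x : G} (hs : orderOf s = 2) (hx : orderOf x = r)
    (hc : Commute s x) : IsConj x u := by
  by_contra hne
  have hss : s * s = 1 := by rw [← sq, ← hs]; exact pow_orderOf_eq_one s
  have hxr : x ^ r = 1 := by rw [← hx]; exact pow_orderOf_eq_one x
  have ho : orderOf (s * x) = 2 * r := by
    rw [hc.orderOf_mul_eq_mul_orderOf_of_coprime (by
      rw [hs, hx]; exact (Nat.coprime_primes Nat.prime_two W.prime).2 W.odd.symm), hs, hx]
  have := W.three_le
  have := W.four_ne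
  have n1 : NotBase A B C t u h x := ⟨W.sys.outer_of_prime W.prime (hx.symm.dvd) W.not_dvd_N,
    fun e => by have := orderOf_eq_of_isConj e; rw [hx, W.ht] at this; omega,
    fun e => by have := orderOf_eq_of_isConj e; rw [hx, W.hh] at this; omega, hne,
    fun e => by have := orderOf_eq_of_isConj e; rw [hx, W.orderOf_y] at this; omega⟩
  have n2 : NotBase A B C t u h (s * x) := ⟨W.sys.outer_of_even ((dvd_mul_right 2 r).trans ho.symm.dvd),
    fun e => by have := orderOf_eq_of_isConj e; rw [ho, W.ht] at this; omega,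
    fun e => by
      have := orderOf_eq_of_isConj e; rw [ho, W.hh] at this
      have := W.odd'; grind,
    fun e => by have := orderOf_eq_of_isConj e; rw [ho, W.hu] at this; omega,
    fun e => hne (by simpa [(W.pow_r hss hxr hc).2, (W.pow_r W.sq_t W.u_pow W.comm).2] using isConj_pow e (r + 1))⟩
  have := orderOf_eq_of_isConj (W.extra_conj n1 n2)
  rw [hx, ho] at this
  omega

/-- `u` is conjugate to its inverse. -/
theorem u_real (W : Two A B C r t u h) : IsConj u u⁻¹ :=
  (W.r_conj W.ht (by rw [orderOf_inv, W.hu]) W.comm.inv_right).symm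

/-- No element of order `2 r²` and none of order `16` centralises `t`. -/
theorem order_cent (W : Two A B C r t u h) {g : G} (hc : Commute t g) :
    orderOf g ∣ 8 * r := by
  have := W.three_le
  have := W.four_ne
  have hpos : orderOf g ≠ 0 := (orderOf_pos g).ne'
  have hrodd := W.odd'
  rw [Nat.dvd_iff_prime_pow_dvd_dvd]
  intro p k hp hpk
  rcases Nat.eq_zero_or_pos k with rfl | hk
  · simp
  have hgp : ∀ {n}, n ∣ orderOf g → orderOf (g ^ (orderOf g / n)) = n := fun {n} hn => by
    rw [orderOf_pow_of_dvd (fun e => hpos (by rw [← Nat.div_mul_cancel hn, e, zero_mul]))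
      (Nat.div_dvd_of_dvd hn), Nat.div_div_self hn hpos]
  have hp' : p = 2 ∨ p = r := W.prime_of_commute (Or.inl rfl) W.ht
    (hgp ((dvd_pow_self p hk.ne').trans hpk)) hp (hc.pow_right _)
  rcases hp' with rfl | rfl
  · by_contra hcon
    have hk4 : 4 ≤ k := by
      by_contra h
      apply hcon
      exact Dvd.dvd.mul_right (show 2 ^ k ∣ 8 from (Nat.pow_dvd_pow 2 (show k ≤ 3 by omega))) r
    have h16 := hgp ((Nat.pow_dvd_pow 2 hk4).trans hpk)
    have h8 := hgp ((Nat.pow_dvd_pow 2 (show 3 ≤ k by omega)).trans hpk)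
    norm_num at h16 h8
    have n1 := W.notBase_of_order (W.sys.outer_of_even (x := g ^ (orderOf g / 16)) ((show 2 ∣ 16 by norm_num).trans h16.symm.dvd))
      (by omega) (by omega) (by grind) (by grind)
    have n2 := W.notBase_of_order (W.sys.outer_of_even (x := g ^ (orderOf g / 8)) ((show 2 ∣ 8 by norm_num).trans h8.symm.dvd))
      (by omega) (by omega) (by grind) (by grind)
    have := orderOf_eq_of_isConj (W.extra_conj n1 n2)
    omega
  · by_contra hcon
    have hk2 : 2 ≤ k := by
      by_contra h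
      apply hcon
      rw [show k = 1 by omega, pow_one]; exact dvd_mul_left _ _
    have hw := hgp ((Nat.pow_dvd_pow p hk2).trans hpk)
    set w := g ^ (orderOf g / p ^ 2)
    have hcw : Commute t w := hc.pow_right _
    have ho : orderOf (t * w) = 2 * p ^ 2 := by
      rw [hcw.orderOf_mul_eq_mul_orderOf_of_coprime (by
        rw [W.ht, hw]; exact ((Nat.coprime_primes Nat.prime_two W.prime).2 W.odd.symm).pow_right 2),
        W.ht, hw]
    have hsq : 3 * p ≤ p ^ 2 := by nlinarith
    have hodd2 : Odd (p ^ 2) := hrodd.pow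
    have n1 := W.notBase_of_order
      (W.sys.outer_of_prime W.prime (hw ▸ dvd_pow_self p two_ne_zero) W.not_dvd_N)
      (by omega) (by omega) (by omega) (by omega)
    have n2 := W.notBase_of_order (W.sys.outer_of_even (x := t * w) ((dvd_mul_right 2 _).trans ho.symm.dvd))
      (by omega) (by omega) (by omega) (by omega)
    have := orderOf_eq_of_isConj (W.extra_conj n1 n2)
    rw [hw, ho] at this
    omega

/-- The prime is three or five. -/
theorem three_or_five (W : Two A B C r t u h) : r = 3 ∨ r = 5 := by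
  haveI : Fact r.Prime := ⟨W.prime⟩
  obtain ⟨ζ, hζ⟩ := IsCyclic.exists_generator (α := (ZMod r)ˣ)
  have hord : orderOf ζ = r - 1 := by
    rw [orderOf_eq_card_of_forall_mem_zpowers hζ, Nat.card_eq_fintype_card,
      ZMod.card_units_eq_totient, Nat.totient_prime W.prime]
  have three := W.three_le
  have four := W.four_ne
  have hrodd := W.odd'
  let Y : (ZMod r)ˣ → G := fun z => t * u ^ (z : ZMod r).val
  have hYc : ∀ z : (ZMod r)ˣ, Commute t (u ^ (z : ZMod r).val) := fun z => W.comm.pow_right _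
  have hYu : ∀ z : (ZMod r)ˣ, orderOf (u ^ (z : ZMod r).val) = r := fun z => by
    rw [Nat.Coprime.orderOf_pow (by rw [W.hu]; exact (ZMod.val_coe_unit_coprime z).symm), W.hu]
  have hYo : ∀ z : (ZMod r)ˣ, orderOf (Y z) = 2 * r := fun z => by
    rw [(hYc z).orderOf_mul_eq_mul_orderOf_of_coprime (by
      rw [W.ht, hYu]; exact (Nat.coprime_primes Nat.prime_two W.prime).2 W.odd.symm), W.ht, hYu]
  -- a conjugating element for exponents differing by `ζ ^ k` has order divisible by `(r - 1) / k`
  have key : ∀ a k : ℕ, IsConj (Y (ζ ^ a)) (Y (ζ ^ (a + k))) →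
      ∃ g : G, Commute t g ∧ r - 1 ∣ k * orderOf g := by
    intro a k hc
    obtain ⟨g, hg⟩ := isConj_iff.1 hc
    have hx : ∀ z : (ZMod r)ˣ, (u ^ (z : ZMod r).val) ^ r = 1 := fun z => by
      rw [← pow_mul, mul_comm, pow_mul, W.u_pow, one_pow]
    have h1 : g * t * g⁻¹ = t := by
      have := congrArg (· ^ r) hg
      rwa [← MulAut.conj_apply, ← map_pow, (W.pow_r W.sq_t (hx _) (hYc _)).1,
        (W.pow_r W.sq_t (hx _) (hYc _)).1, MulAut.conj_apply] at this
    have h2 : g * u ^ ((ζ ^ a : (ZMod r)ˣ) : ZMod r).val * g⁻¹ =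
        u ^ ((ζ ^ (a + k) : (ZMod r)ˣ) : ZMod r).val := by
      have := congrArg (· ^ (r + 1)) hg
      rwa [← MulAut.conj_apply, ← map_pow, (W.pow_r W.sq_t (hx _) (hYc _)).2,
        (W.pow_r W.sq_t (hx _) (hYc _)).2, MulAut.conj_apply] at this
    refine ⟨g, (mul_inv_eq_iff_eq_mul.1 h1).symm, ?_⟩
    have hpow : ∀ z : ZMod r, ∀ n : ℕ, (n : ZMod r) = z → u ^ n = u ^ z.val := fun z n hn => by
      rw [pow_eq_pow_iff_modEq, W.hu, ← ZMod.natCast_eq_natCast_iff, ZMod.natCast_zmod_val, hn]
    have hiter : ∀ m : ℕ, g ^ m * u ^ ((ζ ^ a : (ZMod r)ˣ) : ZMod r).val * (g ^ m)⁻¹ =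
        u ^ ((ζ ^ (a + k * m) : (ZMod r)ˣ) : ZMod r).val := by
      intro m
      induction m with
      | zero => simp
      | succ m ih =>
        calc g ^ (m + 1) * u ^ ((ζ ^ a : (ZMod r)ˣ) : ZMod r).val * (g ^ (m + 1))⁻¹
            = g * (g ^ m * u ^ ((ζ ^ a : (ZMod r)ˣ) : ZMod r).val * (g ^ m)⁻¹) * g⁻¹ := by
              rw [pow_succ']; group
          _ = g * u ^ ((ζ ^ (a + k * m) : (ZMod r)ˣ) : ZMod r).val * g⁻¹ := by rw [ih]
          _ = g * (u ^ ((ζ ^ a : (ZMod r)ˣ) : ZMod r).val) ^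
              ((ζ ^ (k * m) : (ZMod r)ˣ) : ZMod r).val * g⁻¹ := by
              congr 2
              rw [← pow_mul]
              exact (hpow _ _ (by simp [pow_add])).symm
          _ = (u ^ ((ζ ^ (a + k) : (ZMod r)ˣ) : ZMod r).val) ^
              ((ζ ^ (k * m) : (ZMod r)ˣ) : ZMod r).val := by
              rw [← conj_pow, h2]
          _ = u ^ ((ζ ^ (a + k * (m + 1)) : (ZMod r)ˣ) : ZMod r).val := by
              rw [← pow_mul]
              exact hpow _ _ (by simp [← pow_add]; ring_nf)
    have hfin := hiter (orderOf g)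
    rw [pow_orderOf_eq_one, inv_one, mul_one, one_mul, pow_eq_pow_iff_modEq, W.hu,
      ← ZMod.natCast_eq_natCast_iff, ZMod.natCast_zmod_val, ZMod.natCast_zmod_val] at hfin
    have h3 : ζ ^ (k * orderOf g) = 1 := by
      have h4 : ζ ^ a = ζ ^ (a + k * orderOf g) := Units.ext hfin
      rw [pow_add] at h4
      exact mul_left_cancel (h4.symm.trans (mul_one _).symm)
    rw [← hord]
    exact orderOf_dvd_of_pow_eq_one h3
  have small : ∀ k g, (k = 1 ∨ k = 2) → Commute t g → r - 1 ∣ k * orderOf g →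
      r - 1 ∣ k * 8 ∧ (r - 1 ∣ k * 4 ∨ 8 ∣ orderOf g) := by
    intro k g hk hc hd
    have h8r := W.order_cent hc
    have hcop : (r - 1).Coprime r := by
      rw [show r = (r - 1) + 1 by omega]; simp
    have h1 : r - 1 ∣ k * 8 :=
      hcop.dvd_of_dvd_mul_right (hd.trans (by rw [mul_assoc]; exact Nat.mul_dvd_mul_left k h8r))
    refine ⟨h1, ?_⟩
    by_cases h8 : 8 ∣ orderOf g
    · exact Or.inr h8
    left
    have h4r : orderOf g ∣ 4 * r := by
      rw [Nat.dvd_iff_prime_pow_dvd_dvd]
      intro p j hp hpj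
      have hj : p ^ j ∣ 8 * r := hpj.trans h8r
      by_cases h2 : p = 2
      · subst h2
        have hj2 : j ≤ 2 := by
          by_contra hlt
          exact h8 ((Nat.pow_dvd_pow 2 (show 3 ≤ j by omega)).trans hpj)
        exact Dvd.dvd.mul_right (show 2 ^ j ∣ 4 from Nat.pow_dvd_pow 2 hj2) r
      · exact (((Nat.coprime_primes hp Nat.prime_two).2 h2).pow j 3 |>.dvd_of_dvd_mul_left
          (show p ^ j ∣ 2 ^ 3 * r by simpa using hj)).trans (dvd_mul_left r 4)
    exact hcop.dvd_of_dvd_mul_right (hd.trans (by rw [mul_assoc]; exact Nat.mul_dvd_mul_left k h4r))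
  have fin : ∀ n, r - 1 ∣ n → n ∣ 8 → r = 3 ∨ r = 5 := by
    intro n h1 h2
    have h3 := h1.trans h2
    have hle := Nat.le_of_dvd (by norm_num) h3
    have hr : r ≤ 9 := by omega
    interval_cases r <;> first | omega | exact absurd W.prime (by decide) | (norm_num at h3; done)
  by_cases h01 : IsConj (Y (ζ ^ 0)) (Y (ζ ^ (0 + 1)))
  · obtain ⟨g, hg, hd⟩ := key 0 1 h01
    exact fin _ (small 1 g (Or.inl rfl) hg hd).1 (dvd_refl _)
  by_cases h12 : IsConj (Y (ζ ^ 1)) (Y (ζ ^ (1 + 1)))
  · obtain ⟨g, hg, hd⟩ := key 1 1 h12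
    exact fin _ (small 1 g (Or.inl rfl) hg hd).1 (dvd_refl _)
  have hout : ∀ z, IsOuter A B C (Y z) := fun z =>
    W.sys.outer_of_even ((dvd_mul_right 2 r).trans (hYo z).symm.dvd)
  have hnb : ∀ z, ¬ IsConj (Y z) (t * u) → NotBase A B C t u h (Y z) := fun z hz =>
    ⟨hout z, fun e => by have := orderOf_eq_of_isConj e; rw [hYo, W.ht] at this; omega,
      fun e => by have := orderOf_eq_of_isConj e; rw [hYo, W.hh] at this; grind,
      fun e => by have := orderOf_eq_of_isConj e; rw [hYo, W.hu] at this; omega, hz⟩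
  have hY0 : Y (ζ ^ 0) = t * u := by
    haveI : Fact (1 < r) := ⟨W.prime.one_lt⟩
    simp [Y, ZMod.val_one]
  have hnb1 : NotBase A B C t u h (Y (ζ ^ (0 + 1))) := hnb _ fun e => h01 (hY0 ▸ e.symm)
  by_cases h02 : IsConj (Y (ζ ^ 0)) (Y (ζ ^ (0 + 2)))
  · obtain ⟨g, hg, hd⟩ := key 0 2 h02
    obtain ⟨-, h | h⟩ := small 2 g (Or.inr rfl) hg hd
    · exact fin _ h (by norm_num)
    · exfalso
      have h8 : orderOf (g ^ (orderOf g / 8)) = 8 := by
        rw [orderOf_pow_of_dvd (fun e => (orderOf_pos g).ne'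
          (by rw [← Nat.div_mul_cancel h, e, zero_mul])) (Nat.div_dvd_of_dvd h),
          Nat.div_div_self h (orderOf_pos g).ne']
      have n8 := W.notBase_of_order (W.sys.outer_of_even (x := g ^ (orderOf g / 8)) ((show 2 ∣ 8 by norm_num).trans h8.symm.dvd))
        (by omega) (by omega) (by grind) (by grind)
      have := orderOf_eq_of_isConj (W.extra_conj hnb1 n8)
      rw [hYo, h8] at this
      omega
  · exfalso
    exact h12 (W.extra_conj hnb1 (hnb _ fun e => h02 (hY0 ▸ e.symm)))

end Two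

end CfsgLib.TISuzuki
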