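import Cfsg.Agent.TISuzuki.LocalP

/-!
# The order of the Sylow subgroup of the odd prime
-/

set_option autoImplicit false
set_option linter.unusedSectionVars false
set_option linter.style.haveILetI false

noncomputable section

namespace CfsgLib.TISuzuki

open Cfsg Sys
open scoped Classical IsMulCommutative

universe u

variable {G : Type u} [Group G] [Fintype G] {A B C : Subgroup G} {r : ℕ} {t u h : G}

/-- Conjugation permutes the fixed points: the automiser's orbit from conjugacy in `G`. -/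
theorem auto_orbit [Fact r.Prime] (P : Sylow r G) [IsMulCommutative ↥(P : Subgroup G)]
    (x y : ↥(P : Subgroup G)) (hc : IsConj (x : G) y) :
    ∃ a : ↥(automiser (P : Subgroup G)), a • x = y := by
  obtain ⟨g, hg⟩ := isConj_iff.1 hc
  obtain ⟨n, hn, hn'⟩ := P.conj_eq_normalizer_conj_of_mem (x : G) g⁻¹ x.2
    (by rw [inv_inv, hg]; exact y.2)
  rw [inv_inv, hg] at hn'
  refine ⟨auto _ ⟨n⁻¹, inv_mem hn⟩, Subtype.ext ?_⟩
  rw [auto_coe, hn']
  simp

/-- A conjugate of the centraliser of `t` receives the fixed points of an involution. -/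
theorem Two.fix_transport (W : Two A B C r t u h) {P : Subgroup G} [IsMulCommutative ↥P]
    (hP : IsPGroup r P) (s : ↥(automiser P)) (hs : orderOf s = 2) {x0 : ↥P} (hx0 : x0 ≠ 1)
    (hx0s : s • x0 = x0) (Q : Sylow r ↥(ct t)) :
    ∃ c : G, ∀ x : ↥P, s • x = x →
      ∃ hm : c * (x : G) * c⁻¹ ∈ ct t, (⟨_, hm⟩ : ↥(ct t)) ∈ (Q : Subgroup ↥(ct t)) := by
  haveI := Fact.mk W.prime
  obtain ⟨g0, hg0, hcom⟩ := W.invol_lift s hs
  obtain ⟨c1, hc1⟩ := isConj_iff.1 (W.invol_conj hg0 (W.order_r hP hx0) (hcom x0 hx0s))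
  let F : Subgroup G := (orbFix s : Subgroup ↥P).map P.subtype
  let F' : Subgroup G := F.map (MulAut.conj c1).toMonoidHom
  have hF'p : IsPGroup r F' := ((hP.to_subgroup _).map _).map _
  have hF'T : F' ≤ ct t := by
    rintro _ ⟨y, ⟨x, hx, rfl⟩, rfl⟩
    simp only [MulEquiv.coe_toMonoidHom, MulAut.conj_apply, Subgroup.coe_subtype]
    refine Subgroup.mem_centralizer_singleton_iff.2 ?_
    have h1 := ((hcom x hx).map (MulAut.conj c1).toMonoidHom).eq
    simp only [MulEquiv.coe_toMonoidHom, MulAut.conj_apply, hc1] at h1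
    exact h1.symm
  have hp : IsPGroup r (F'.subgroupOf (ct t)) :=
    hF'p.of_equiv (Subgroup.subgroupOfEquivOfLe hF'T).symm
  obtain ⟨R, hR⟩ := hp.exists_le_sylow
  obtain ⟨d, hd⟩ := MulAction.exists_smul_eq (↥(ct t)) R Q
  refine ⟨(d : G) * c1, fun x hx => ?_⟩
  have hy : c1 * (x : G) * c1⁻¹ ∈ F' := ⟨(x : G), ⟨x, hx, rfl⟩, rfl⟩
  have hyR : (⟨_, hF'T hy⟩ : ↥(ct t)) ∈ (R : Subgroup ↥(ct t)) := hR hy
  have h2 : d * (⟨_, hF'T hy⟩ : ↥(ct t)) * d⁻¹ ∈ (Q : Subgroup ↥(ct t)) := by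
    rw [← hd, Sylow.coe_subgroup_smul]
    exact Subgroup.smul_mem_pointwise_smul _ (MulAut.conj d) _ hyR
  have e : (d : G) * c1 * (x : G) * ((d : G) * c1)⁻¹ = ((d * ⟨_, hF'T hy⟩ * d⁻¹ : ↥(ct t)) : G) := by
    simp only [Subgroup.coe_mul, InvMemClass.coe_inv]; group
  refine ⟨by rw [e]; exact SetLike.coe_mem _, ?_⟩
  convert h2 using 1
  exact Subtype.ext e

/-- The fixed points of an involution are no more than a Sylow subgroup of the centraliser of `t`. -/
theorem Two.fix_le (W : Two A B C r t u h) {P : Subgroup G} [IsMulCommutative ↥P]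
    (hP : IsPGroup r P) (s : ↥(automiser P)) (hs : orderOf s = 2) (Q : Sylow r ↥(ct t)) :
    Nat.card {x : ↥P // s • x = x} ≤ max 1 (Nat.card ↥(Q : Subgroup ↥(ct t))) := by
  by_cases hx0 : ∃ x0 : ↥P, x0 ≠ 1 ∧ s • x0 = x0
  · obtain ⟨x0, hx0, hx0s⟩ := hx0
    obtain ⟨c, hc⟩ := W.fix_transport hP s hs hx0 hx0s Q
    refine le_trans ?_ (le_max_right _ _)
    refine Nat.card_le_card_of_injective (fun x => ⟨⟨_, (hc x.1 x.2).1⟩, (hc x.1 x.2).2⟩) ?_
    intro x y hxy
    have := congrArg (fun z : ↥(Q : Subgroup ↥(ct t)) => ((z : ↥(ct t)) : G)) hxy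
    simp only [mul_left_inj, mul_right_inj] at this
    exact Subtype.ext (Subtype.ext this)
  · refine le_trans ?_ (le_max_left _ _)
    haveI : Subsingleton {x : ↥P // s • x = x} := ⟨fun a b => by
      have ha : a.1 = 1 := by_contra fun h => hx0 ⟨a.1, h, a.2⟩
      have hb : b.1 = 1 := by_contra fun h => hx0 ⟨b.1, h, b.2⟩
      exact Subtype.ext (ha.trans hb.symm)⟩
    exact Finite.card_le_one_iff_subsingleton.2 inferInstance

/-- The facts on the automiser of a Sylow `r`-subgroup. -/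
structure AutoFacts (W : Two A B C r t u h) (P : Subgroup G) [IsMulCommutative ↥P] : Prop where
  ndvd : ¬ r ∣ Nat.card ↥(automiser P)
  fpf : ∀ a : ↥(automiser P), Odd (orderOf a) → a ≠ 1 → ∀ x : ↥P, a • x = x → x = 1
  nc : ∀ a s : ↥(automiser P), Odd (orderOf a) → a ≠ 1 → orderOf s = 2 → Commute a s → False

theorem Two.autoFacts (W : Two A B C r t u h) (P : Sylow r G)
    [IsMulCommutative ↥(P : Subgroup G)] : AutoFacts W (P : Subgroup G) := by
  haveI := Fact.mk W.prime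
  have hnd := W.not_dvd_automiser (K := G) P
  have key : ∀ a : ↥(automiser (P : Subgroup G)), Odd (orderOf a) → a ≠ 1 →
      ∃ p i, p.Prime ∧ p ≠ 2 ∧ p ≠ r ∧ orderOf (a ^ i) = p := by
    intro a ha ha1
    obtain ⟨p, hp, hpd⟩ := Nat.exists_prime_and_dvd (n := orderOf a)
      (fun e => ha1 (orderOf_eq_one_iff.1 e))
    obtain ⟨i, hi⟩ := exists_pow_order (x := a) (orderOf_pos a).ne' hpd
    refine ⟨p, i, hp, fun e => ?_, fun e => hnd ?_, hi⟩
    · subst e; exact ha.not_two_dvd_nat hpd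
    · exact e.symm.dvd.trans (hpd.trans (orderOf_dvd_natCard a))
  refine ⟨hnd, fun a ha ha1 x hx => ?_, fun a s ha ha1 hs hc => ?_⟩
  · by_contra hne
    obtain ⟨p, i, hp, hp2, hpr, hi⟩ := key a ha ha1
    have hfix : ∀ j : ℕ, a ^ j • x = x := fun j => by
      induction j with
      | zero => rw [pow_zero, one_smul]
      | succ j ih => rw [pow_succ, mul_smul, hx, ih]
    exact (W.prime_of_fix P.2 hp (k := 1) one_ne_zero (by rw [hi, pow_one]) hne (hfix i)).elim hp2 hpr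
  · obtain ⟨p, i, hp, hp2, hpr, hi⟩ := key a ha ha1
    exact W.no_commute hp hp2 hpr hi hs (hc.pow_left i)

/-- An element of even order in the automiser of a Sylow subgroup. -/
theorem Two.auto_even (W : Two A B C r t u h) (P : Sylow r G) [IsMulCommutative ↥(P : Subgroup G)]
    (hu : u ∈ (P : Subgroup G)) : 2 ∣ Nat.card ↥(automiser (P : Subgroup G)) := by
  haveI := Fact.mk W.prime
  obtain ⟨a, ha⟩ := auto_orbit P ⟨u, hu⟩ ⟨u, hu⟩⁻¹ W.u_real
  by_contra hcon
  have hodd : Odd (orderOf a) := by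
    rw [Nat.odd_iff, ← Nat.two_dvd_ne_zero]
    exact fun h2 => hcon (h2.trans (orderOf_dvd_natCard a))
  obtain ⟨j, hj⟩ := hodd
  have hinv : ∀ k : ℕ, a ^ (2 * k) • (⟨u, hu⟩ : ↥(P : Subgroup G)) = ⟨u, hu⟩ := by
    intro k
    induction k with
    | zero => simp
    | succ k ih =>
      rw [show 2 * (k + 1) = 2 * k + (1 + 1) by ring, pow_add, pow_add, pow_one, mul_smul, mul_smul,
        ha, smul_inv', ha, inv_inv, ih]
  have h1 := congrArg (· • (⟨u, hu⟩ : ↥(P : Subgroup G))) (pow_orderOf_eq_one a)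
  simp only [one_smul, hj, pow_succ, mul_smul, ha, smul_inv', hinv] at h1
  have h2 : u * u = 1 := by
    have := congrArg Subtype.val h1
    simp only [InvMemClass.coe_inv] at this
    calc u * u = u⁻¹ * u := by rw [this]
      _ = 1 := inv_mul_cancel u
  have := orderOf_dvd_of_pow_eq_one (show u ^ 2 = 1 by rw [pow_two, h2])
  rw [W.hu] at this
  exact W.odd ((Nat.prime_dvd_prime_iff_eq W.prime Nat.prime_two).1 this)

/-- The case of a Sylow subgroup of order 25 in the centraliser of `t` does not occur. -/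
theorem Two.no_twentyfive (W : Two A B C r t u h) (Q : Sylow r ↥(ct t)) (h5 : r = 5)
    (h25 : Nat.card ↥(Q : Subgroup ↥(ct t)) = 25)
    (hone : ∀ x y : G, orderOf x = r → orderOf y = r → IsConj x y)
    (hbig : ∀ g : G, orderOf g ≠ 8 ∧ orderOf g ≠ 4 * r) {k : G}
    (hk : ∀ x ∈ (Q : Subgroup ↥(ct t)), k * (x : G) * k⁻¹ = (x : G) ^ 2) : False := by
  subst h5
  haveI := Fact.mk W.prime
  haveI : Fact (Nat.Prime 2) := ⟨Nat.prime_two⟩
  set Qg : Subgroup G := (Q : Subgroup ↥(ct t)).map (ct t).subtype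
  obtain ⟨P, hP⟩ := (Q.2.map (ct t).subtype).exists_le_sylow
  haveI := W.sys.abl 5 W.prime W.odd W.not_dvd_N P
  have hcard : 25 ∣ Nat.card ↥(P : Subgroup G) := by
    rw [← h25, Nat.card_congr (Subgroup.equivMapOfInjective (Q : Subgroup ↥(ct t)) _ (ct t).subtype_injective).toEquiv]
    exact Subgroup.card_dvd_of_le hP
  have hP1 : 1 < Nat.card ↥(P : Subgroup G) :=
    lt_of_lt_of_le (by norm_num) (Nat.le_of_dvd Nat.card_pos hcard)
  haveI : Nontrivial ↥(P : Subgroup G) := Finite.one_lt_card_iff_nontrivial.1 hP1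
  obtain ⟨x0, hx0⟩ := exists_ne (1 : ↥(P : Subgroup G))
  have htr : ∀ x : ↥(P : Subgroup G), x ≠ 1 → ∃ a : ↥(automiser (P : Subgroup G)), a • x0 = x :=
    fun x hx => auto_orbit P x0 x (hone _ _ (W.order_r P.2 hx0) (W.order_r P.2 hx))
  obtain ⟨F1, F2, F3⟩ := W.autoFacts P
  obtain ⟨d, hd⟩ := IsPGroup.iff_card.1 P.2
  have hd2 : 2 ≤ d := by
    rw [hd, show (25 : ℕ) = 5 ^ 2 by norm_num, Nat.pow_dvd_pow_iff_le_right (by norm_num)] at hcard
    exact hcard
  have hexp : ∀ x : ↥(P : Subgroup G), x ^ 5 = 1 := W.sylow_exp P.2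
  have hodd5 : Odd 5 := by decide
  have hno : ¬ ∃ z : ↥(automiser (P : Subgroup G)), ∀ x : ↥(P : Subgroup G), z • x = x⁻¹ := by
    rintro ⟨z, hz⟩
    have hz1 : z ≠ 1 := fun e => hx0 (eq_one_of_self_inv hodd5 hexp (by rw [← hz, e, one_smul]))
    have hz2 : orderOf z = 2 := orderOf_eq_prime (FaithfulSMul.eq_of_smul_eq_smul
      (α := ↥(P : Subgroup G)) fun x => by rw [pow_two, mul_smul, hz, hz, inv_inv, one_smul]) hz1
    have htwo : IsPGroup 2 ↥(automiser (P : Subgroup G)) := by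
      intro g
      obtain ⟨i, m, hm, him⟩ := Nat.exists_eq_two_pow_mul_odd (orderOf_pos g).ne'
      refine ⟨i, ?_⟩
      by_contra hne
      have ho : orderOf (g ^ 2 ^ i) = m := by
        rw [orderOf_pow' g (pow_ne_zero i two_ne_zero), him, Nat.gcd_eq_right (Dvd.intro m rfl),
          Nat.mul_div_cancel_left m (pow_pos two_pos i)]
      exact F3 _ z (ho ▸ hm) hne hz2 ((comm_of_inv_all hz g).pow_left _)
    obtain ⟨n, hn⟩ := IsPGroup.iff_card.1 htwo
    have horbit : MulAction.orbit ↥(automiser (P : Subgroup G)) x0 = ({1}ᶜ : Set ↥(P : Subgroup G)) := by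
      ext x
      refine ⟨?_, fun hx => htr x hx⟩
      rintro ⟨a, rfl⟩
      show a • x0 ≠ 1
      exact fun h1 => hx0 (smul_eq_iff_eq_inv_smul a |>.mp h1 |>.trans (smul_one _))
    have hidx := MulAction.index_stabilizer (G := ↥(automiser (P : Subgroup G))) (x := x0)
    rw [horbit, Set.ncard_compl, Set.ncard_singleton, hd] at hidx
    have hdvd : 5 ^ d - 1 ∣ 2 ^ n := by
      rw [← hn, ← hidx]; exact Subgroup.index_dvd_card _
    obtain ⟨j, -, hj⟩ := (Nat.dvd_prime_pow Nat.prime_two).1 hdvd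
    have := five_pow_sub_one hj
    omega
  obtain ⟨y0, hy0P⟩ : ∃ y0 : G, y0 ∈ (P : Subgroup G) ∧ orderOf y0 = 5 :=
    ⟨x0, x0.2, W.order_r P.2 hx0⟩
  have heven : 2 ∣ Nat.card ↥(automiser (P : Subgroup G)) := by
    obtain ⟨a, ha⟩ := auto_orbit P x0 x0⁻¹ (hone _ _ (W.order_r P.2 hx0)
      (W.order_r P.2 (fun e => hx0 (inv_eq_one.1 e))))
    by_contra hcon
    refine hx0 (eq_one_of_self_inv hodd5 hexp ?_)
    have hfix : ∀ k : ℕ, a ^ (2 * k) • x0 = x0 := fun k => by
      induction k with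
      | zero => simp
      | succ k ih =>
        rw [show 2 * (k + 1) = 2 * k + (1 + 1) by ring, pow_add, pow_add, pow_one, mul_smul, mul_smul,
          ha, smul_inv', ha, inv_inv, ih]
    have hodd : Odd (orderOf a) := by
      rw [Nat.odd_iff, ← Nat.two_dvd_ne_zero]
      exact fun h2 => hcon (h2.trans (orderOf_dvd_natCard a))
    obtain ⟨j, hj⟩ := hodd
    have h1 := congrArg (· • x0) (pow_orderOf_eq_one a)
    simp only [one_smul, hj, pow_succ, mul_smul, ha, smul_inv', hfix] at h1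
    exact h1.symm
  obtain ⟨s, hs⟩ := exists_prime_orderOf_dvd_card' 2 heven
  -- every involution fixes 25 points
  have h25fix : ∀ w : ↥(automiser (P : Subgroup G)), orderOf w = 2 →
      Nat.card (orbFix w : Subgroup ↥(P : Subgroup G)) = 25 ∨ Nat.card ↥(P : Subgroup G) = 25 := by
    intro w hw
    have hsq := sqrt_fix hodd5 hexp F2 x0 htr hno hw
    have hle : Nat.card (orbFix w : Subgroup ↥(P : Subgroup G)) ≤ 25 := by
      have := W.fix_le P.2 w hw Q
      rw [h25, max_eq_right (by norm_num)] at this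
      exact this
    obtain ⟨e, he⟩ := IsPGroup.iff_card.1
      (show IsPGroup 5 (orbFix w : Subgroup ↥(P : Subgroup G)) from fun x =>
        ⟨1, Subtype.ext (by simpa using hexp (x : ↥(P : Subgroup G)))⟩)
    rw [he] at hle hsq ⊢
    have : e ≤ 2 := by
      by_contra hlt
      have := Nat.pow_le_pow_right (show 0 < 5 by norm_num) (show 3 ≤ e by omega)
      omega
    interval_cases e <;> omega
  rcases h25fix s hs with hC | hPQ
  swap
  · -- `P` is the Sylow subgroup of the centraliser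
    have hPeq : (Q : Subgroup ↥(ct t)).map (ct t).subtype = (P : Subgroup G) :=
      Subgroup.eq_of_le_of_card_ge hP (by
        rw [Subgroup.card_map_of_injective (ct t).subtype_injective, h25, hPQ])
    have hk2 : ∀ x ∈ (P : Subgroup G), k * x * k⁻¹ = x ^ 2 := by
      rw [← hPeq]; rintro _ ⟨y, hy, rfl⟩; exact hk y hy
    have hkN : k ∈ Subgroup.normalizer ((P : Subgroup G) : Set G) := by
      refine Subgroup.mem_normalizer_iff.2 fun x => ⟨fun hx => hk2 x hx ▸ pow_mem hx 2, fun hx => ?_⟩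
      obtain ⟨y, hy, hxy⟩ : ∃ y ∈ (P : Subgroup G), k * y * k⁻¹ = k * x * k⁻¹ := by
        refine ⟨(k * x * k⁻¹) ^ 3, pow_mem hx 3, ?_⟩
        have h5 := congrArg Subtype.val (hexp ⟨_, hx⟩)
        simp only [SubgroupClass.coe_pow, Subgroup.coe_one] at h5
        rw [hk2 _ (pow_mem hx 3), ← pow_mul, show 3 * 2 = 5 + 1 by norm_num, pow_succ, h5, one_mul]
      rwa [mul_left_cancel (mul_right_cancel hxy)] at hy
    refine hno ⟨auto _ ⟨k, hkN⟩ ^ 2, fun x => Subtype.ext ?_⟩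
    have e1 : ∀ y : ↥(P : Subgroup G), auto _ ⟨k, hkN⟩ • y = y ^ 2 := fun y =>
      Subtype.ext (by rw [auto_coe, SubgroupClass.coe_pow]; exact hk2 _ y.2)
    rw [pow_two, mul_smul, e1, e1, ← pow_mul]
    have h5 := hexp x
    rw [show x ^ (2 * 2) = x⁻¹ from eq_inv_of_mul_eq_one_left (by rw [← pow_succ, h5])]
  -- the order is `625`
  have hP625 : Nat.card ↥(P : Subgroup G) = 625 := by
    rw [← sqrt_fix hodd5 hexp F2 x0 htr hno hs, hC]
  have hC' : ∀ w : ↥(automiser (P : Subgroup G)), orderOf w = 2 →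
      Nat.card (orbFix w : Subgroup ↥(P : Subgroup G)) = 25 := fun w hw =>
    (h25fix w hw).resolve_right (by omega)
  obtain ⟨y1, hy1, hy1s⟩ : ∃ y : ↥(P : Subgroup G), y ≠ 1 ∧ s • y = y := by
    haveI : Nontrivial (orbFix s : Subgroup ↥(P : Subgroup G)) :=
      Finite.one_lt_card_iff_nontrivial.1 (by rw [hC]; norm_num)
    obtain ⟨⟨y, hy⟩, hy1⟩ := exists_ne (1 : (orbFix s : Subgroup ↥(P : Subgroup G)))
    exact ⟨y, fun e => hy1 (Subtype.ext e), hy⟩
  obtain ⟨c, hc⟩ := W.fix_transport P.2 s hs hy1 hy1s Q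
  -- an element squaring the fixed points
  have hsqc : ∀ x : ↥(P : Subgroup G), s • x = x →
      (c⁻¹ * k * c) * (x : G) * (c⁻¹ * k * c)⁻¹ = (x : G) ^ 2 := by
    intro x hx
    obtain ⟨hm, hmQ⟩ := hc x hx
    have := hk _ hmQ
    simp only at this
    calc (c⁻¹ * k * c) * (x : G) * (c⁻¹ * k * c)⁻¹ = c⁻¹ * (k * (c * (x : G) * c⁻¹) * k⁻¹) * c := by
          group
      _ = c⁻¹ * (c * (x : G) * c⁻¹) ^ 2 * c := by rw [this]
      _ = (x : G) ^ 2 := by rw [conj_pow]; group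
  -- move it into the normaliser of `P`
  set k1 := c⁻¹ * k * c
  let F : Subgroup G := (orbFix s : Subgroup ↥(P : Subgroup G)).map (P : Subgroup G).subtype
  have hPF : (P : Subgroup G) ≤ Subgroup.centralizer (F : Set G) := by
    intro p hp
    rw [Subgroup.mem_centralizer_iff]
    rintro _ ⟨y, -, rfl⟩
    exact congrArg Subtype.val (mul_comm' y ⟨p, hp⟩)
  have hk1F : ∀ y ∈ F, k1 * y * k1⁻¹ ∈ F ∧ ∃ y' ∈ F, k1 * y' * k1⁻¹ = y := by
    rintro _ ⟨y, hy, rfl⟩
    refine ⟨⟨y ^ 2, pow_mem hy 2, ?_⟩, (y ^ 3 : ↥(P : Subgroup G)), ⟨y ^ 3, pow_mem hy 3, rfl⟩, ?_⟩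
    · simp only [Subgroup.coe_subtype, SubgroupClass.coe_pow]; exact (hsqc y hy).symm
    · rw [hsqc _ (show s • y ^ 3 = y ^ 3 from pow_mem hy 3)]
      have h5 := congrArg Subtype.val (hexp y)
      simp only [SubgroupClass.coe_pow, Subgroup.coe_one, Subgroup.coe_subtype] at h5 ⊢
      rw [← pow_mul, show 3 * 2 = 5 + 1 by norm_num, pow_succ, h5, one_mul]
  -- `P` and its conjugate lie in the centraliser of `F`
  have hPF' : ((k1 • P : Sylow 5 G) : Subgroup G) ≤ Subgroup.centralizer (F : Set G) := by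
    rw [Sylow.coe_subgroup_smul]
    rintro _ ⟨p, hp, rfl⟩
    rw [Subgroup.mem_centralizer_iff]
    intro y hy
    obtain ⟨y', hy', rfl⟩ := (hk1F y hy).2
    have := (Subgroup.mem_centralizer_iff.1 (hPF hp)) y' hy'
    show k1 * y' * k1⁻¹ * (k1 * p * k1⁻¹) = k1 * p * k1⁻¹ * (k1 * y' * k1⁻¹)
    calc k1 * y' * k1⁻¹ * (k1 * p * k1⁻¹) = k1 * (y' * p) * k1⁻¹ := by group
      _ = k1 * (p * y') * k1⁻¹ := by rw [this]
      _ = k1 * p * k1⁻¹ * (k1 * y' * k1⁻¹) := by group
  obtain ⟨d', hd'⟩ := MulAction.exists_smul_eq (↥(Subgroup.centralizer (F : Set G)))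
    ((k1 • P).subtype hPF') (P.subtype hPF)
  simp_rw [Sylow.smul_subtype, Subgroup.smul_def, smul_smul] at hd'
  have hn : (d' : G) * k1 ∈ Subgroup.normalizer ((P : Subgroup G) : Set G) :=
    Sylow.smul_eq_iff_mem_normalizer.mp (Sylow.subtype_injective hd')
  set a0 := auto (P : Subgroup G) ⟨(d' : G) * k1, hn⟩
  have ha0 : ∀ x : ↥(P : Subgroup G), s • x = x → a0 • x = x ^ 2 := by
    intro x hx
    refine Subtype.ext ?_
    rw [auto_coe, SubgroupClass.coe_pow]
    have hd2F : (x : G) ^ 2 ∈ F := ⟨x ^ 2, pow_mem (show x ∈ orbFix s from hx) 2, by simp⟩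
    have h1 := (Subgroup.mem_centralizer_iff.1 d'.2) _ hd2F
    calc (d' : G) * k1 * (x : G) * ((d' : G) * k1)⁻¹ = (d' : G) * (k1 * (x : G) * k1⁻¹) * (d' : G)⁻¹ := by group
      _ = (d' : G) * (x : G) ^ 2 * (d' : G)⁻¹ := by rw [hsqc x hx]
      _ = (x : G) ^ 2 := by rw [← h1]; group
  -- its `2`-part
  obtain ⟨i, m, hm, him⟩ := Nat.exists_eq_two_pow_mul_odd (orderOf_pos a0).ne'
  obtain ⟨m', hm'1, hm'⟩ : ∃ m', m ∣ m' ∧ m' % 4 = 1 := by
    refine ⟨m * m, dvd_mul_right _ _, ?_⟩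
    obtain ⟨q, rfl⟩ := hm
    rw [show (2 * q + 1) * (2 * q + 1) = 4 * (q * q + q) + 1 by ring]
    omega
  set a := a0 ^ m' with ha_def
  have hpow0 : ∀ (j : ℕ) (x : ↥(P : Subgroup G)), s • x = x → a0 ^ j • x = x ^ 2 ^ j := by
    intro j
    induction j with
    | zero => intro x _; rw [pow_zero, pow_zero, one_smul, pow_one]
    | succ j ih =>
      intro x hx
      rw [pow_succ, mul_smul, ha0 x hx, smul_pow', ih x hx, ← pow_mul, ← pow_succ]
  have ha : ∀ x : ↥(P : Subgroup G), s • x = x → a • x = x ^ 2 := by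
    intro x hx
    rw [ha_def, hpow0 _ x hx]
    obtain ⟨q, hq⟩ : ∃ q, m' = 4 * q + 1 := ⟨m' / 4, by omega⟩
    rw [hq, pow_eq_pow_iff_modEq]
    apply Nat.ModEq.of_dvd (orderOf_dvd_of_pow_eq_one (hexp x))
    rw [Nat.ModEq, pow_succ, pow_mul, Nat.mul_mod, Nat.pow_mod]
    norm_num
  have ha2 : ∃ j, orderOf a = 2 ^ j := by
    have hd : orderOf a ∣ 2 ^ i := by
      obtain ⟨q, hq⟩ := hm'1
      rw [orderOf_dvd_iff_pow_eq_one, ha_def, ← pow_mul, hq,
        show m * q * 2 ^ i = 2 ^ i * m * q by ring, pow_mul, ← him, pow_orderOf_eq_one, one_pow]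
    obtain ⟨j, -, hj⟩ := (Nat.dvd_prime_pow Nat.prime_two).1 hd
    exact ⟨j, hj⟩
  obtain ⟨j, hj⟩ := ha2
  have hj2 : j ≤ 2 := by
    by_contra hlt
    obtain ⟨g, hg⟩ := auto_surj a
    obtain ⟨i', hi'⟩ := exists_pow_order (x := (g : G)) (n := 8) (orderOf_pos _).ne'
      ((show 8 ∣ orderOf a by rw [hj]; exact Nat.pow_dvd_pow 2 (show 3 ≤ j by omega)).trans
        (hg ▸ dvd_orderOf_lift g))
    exact (hbig _).1 hi'
  have ha4 : a ^ 4 = 1 := by
    rw [← orderOf_dvd_iff_pow_eq_one, hj]; exact (Nat.pow_dvd_pow 2 hj2).trans (by norm_num)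
  have hord4 : ∀ g : ↥(automiser (P : Subgroup G)), orderOf g = 4 → ∀ x : ↥(P : Subgroup G),
      g • x = x → x = 1 := by
    intro g hg x hx
    by_contra hne
    obtain ⟨g', hg', j', hj'⟩ := exists_lift_prime_pow (p := 2) (k := 2) g (by rw [hg]; norm_num)
    obtain ⟨i', hi'⟩ := exists_pow_order (x := (g' : G)) (n := 4) (orderOf_pos _).ne'
      (hg ▸ hg' ▸ dvd_orderOf_lift g')
    refine (hbig ((g' : G) ^ i' * (x : G))).2 ?_
    rw [W.orderOf_mul_comm (k := 2) (by rw [hi']; norm_num) (W.order_r P.2 hne)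
      ((commute_of_auto_fix (hg' ▸ hx)).pow_left i')]
    norm_num
  have hss : s * s = 1 := by rw [← pow_two, ← hs, pow_orderOf_eq_one]
  have hsi : s⁻¹ = s := inv_eq_of_mul_eq_one_right hss
  -- `a` commutes with `s`
  set w := a * s * a⁻¹ with hwdef
  have hw2 : w * w = 1 := by
    rw [hwdef, show a * s * a⁻¹ * (a * s * a⁻¹) = a * (s * s) * a⁻¹ by group, hss]; group
  have hwfix : ∀ x : ↥(P : Subgroup G), s • x = x → w • x = x := by
    intro x hx
    have hx3 : s • x ^ 3 = x ^ 3 := by rw [smul_pow', hx]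
    have e : a⁻¹ • x = x ^ 3 := by
      rw [inv_smul_eq_iff, ha _ hx3, ← pow_mul, show 3 * 2 = 5 + 1 by norm_num, pow_succ, hexp, one_mul]
    rw [hwdef, mul_smul, mul_smul, e, hx3, ha _ hx3, ← pow_mul, show 3 * 2 = 5 + 1 by norm_num,
      pow_succ, hexp, one_mul]
  have hinv_eq : ∀ v : ↥(automiser (P : Subgroup G)), v * v = 1 → v ≠ 1 →
      (∀ x : ↥(P : Subgroup G), s • x = x → v • x = x) → v * s = s * v → v = s := by
    intro v hv hv1 hfix hvs
    have hcard := hC' v (orderOf_eq_prime (by rw [pow_two, hv]) hv1)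
    have heq : (orbFix s : Subgroup ↥(P : Subgroup G)) = orbFix v :=
      Subgroup.eq_of_le_of_card_ge (fun x hx => hfix x hx) (by rw [hcard, hC])
    have hvsinv : ∀ x : ↥(P : Subgroup G), s • x = x⁻¹ → v • x = x⁻¹ := by
      intro x hx
      have h1 : v • (x * v • x) = x * v • x := by
        rw [smul_mul', smul_smul, hv, one_smul, mul_comm]
      have h3 : x * v • x ∈ (orbFix s : Subgroup ↥(P : Subgroup G)) := by rw [heq]; exact h1
      have h3' : s • (x * v • x) = x * v • x := h3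
      rw [smul_mul', smul_smul, ← hvs, mul_smul, hx, smul_inv', ← mul_inv] at h3'
      have h4 : x * v • x = 1 := eq_one_of_self_inv hodd5 hexp h3'.symm
      exact eq_inv_of_mul_eq_one_right h4
    refine FaithfulSMul.eq_of_smul_eq_smul (α := ↥(P : Subgroup G)) fun x => ?_
    have e1 : s • (x * s • x) = x * s • x := by rw [smul_mul', smul_smul, hss, one_smul, mul_comm]
    have e2 : s • (x * (s • x)⁻¹) = (x * (s • x)⁻¹)⁻¹ := by
      rw [smul_mul', smul_inv', smul_smul, hss, one_smul, mul_inv, inv_inv, mul_comm]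
    have h2x : x ^ 2 = (x * s • x) * (x * (s • x)⁻¹) := by
      rw [pow_two, mul_mul_mul_comm, mul_inv_cancel, mul_one]
    have h7 : v • (x ^ 2) = s • (x ^ 2) := by
      rw [h2x, smul_mul' v, smul_mul' s, hfix _ e1, hvsinv _ e2, e1, e2]
    have h6 : (v • x) ^ 6 = (s • x) ^ 6 := by
      rw [show 6 = 2 * 3 from rfl, pow_mul, pow_mul, ← smul_pow' v x 2, ← smul_pow' s x 2, h7]
    rwa [pow_succ _ 5, pow_succ _ 5, hexp, hexp, one_mul, one_mul] at h6
  clear_value w
  have haws : w = s := by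
    obtain ⟨ρ, hρ⟩ : ∃ ρ, ρ = w * s := ⟨_, rfl⟩
    have hρfix : ∀ x : ↥(P : Subgroup G), s • x = x → ρ • x = x := fun x hx => by
      rw [hρ, mul_smul, hx, hwfix x hx]
    obtain ⟨i2, m2, hm2, him2⟩ := Nat.exists_eq_two_pow_mul_odd (orderOf_pos ρ).ne'
    have hfixpow : ∀ (e : ℕ) (x : ↥(P : Subgroup G)), s • x = x → ρ ^ e • x = x := fun e x hx => by
      induction e with
      | zero => rw [pow_zero, one_smul]
      | succ e ih => rw [pow_succ, mul_smul, hρfix x hx, ih]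
    have hm21 : m2 = 1 := by
      by_contra hne
      have ho : orderOf (ρ ^ 2 ^ i2) = m2 := by
        rw [orderOf_pow' ρ (pow_ne_zero i2 two_ne_zero), him2, Nat.gcd_eq_right (Dvd.intro m2 rfl),
          Nat.mul_div_cancel_left m2 (pow_pos two_pos i2)]
      exact hy1 (F2 _ (ho ▸ hm2) (fun e => hne (by rw [← ho, e, orderOf_one])) y1
        (hfixpow _ y1 hy1s))
    rw [hm21, mul_one] at him2
    have hi2 : i2 ≤ 1 := by
      by_contra hlt
      obtain ⟨e, he⟩ := exists_pow_order (x := ρ) (n := 4) (orderOf_pos _).ne'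
        (him2 ▸ (show 4 ∣ 2 ^ i2 from Nat.pow_dvd_pow 2 (show 2 ≤ i2 by omega)))
      exact hy1 (hord4 _ he y1 (hfixpow e y1 hy1s))
    have hρ2 : ρ * ρ = 1 := by
      rw [← pow_two, ← orderOf_dvd_iff_pow_eq_one, him2]
      exact (Nat.pow_dvd_pow 2 hi2).trans (by norm_num)
    by_cases hρ1 : ρ = 1
    · rw [← hsi]; exact eq_inv_of_mul_eq_one_left (hρ.symm.trans hρ1)
    exfalso
    have hws : ρ * s = s * ρ := by
      have e : ρ⁻¹ = ρ := inv_eq_of_mul_eq_one_right hρ2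
      have hwi : w⁻¹ = w := inv_eq_of_mul_eq_one_right hw2
      calc ρ * s = w := by rw [hρ, mul_assoc, hss, mul_one]
        _ = w⁻¹ := hwi.symm
        _ = s * ρ⁻¹ := by rw [hρ, mul_inv_rev, ← mul_assoc, hsi, hss, one_mul]
        _ = s * ρ := by rw [e]
    have h1 : w * s = s := hρ.symm.trans (hinv_eq ρ hρ2 hρ1 hρfix hws)
    have hw1 : w = 1 := mul_right_cancel (h1.trans (one_mul s).symm)
    have : s = 1 := by
      have h2 := congrArg (fun z => a⁻¹ * z * a) hw1
      simp only [hwdef] at h2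
      simpa [mul_assoc] using h2
    rw [this, orderOf_one] at hs
    exact absurd hs (by norm_num)
  have hcomm : a * s = s * a := mul_inv_eq_iff_eq_mul.1 (hwdef.symm.trans haws)
  -- `a ^ 2` inverts the fixed points of `s` and fixes those inverted
  have hb2 : ∀ x : ↥(P : Subgroup G), s • x = x → (a * a) • x = x⁻¹ := by
    intro x hx
    have hx2 : s • x ^ 2 = x ^ 2 := by rw [smul_pow', hx]
    rw [mul_smul, ha x hx, ha _ hx2, ← pow_mul]
    exact eq_inv_of_mul_eq_one_left (by rw [← pow_succ]; exact hexp x)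
  have hbb : (a * a) * (a * a) = 1 := by
    rw [← ha4]; simp [pow_succ, mul_assoc]
  have hb1 : a * a ≠ 1 := fun e => hy1 (eq_one_of_self_inv hodd5 hexp (by
    rw [← hb2 y1 hy1s, e, one_smul]))
  have hbs : (a * a) * s = s * (a * a) := by rw [mul_assoc, hcomm, ← mul_assoc, hcomm, mul_assoc]
  refine hno ⟨a * a * s, fun x => ?_⟩
  have hbF : ∀ x : ↥(P : Subgroup G), (a * a) • x = x → s • x = x⁻¹ := by
    intro x hx
    have h1 : s • (x * s • x) = x * s • x := by rw [smul_mul', smul_smul, hss, one_smul, mul_comm]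
    have h2 := hb2 _ h1
    rw [smul_mul', smul_smul, hbs, mul_smul s (a * a), hx] at h2
    exact eq_inv_of_mul_eq_one_right (eq_one_of_self_inv hodd5 hexp h2)
  have hI : ∀ x : ↥(P : Subgroup G), s • x = x⁻¹ → (a * a) • x = x := by
    have hle : (orbFix (a * a) : Subgroup ↥(P : Subgroup G)) ≤ orbInv s := hbF
    have hIc : Nat.card (orbInv s : Subgroup ↥(P : Subgroup G)) = 25 := by
      have := card_fix_mul_card_inv hodd5 hexp hss (g := s) (P := ↥(P : Subgroup G))
      rw [hC, hP625] at this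
      omega
    have heq := Subgroup.eq_of_le_of_card_ge hle (by
      rw [hIc, hC' _ (orderOf_eq_prime (by rw [pow_two, hbb]) hb1)])
    intro x hx
    have : x ∈ (orbFix (a * a) : Subgroup ↥(P : Subgroup G)) := by rw [heq]; exact hx
    exact this
  have e1 : s • (x * s • x) = x * s • x := by rw [smul_mul', smul_smul, hss, one_smul, mul_comm]
  have e2 : s • (x * (s • x)⁻¹) = (x * (s • x)⁻¹)⁻¹ := by
    rw [smul_mul', smul_inv', smul_smul, hss, one_smul, mul_inv, inv_inv, mul_comm]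
  have h2x : x ^ 2 = (x * s • x) * (x * (s • x)⁻¹) := by
    rw [pow_two, mul_mul_mul_comm, mul_inv_cancel, mul_one]
  have h6 : ((a * a * s) • x) ^ 2 = (x⁻¹) ^ 2 := by
    rw [← smul_pow', h2x, smul_mul', mul_smul (a * a) s, mul_smul (a * a) s, e1, e2, hb2 _ e1,
      smul_inv', hI _ e2, inv_pow, h2x]
    simp only [mul_inv]
  have := congrArg (· ^ 3) h6
  simp only [← pow_mul, show 2 * 3 = 5 + 1 by norm_num, pow_succ _ 5, hexp, one_mul] at this
  exact this

/-- The Sylow `r`-subgroup of `G` is small. -/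
theorem Two.sylow_card (W : Two A B C r t u h) (P : Sylow r G) :
    (r = 3 ∧ Nat.card ↥(P : Subgroup G) ≤ 9) ∨ (r = 5 ∧ Nat.card ↥(P : Subgroup G) ≤ 5) := by
  haveI := Fact.mk W.prime
  haveI := W.sys.abl r W.prime W.odd W.not_dvd_N P
  obtain ⟨Q⟩ := (inferInstance : Nonempty (Sylow r ↥(ct t)))
  have hb : Nat.card ↥(Q : Subgroup ↥(ct t)) ≤ (if r = 3 then 9 else 5) := by
    rcases W.cent_sylow Q with ⟨h3, hb⟩ | ⟨h5, hb | ⟨h25, hone, hbig, k, -, hk⟩⟩
    · rw [if_pos h3]; exact hb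
    · rw [if_neg (by omega)]; exact hb
    · exact (W.no_twentyfive Q h5 h25 hone hbig hk).elim
  suffices hP : Nat.card ↥(P : Subgroup G) ≤ (if r = 3 then 9 else 5) by
    rcases W.three_or_five with h3 | h5
    · rw [if_pos h3] at hP; exact Or.inl ⟨h3, hP⟩
    · rw [if_neg (by omega)] at hP; exact Or.inr ⟨h5, hP⟩
  -- we may assume `u ∈ P`
  obtain ⟨P', hP'⟩ := (IsPGroup.of_card (n := 1) (by rw [Nat.card_zpowers, W.hu, pow_one]) :
    IsPGroup r (Subgroup.zpowers u)).exists_le_sylow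
  rw [show Nat.card ↥(P : Subgroup G) = Nat.card ↥(P' : Subgroup G) from
    Nat.card_congr (Sylow.equiv P P').toEquiv]
  haveI := W.sys.abl r W.prime W.odd W.not_dvd_N P'
  have huP : u ∈ (P' : Subgroup G) := hP' (Subgroup.mem_zpowers u)
  obtain ⟨F1, F2, F3⟩ := W.autoFacts P'
  have hexp := W.sylow_exp P'.2
  have hU : ∀ s : ↥(automiser (P' : Subgroup G)), orderOf s = 2 → ∀ x : ↥(P' : Subgroup G), x ≠ 1 →
      s • x = x → ∃ a : ↥(automiser (P' : Subgroup G)), a • (⟨u, huP⟩ : ↥(P' : Subgroup G)) = x := by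
    intro s hs x hx hsx
    obtain ⟨g0, hg0, hcom⟩ := W.invol_lift s hs
    exact auto_orbit P' ⟨u, huP⟩ x (W.r_conj hg0 (W.order_r P'.2 hx) (hcom x hsx)).symm
  have hinv : ∀ s : ↥(automiser (P' : Subgroup G)), orderOf s = 2 →
      Nat.card {x : ↥(P' : Subgroup G) // s • x = x} ≤ (if r = 3 then 9 else 5) := fun s hs =>
    (W.fix_le P'.2 s hs Q).trans (max_le (by split <;> norm_num) hb)
  have hnot : ∀ x : ↥(P' : Subgroup G), x ≠ 1 → ¬ IsConj (x : G) u → NotBase A B C t u h (x : G) := by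
    intro x hx hc
    have ho := W.order_r P'.2 hx
    have three := W.three_le
    obtain ⟨i, hi⟩ := W.odd'
    exact ⟨W.sys.outer_of_prime W.prime ho.symm.dvd W.not_dvd_N,
      fun e => by have := orderOf_eq_of_isConj e; rw [ho, W.ht] at this; omega,
      fun e => by have := orderOf_eq_of_isConj e; rw [ho, W.hh] at this; omega, hc,
      fun e => by have := orderOf_eq_of_isConj e; rw [ho, W.orderOf_y] at this; omega⟩
  by_cases hall : ∀ x : ↥(P' : Subgroup G), x ≠ 1 → IsConj (x : G) u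
  · exact card_le_of_two_orbits W.three_or_five hexp F1 (W.auto_even P' huP) F2 F3 hinv
      ⟨u, huP⟩ ⟨u, huP⟩ (fun x hx => Or.inl (auto_orbit P' _ x (hall x hx).symm)) hU
      (Or.inl fun x hx => auto_orbit P' _ x (hall x hx).symm)
  push Not at hall
  obtain ⟨v, hv1, hv⟩ := hall
  have hvn := hnot v hv1 hv
  have hbig := W.no_big hvn (Or.inl (W.order_r P'.2 hv1))
  haveI : Fact (Nat.Prime 2) := ⟨Nat.prime_two⟩
  refine card_le_of_two_orbits W.three_or_five hexp F1 (W.auto_even P' huP) F2 F3 hinv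
    ⟨u, huP⟩ v (fun x hx => ?_) hU (Or.inr ⟨?_, ?_⟩)
  · by_cases hc : IsConj (x : G) u
    · exact Or.inl (auto_orbit P' _ x hc.symm)
    · exact Or.inr (auto_orbit P' v x (W.extra_conj hvn (hnot x hx hc)))
  · rintro g ⟨j, hj⟩
    rw [← orderOf_dvd_iff_pow_eq_one, hj]
    by_contra hcon
    have h3 : 3 ≤ j := by
      by_contra h'
      exact hcon ((Nat.pow_dvd_pow 2 (show j ≤ 2 by omega)).trans (by norm_num))
    obtain ⟨g', rfl⟩ := auto_surj g
    obtain ⟨i, hi⟩ := exists_pow_order (x := (g' : G)) (n := 8) (orderOf_pos _).ne'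
      ((show 8 ∣ 2 ^ j from Nat.pow_dvd_pow 2 h3).trans (hj ▸ dvd_orderOf_lift g'))
    exact (hbig _).1 hi
  · intro g hg x hx
    by_contra hne
    obtain ⟨g', rfl⟩ := auto_surj g
    obtain ⟨i, hi⟩ := exists_pow_order (x := (g' : G)) (n := 4) (orderOf_pos _).ne'
      (hg ▸ dvd_orderOf_lift g')
    refine (hbig ((g' : G) ^ i * (x : G))).2 ?_
    rw [W.orderOf_mul_comm (k := 2) (by rw [hi]; norm_num) (W.order_r P'.2 hne)
      ((commute_of_auto_fix hx).pow_left i)]
    norm_num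

end CfsgLib.TISuzuki
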