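import Cfsg.Agent.TISuzuki.FamilyBounds

/-!
# Three families of types 2, 4, 4

At most three non-principal characters constant on the three families have a non-zero defect; the
others have degree divisible by the product of the three orders.
-/

set_option autoImplicit false
set_option linter.unusedSectionVars false
set_option linter.style.haveILetI false

noncomputable section

namespace CfsgLib.TISuzuki

open Cfsg CfsgLib.Chars
open scoped Classical

universe u

/-- The combinatorial core. -/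
theorem card_le_three {ι : Type u} (P : Finset ι) (c1 c2 c3 : ι → ℤ)
    (k21 k23 k31 k32 : Prop)
    (hcov : ∀ x ∈ P, c1 x ≠ 0 ∨ c2 x ≠ 0 ∨ c3 x ≠ 0)
    (b1 : ∑ x ∈ P, c1 x ^ 2 ≤ 1)
    (b2 : ∑ x ∈ P, c2 x ^ 2 + (if k21 then 2 else 0) + (if k23 then 2 else 0) ≤ 3)
    (b3 : ∑ x ∈ P, c3 x ^ 2 + (if k31 then 2 else 0) + (if k32 then 2 else 0) ≤ 3)
    (d12 : ¬ k21 → ∑ x ∈ P, c1 x * c2 x = -1)
    (d13 : ¬ k31 → ∑ x ∈ P, c1 x * c3 x = -1)
    (d23 : ¬ k23 → ¬ k32 → ¬ (k21 ∧ k31) → ∑ x ∈ P, c2 x * c3 x = -1) : P.card ≤ 3 := by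
  have hsupp : ∀ c : ι → ℤ, ((P.filter fun x => c x ≠ 0).card : ℤ) ≤ ∑ x ∈ P, c x ^ 2 := by
    intro c
    refine le_trans ?_ (Finset.sum_le_sum_of_subset_of_nonneg
      (Finset.filter_subset (fun x => c x ≠ 0) P) fun _ _ _ => sq_nonneg _)
    have h1 := Finset.card_nsmul_le_sum (P.filter fun x => c x ≠ 0) (fun x => c x ^ 2) (1 : ℤ)
      (fun x hx => by
        have := Int.one_le_abs (Finset.mem_filter.1 hx).2
        nlinarith [sq_abs (c x)])
    simpa using h1
  have hmeet : ∀ c d : ι → ℤ, ∑ x ∈ P, c x * d x = -1 →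
      (P.filter fun x => c x ≠ 0).card ≤ 1 → ∀ x ∈ P, c x ≠ 0 → d x ≠ 0 := by
    intro c d hs hc x hx hcx hdx
    rw [Finset.sum_eq_zero (fun y hy => ?_)] at hs
    · omega
    · by_cases hcy : c y = 0
      · rw [hcy, zero_mul]
      · rw [Finset.card_le_one.1 hc y (Finset.mem_filter.2 ⟨hy, hcy⟩) x
          (Finset.mem_filter.2 ⟨hx, hcx⟩), hdx, mul_zero]
  have S1 := hsupp c1
  have S2 := hsupp c2
  have S3 := hsupp c3
  have h1le : (P.filter fun x => c1 x ≠ 0).card ≤ 1 := by omega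
  have hsub : P ⊆ (P.filter fun x => c1 x ≠ 0) ∪ (P.filter fun x => c2 x ≠ 0) ∪
      (P.filter fun x => c3 x ≠ 0) := fun x hx => by
    simp only [Finset.mem_union, Finset.mem_filter]
    rcases hcov x hx with h | h | h <;> simp [hx, h]
  have hcard := (Finset.card_le_card hsub).trans
    ((Finset.card_union_le _ _).trans (Nat.add_le_add_right (Finset.card_union_le _ _) _))
  by_cases hk2 : k21 ∨ k23
  · have h2le : (P.filter fun x => c2 x ≠ 0).card ≤ 1 := by
      rcases hk2 with h | h <;> rw [if_pos h] at b2 <;> split_ifs at b2 <;> omega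
    by_cases hk3 : k31 ∨ k32
    · have h3le : (P.filter fun x => c3 x ≠ 0).card ≤ 1 := by
        rcases hk3 with h | h <;> rw [if_pos h] at b3 <;> split_ifs at b3 <;> omega
      omega
    push Not at hk3
    have m13 := hmeet c1 c3 (d13 hk3.1) h1le
    have m23 : ∀ x ∈ P, c2 x ≠ 0 → c3 x ≠ 0 := by
      intro x hx hcx
      by_cases h23 : k23
      · have h21 : ¬ k21 := fun h => by
          have := Finset.sum_nonneg (s := P) (f := fun x => c2 x ^ 2) fun _ _ => sq_nonneg _
          rw [if_pos h, if_pos h23] at b2; omega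
        exact m13 x hx (hmeet c2 c1 (by simpa [mul_comm] using d12 h21) h2le x hx hcx)
      · exact hmeet c2 c3 (d23 h23 hk3.2 fun h => hk3.1 h.2) h2le x hx hcx
    have : P ⊆ P.filter fun x => c3 x ≠ 0 := fun x hx => Finset.mem_filter.2 ⟨hx, by
      rcases hcov x hx with h | h | h
      · exact m13 x hx h
      · exact m23 x hx h
      · exact h⟩
    have := Finset.card_le_card this
    split_ifs at b3 <;> omega
  push Not at hk2
  have hd12 := d12 hk2.1
  by_cases hk3 : k31 ∨ k32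
  · have h3le : (P.filter fun x => c3 x ≠ 0).card ≤ 1 := by
      rcases hk3 with h | h <;> rw [if_pos h] at b3 <;> split_ifs at b3 <;> omega
    have m12 := hmeet c1 c2 hd12 h1le
    have m32 : ∀ x ∈ P, c3 x ≠ 0 → c2 x ≠ 0 := by
      intro x hx hcx
      by_cases h32 : k32
      · have h31 : ¬ k31 := fun h => by
          have := Finset.sum_nonneg (s := P) (f := fun x => c3 x ^ 2) fun _ _ => sq_nonneg _
          rw [if_pos h, if_pos h32] at b3; omega
        exact m12 x hx (hmeet c3 c1 (by simpa [mul_comm] using d13 h31) h3le x hx hcx)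
      · exact hmeet c3 c2 (by simpa [mul_comm] using d23 hk2.2 h32 fun h => hk2.1 h.1) h3le x hx hcx
    have : P ⊆ P.filter fun x => c2 x ≠ 0 := fun x hx => Finset.mem_filter.2 ⟨hx, by
      rcases hcov x hx with h | h | h
      · exact m12 x hx h
      · exact h
      · exact m32 x hx h⟩
    have := Finset.card_le_card this
    split_ifs at b2 <;> omega
  push Not at hk3
  have hd13 := d13 hk3.1
  have hd23 := d23 hk2.2 hk3.2 fun h => hk2.1 h.1
  obtain ⟨p, hp, hp0⟩ := Finset.exists_ne_zero_of_sum_ne_zero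
    (show ∑ x ∈ P, c1 x * c2 x ≠ 0 by omega)
  have hc1 : c1 p ≠ 0 := fun h => hp0 (by rw [h, zero_mul])
  have hother : ∀ x ∈ P, x ≠ p → c1 x = 0 := fun x hx hxp => by
    by_contra h
    exact hxp (Finset.card_le_one.1 h1le x (Finset.mem_filter.2 ⟨hx, h⟩) p
      (Finset.mem_filter.2 ⟨hp, hc1⟩))
  rw [Finset.sum_eq_single_of_mem p hp fun x hx hxp => by rw [hother x hx hxp, zero_mul]] at hd12 hd13
  rw [← Finset.add_sum_erase P _ hp] at b1 b2 b3 hd23
  simp only [hk2.1, hk2.2, hk3.1, hk3.2, if_false, add_zero] at b2 b3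
  have hc1sq : c1 p ^ 2 = 1 := by
    have := Finset.sum_nonneg (s := P.erase p) (f := fun x => c1 x ^ 2) fun _ _ => sq_nonneg _
    have := Int.one_le_abs hc1
    nlinarith [sq_abs (c1 p)]
  have h2p : c2 p = - c1 p := by linear_combination c1 p * hd12 - c2 p * hc1sq
  have h3p : c3 p = - c1 p := by linear_combination c1 p * hd13 - c3 p * hc1sq
  rw [h2p, neg_sq, hc1sq] at b2
  rw [h3p, neg_sq, hc1sq] at b3
  rw [h2p, h3p, neg_mul_neg, ← sq, hc1sq] at hd23
  have hzero : ∀ x ∈ P.erase p, c2 x + c3 x = 0 := by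
    have e : ∑ x ∈ P.erase p, (c2 x + c3 x) ^ 2 = ∑ x ∈ P.erase p, c2 x ^ 2 +
        ∑ x ∈ P.erase p, c3 x ^ 2 + 2 * ∑ x ∈ P.erase p, c2 x * c3 x := by
      rw [Finset.mul_sum, ← Finset.sum_add_distrib, ← Finset.sum_add_distrib]
      exact Finset.sum_congr rfl fun x _ => by ring
    have h0 : ∑ x ∈ P.erase p, (c2 x + c3 x) ^ 2 = 0 :=
      le_antisymm (by rw [e]; omega) (Finset.sum_nonneg fun _ _ => sq_nonneg _)
    intro x hx
    exact pow_eq_zero_iff (two_ne_zero) |>.1
      ((Finset.sum_eq_zero_iff_of_nonneg fun _ _ => sq_nonneg _).1 h0 x hx)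
  have h2ne : ∀ x ∈ P.erase p, (1 : ℤ) ≤ c2 x ^ 2 := fun x hx => by
    have : c2 x ≠ 0 := fun h => by
      have := hzero x hx
      rcases hcov x (Finset.mem_of_mem_erase hx) with h' | h' | h'
      · exact h' (hother x (Finset.mem_of_mem_erase hx) (Finset.ne_of_mem_erase hx))
      · exact h' h
      · omega
    have := Int.one_le_abs this
    nlinarith [sq_abs (c2 x)]
  have := Finset.card_nsmul_le_sum _ _ _ h2ne
  rw [nsmul_eq_mul, mul_one] at this
  have := Finset.card_erase_add_one hp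
  omega

variable {G : Type u} [Group G] [Fintype G] {A B C : Subgroup G} {e e' e'' : ℕ}

/-- No character is non-constant on two families. -/
theorem not_own_both (hA : Fam A e) (hB : Fam B e')
    (hAB : ∀ a ∈ A, a ≠ 1 → ∀ b ∈ B, ¬ IsConj a b) (χ : IrrCharacter G) (h1 : Own A χ)
    (h2 : Own B χ) : False := by
  -- two differences of norm two, both non-zero at `χ`
  have key : ∀ (K : Subgroup G) (k : ℕ), Fam K k → Own K χ →
      ∃ l m : Dual K, ∑ ψ : IrrCharacter G, (mult K ψ l - mult K ψ m) ^ 2 = 2 ∧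
        mult K χ l - mult K χ m ≠ 0 := by
    intro K k hK hown
    obtain ⟨l, hl, m, hm, hne⟩ := hown
    have hout : l ∉ orb m := by
      intro hx
      obtain ⟨q, -, rfl⟩ := Finset.mem_image.1 hx
      exact hne (mult_act K χ m q.out)
    have hout' : m ∉ orb l := by
      intro hx
      obtain ⟨q, -, rfl⟩ := Finset.mem_image.1 hx
      exact hne (mult_act K χ l q.out).symm
    refine ⟨l, m, ?_, sub_ne_zero.2 hne⟩
    have := hK.gram l m l m
    rw [hK.ind_self ((mem_dual' K).1 hl), hK.ind_self ((mem_dual' K).1 hm), ind_eq_zero hout,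
      ind_eq_zero hout'] at this
    simpa [sq] using this
  obtain ⟨l, m, hD, hDχ⟩ := key A e hA h1
  obtain ⟨s, t, hE, hEχ⟩ := key B e' hB h2
  set D := fun ψ : IrrCharacter G => mult A ψ l - mult A ψ m with hDdef
  set E := fun ψ : IrrCharacter G => mult B ψ s - mult B ψ t with hEdef
  have struct : ∀ F : IrrCharacter G → ℤ, ∑ ψ : IrrCharacter G, F ψ ^ 2 = 2 → F χ ≠ 0 →
      ∑ ψ : IrrCharacter G, (charDegree (ψ : G → ℂ) : ℤ) * F ψ = 0 →
      ∃ ψ, ψ ≠ χ ∧ F ψ = - F χ ∧ (F χ = 1 ∨ F χ = -1) ∧ ∀ φ, φ ≠ χ → φ ≠ ψ → F φ = 0 := by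
    intro F hF hFχ hdeg
    have hχ1 := Int.one_le_abs hFχ
    obtain ⟨ψ, hψ, hψ0⟩ : ∃ ψ, ψ ≠ χ ∧ F ψ ≠ 0 := by
      by_contra hcon
      push Not at hcon
      rw [Finset.sum_eq_single χ (fun φ _ hφ => by rw [hcon φ hφ, mul_zero])
        (fun h => absurd (Finset.mem_univ _) h)] at hdeg
      rcases mul_eq_zero.1 hdeg with h | h
      · exact (charDegree_pos χ).ne' (by exact_mod_cast h)
      · exact hFχ h
    have hψ1 := Int.one_le_abs hψ0
    rw [← Finset.add_sum_erase _ _ (Finset.mem_univ χ),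
      ← Finset.add_sum_erase _ _ (Finset.mem_erase.2 ⟨hψ, Finset.mem_univ ψ⟩)] at hF
    have hrest0 : ∑ φ ∈ (Finset.univ.erase χ).erase ψ, F φ ^ 2 = 0 := by
      have := Finset.sum_nonneg (s := (Finset.univ.erase χ).erase ψ) (f := fun φ => F φ ^ 2)
        fun _ _ => sq_nonneg _
      nlinarith [sq_abs (F χ), sq_abs (F ψ)]
    have hz : ∀ φ, φ ≠ χ → φ ≠ ψ → F φ = 0 := fun φ a b =>
      pow_eq_zero_iff two_ne_zero |>.1 ((Finset.sum_eq_zero_iff_of_nonneg fun _ _ => sq_nonneg _).1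
        hrest0 φ (Finset.mem_erase.2 ⟨b, Finset.mem_erase.2 ⟨a, Finset.mem_univ _⟩⟩))
    have ha : F χ = 1 ∨ F χ = -1 := by
      have : F χ ^ 2 = 1 := by nlinarith [sq_abs (F χ), sq_abs (F ψ)]
      exact sq_eq_one_iff.1 this
    have hb : F ψ = 1 ∨ F ψ = -1 := by
      have : F ψ ^ 2 = 1 := by nlinarith [sq_abs (F χ), sq_abs (F ψ)]
      exact sq_eq_one_iff.1 this
    refine ⟨ψ, hψ, ?_, ha, hz⟩
    rw [← Finset.add_sum_erase _ _ (Finset.mem_univ χ),
      ← Finset.add_sum_erase _ _ (Finset.mem_erase.2 ⟨hψ, Finset.mem_univ ψ⟩),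
      Finset.sum_eq_zero (fun φ hφ => by
        obtain ⟨b, hφ⟩ := Finset.mem_erase.1 hφ
        rw [hz φ (Finset.mem_erase.1 hφ).1 b, mul_zero]), add_zero] at hdeg
    have dχ := charDegree_pos χ
    have dψ := charDegree_pos ψ
    rcases ha with ha | ha <;> rcases hb with hb | hb <;> rw [ha, hb] at hdeg ⊢ <;> omega
  obtain ⟨ψ, hψ, hDψ, ha, hDz⟩ := struct D hD hDχ (gram_degree l m)
  obtain ⟨φ, hφ, hEφ, hb, hEz⟩ := struct E hE hEχ (gram_degree s t)
  have hcross : ∑ x, D x * E x = 0 := gram_cross hAB l m s t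
  rw [← Finset.add_sum_erase _ _ (Finset.mem_univ χ)] at hcross
  by_cases hφψ : φ = ψ
  · subst hφψ
    rw [Finset.sum_eq_single_of_mem φ (Finset.mem_erase.2 ⟨hψ, Finset.mem_univ _⟩)
      (fun x hx hxφ => by rw [hDz x (Finset.mem_erase.1 hx).1 hxφ, zero_mul]), hDψ, hEφ] at hcross
    rcases ha with ha | ha <;> rcases hb with hb | hb <;> rw [ha, hb] at hcross <;> omega
  · rw [Finset.sum_eq_zero (fun x hx => by
      by_cases hxψ : x = ψ
      · rw [hEz x (Finset.mem_erase.1 hx).1 (hxψ ▸ Ne.symm hφψ), mul_zero]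
      · rw [hDz x (Finset.mem_erase.1 hx).1 hxψ, zero_mul])] at hcross
    rcases ha with ha | ha <;> rcases hb with hb | hb <;> rw [ha, hb] at hcross <;> omega

/-- A defect on the exceptional characters of another family appears at least twice. -/
theorem two_le_of_own_cc (hA : Fam A e) (hB : Fam B e') (hn : 1 < Nat.card A)
    (hAB : ∀ a ∈ A, a ≠ 1 → ∀ b ∈ B, ¬ IsConj a b) {χ : IrrCharacter G} (hown : Own B χ)
    (hc : cc A χ ≠ 0) : ∃ ψ, ψ ≠ χ ∧ Own B ψ ∧ cc A ψ ≠ 0 := by
  by_contra hcon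
  push Not at hcon
  obtain ⟨l, hl⟩ := hA.exists_ne_one hn
  obtain ⟨s, hs, t, ht, hne⟩ := hown
  have hcross := gram_cross hAB (1 : Dual A) l s t
  rw [Finset.sum_eq_single χ (fun ψ _ hψ => ?_) (fun h => absurd (Finset.mem_univ _) h)] at hcross
  · rw [cc_spec (fun h => not_own_both hA hB hAB χ h ⟨s, hs, t, ht, hne⟩) hl] at hcross
    rcases mul_eq_zero.1 hcross with h | h
    · exact hc h
    · exact hne (sub_eq_zero.1 h)
  · by_cases hψB : Own B ψ
    · rw [cc_spec (fun h => not_own_both hA hB hAB ψ h hψB) hl, hcon ψ hψ hψB, zero_mul]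
    · have : mult B ψ s = mult B ψ t := by
        by_contra h'
        exact hψB ⟨s, hs, t, ht, h'⟩
      rw [this, sub_self, mul_zero]

/-- A defect on the exceptional characters of another family. -/
def Uses (A B : Subgroup G) : Prop := ∃ χ : IrrCharacter G, Own B χ ∧ cc A χ ≠ 0

/-- The characters constant on all three families, other than the principal one. -/
def rest (A B C : Subgroup G) : Finset (IrrCharacter G) :=
  Finset.univ.filter fun χ => χ ≠ oneChar G ∧ ¬ Own A χ ∧ ¬ Own B χ ∧ ¬ Own C χ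

/-- Those with a non-zero defect. -/
def defective (A B C : Subgroup G) : Finset (IrrCharacter G) :=
  (rest A B C).filter fun χ => cc A χ ≠ 0 ∨ cc B χ ≠ 0 ∨ cc C χ ≠ 0

theorem budget_three (hA : Fam A e) (hB : Fam B e') (hC : Fam C e'') (hn : e + 1 < Nat.card A)
    (hAB : ∀ a ∈ A, a ≠ 1 → ∀ b ∈ B, ¬ IsConj a b)
    (hAC : ∀ a ∈ A, a ≠ 1 → ∀ b ∈ C, ¬ IsConj a b)
    (hBC : ∀ a ∈ B, a ≠ 1 → ∀ b ∈ C, ¬ IsConj a b) (S : Finset (IrrCharacter G))
    (hS : S ⊆ rest A B C) :
    ∑ χ ∈ S, cc A χ ^ 2 + (if Uses A B then 2 else 0) + (if Uses A C then 2 else 0) + 1 ≤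
      (e : ℤ) := by
  have hn1 : 1 < Nat.card A := by omega
  have hextra : ∀ (K : Subgroup G) (k : ℕ), Fam K k →
      (∀ a ∈ A, a ≠ 1 → ∀ b ∈ K, ¬ IsConj a b) →
      (if Uses A K then (2 : ℤ) else 0) ≤
        ∑ χ ∈ Finset.univ.filter (Own K), cc A χ ^ 2 := by
    intro K k hK hAK
    split_ifs with hu
    · obtain ⟨χ, hχ, hc⟩ := hu
      obtain ⟨ψ, hψ, hψK, hψc⟩ := two_le_of_own_cc hA hK hn1 hAK hχ hc
      refine le_trans ?_ (Finset.sum_le_sum_of_subset_of_nonneg
        (show ({χ, ψ} : Finset (IrrCharacter G)) ⊆ Finset.univ.filter (Own K) from fun x hx => by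
          rcases Finset.mem_insert.1 hx with rfl | hx
          · simp [hχ]
          · rw [Finset.mem_singleton] at hx; simp [hx, hψK])
        fun _ _ _ => sq_nonneg _)
      rw [Finset.sum_pair (Ne.symm hψ)]
      have := Int.one_le_abs hc
      have := Int.one_le_abs hψc
      nlinarith [sq_abs (cc A χ), sq_abs (cc A ψ)]
    · exact Finset.sum_nonneg fun _ _ => sq_nonneg _
  have hbud := hA.budget hn
  have hd1 : Disjoint S (Finset.univ.filter (Own B)) :=
    Finset.disjoint_left.2 fun x hx hx' =>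
      (Finset.mem_filter.1 (hS hx)).2.2.2.1 (Finset.mem_filter.1 hx').2
  have hd2 : Disjoint (S ∪ Finset.univ.filter (Own B)) (Finset.univ.filter (Own C)) :=
    Finset.disjoint_left.2 fun x hx hx' => by
      rcases Finset.mem_union.1 hx with hx | hx
      · exact (Finset.mem_filter.1 (hS hx)).2.2.2.2 (Finset.mem_filter.1 hx').2
      · exact not_own_both hB hC hBC x (Finset.mem_filter.1 hx).2 (Finset.mem_filter.1 hx').2
  have hle : ∑ χ ∈ S ∪ Finset.univ.filter (Own B) ∪ Finset.univ.filter (Own C), cc A χ ^ 2 ≤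
      ∑ χ ∈ Finset.univ.filter (fun χ => χ ≠ oneChar G ∧ ¬ Own A χ), cc A χ ^ 2 := by
    refine Finset.sum_le_sum_of_subset_of_nonneg (fun x hx => ?_) fun _ _ _ => sq_nonneg _
    simp only [Finset.mem_union, Finset.mem_filter, Finset.mem_univ, true_and] at hx ⊢
    rcases hx with (hx | hx) | hx
    · exact ⟨(Finset.mem_filter.1 (hS hx)).2.1, (Finset.mem_filter.1 (hS hx)).2.2.1⟩
    · exact ⟨fun h => one_not_own (h ▸ hx), fun h => not_own_both hA hB hAB x h hx⟩
    · exact ⟨fun h => one_not_own (h ▸ hx), fun h => not_own_both hA hC hAC x h hx⟩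
  rw [Finset.sum_union hd2, Finset.sum_union hd1] at hle
  have := hextra B e' hB hAB
  have := hextra C e'' hC hAC
  linarith

theorem dot_eq (hA : Fam A e) (hB : Fam B e') (hn : 1 < Nat.card A) (hn' : 1 < Nat.card B)
    (hAB : ∀ a ∈ A, a ≠ 1 → ∀ b ∈ B, ¬ IsConj a b) (hu : ¬ Uses A B) (hu' : ¬ Uses B A)
    (hC : ¬ (Uses A C ∧ Uses B C)) (S : Finset (IrrCharacter G))
    (hS : ∀ χ, χ ∈ S ↔ χ ≠ oneChar G ∧ ¬ Own A χ ∧ ¬ Own B χ ∧ ¬ Own C χ ∧
      (cc A χ ≠ 0 ∨ cc B χ ≠ 0 ∨ cc C χ ≠ 0)) :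
    ∑ χ ∈ S, cc A χ * cc B χ = -1 := by
  obtain ⟨l, hl⟩ := hA.exists_ne_one hn
  obtain ⟨s, hs⟩ := hB.exists_ne_one hn'
  have hcross := gram_cross hAB (1 : Dual A) l (1 : Dual B) s
  have h1S : oneChar G ∉ S := fun h => ((hS _).1 h).1 rfl
  rw [← Finset.sum_subset (Finset.subset_univ (insert (oneChar G) S)) (fun χ _ hχ => ?_),
    Finset.sum_insert h1S, cc_spec one_not_own hl, cc_spec one_not_own hs, cc_one ⟨l, hl⟩,
    cc_one ⟨s, hs⟩, Finset.sum_congr rfl (fun χ hχ => by
      rw [cc_spec ((hS χ).1 hχ).2.1 hl, cc_spec ((hS χ).1 hχ).2.2.1 hs])] at hcross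
  · linarith
  · rw [Finset.mem_insert, hS] at hχ
    push Not at hχ
    by_cases hA' : Own A χ
    · have : cc B χ = 0 := by
        by_contra h; exact hu' ⟨χ, hA', h⟩
      rw [cc_spec (fun h => not_own_both hA hB hAB χ hA' h) hs, this, mul_zero]
    by_cases hB' : Own B χ
    · have : cc A χ = 0 := by
        by_contra h; exact hu ⟨χ, hB', h⟩
      rw [cc_spec hA' hl, this, zero_mul]
    rw [cc_spec hA' hl, cc_spec hB' hs]
    by_cases hC' : Own C χ
    · by_cases h : cc A χ = 0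
      · rw [h, zero_mul]
      · by_cases h' : cc B χ = 0
        · rw [h', mul_zero]
        · exact absurd ⟨⟨χ, hC', h⟩, χ, hC', h'⟩ hC
    · rw [(hχ.2 hχ.1 hA' hB' hC').1, zero_mul]

theorem defective_comm12 : defective B A C = defective A B C := by
  ext χ; simp only [defective, rest, Finset.mem_filter, Finset.mem_univ, true_and]; tauto

theorem mem_defective {χ : IrrCharacter G} : χ ∈ defective A B C ↔
    χ ≠ oneChar G ∧ ¬ Own A χ ∧ ¬ Own B χ ∧ ¬ Own C χ ∧
      (cc A χ ≠ 0 ∨ cc B χ ≠ 0 ∨ cc C χ ≠ 0) := by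
  simp only [defective, rest, Finset.mem_filter, Finset.mem_univ, true_and]; tauto

/-- The main bound: three defective characters at most. -/
theorem card_defective_le (hA : Fam A 2) (hB : Fam B 4) (hC : Fam C 4) (hnA : 3 < Nat.card A)
    (hnB : 5 < Nat.card B) (hnC : 5 < Nat.card C)
    (hAB : ∀ a ∈ A, a ≠ 1 → ∀ b ∈ B, ¬ IsConj a b)
    (hAC : ∀ a ∈ A, a ≠ 1 → ∀ b ∈ C, ¬ IsConj a b)
    (hBC : ∀ a ∈ B, a ≠ 1 → ∀ b ∈ C, ¬ IsConj a b) : (defective A B C).card ≤ 3 := by
  have swap : ∀ {X Y : Subgroup G}, (∀ a ∈ X, a ≠ 1 → ∀ b ∈ Y, ¬ IsConj a b) →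
      ∀ a ∈ Y, a ≠ 1 → ∀ b ∈ X, ¬ IsConj a b := by
    intro X Y h a ha ha1 b hb hc
    refine h b hb (fun e' => ha1 ?_) a ha hc.symm
    rw [e'] at hc
    exact isConj_one_left.1 hc
  have sA : defective A B C ⊆ rest A B C := Finset.filter_subset _ _
  have sB : defective A B C ⊆ rest B A C := fun x hx => by
    have := sA hx; simp only [rest, Finset.mem_filter, Finset.mem_univ, true_and] at this ⊢; tauto
  have sC : defective A B C ⊆ rest C A B := fun x hx => by
    have := sA hx; simp only [rest, Finset.mem_filter, Finset.mem_univ, true_and] at this ⊢; tauto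
  have b1 := budget_three hA hB hC (by omega) hAB hAC hBC _ sA
  have b2 := budget_three hB hA hC (by omega) (swap hAB) hBC hAC _ sB
  have b3 := budget_three hC hA hB (by omega) (swap hAC) (swap hBC) hAB _ sC
  have hnn := Finset.sum_nonneg (s := defective A B C) (f := fun χ => cc A χ ^ 2)
    fun _ _ => sq_nonneg _
  have nAB : ¬ Uses A B := fun h => by rw [if_pos h] at b1; split_ifs at b1 <;> omega
  have nAC : ¬ Uses A C := fun h => by rw [if_pos h] at b1; split_ifs at b1 <;> omega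
  simp only [nAB, nAC, if_false] at b1
  push_cast at b1 b2 b3
  refine card_le_three _ (cc A) (cc B) (cc C) (Uses B A) (Uses B C) (Uses C A) (Uses C B)
    (fun x hx => (Finset.mem_filter.1 hx).2) (by linarith) (by linarith) (by linarith) ?_ ?_ ?_
  · exact fun h => dot_eq (C := C) hA hB (by omega) (by omega) hAB nAB h (fun h' => nAC h'.1) _
      fun χ => mem_defective
  · exact fun h => dot_eq (C := B) hA hC (by omega) (by omega) hAC nAC h (fun h' => nAB h'.1) _
      fun χ => by rw [mem_defective]; tauto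
  · exact fun h h' h'' => dot_eq (C := A) hB hC (by omega) (by omega) hBC h h' h'' _
      fun χ => by rw [mem_defective]; tauto

/-- The number of irreducible characters. -/
theorem card_irr_bound (hA : Fam A 2) (hB : Fam B 4) (hC : Fam C 4) (hnA : 3 < Nat.card A)
    (hnB : 5 < Nat.card B) (hnC : 5 < Nat.card C)
    (hAB : ∀ a ∈ A, a ≠ 1 → ∀ b ∈ B, ¬ IsConj a b)
    (hAC : ∀ a ∈ A, a ≠ 1 → ∀ b ∈ C, ¬ IsConj a b)
    (hBC : ∀ a ∈ B, a ≠ 1 → ∀ b ∈ C, ¬ IsConj a b)
    (cAB : (Nat.card A).Coprime (Nat.card B)) (cAC : (Nat.card A).Coprime (Nat.card C))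
    (cBC : (Nat.card B).Coprime (Nat.card C))
    (hord : Nat.card G ≤ 3 * (Nat.card A * Nat.card B * Nat.card C) ^ 2) :
    ∃ oA oB oC k : ℕ, oA * 2 + 1 ≤ Nat.card A ∧ oB * 4 + 1 ≤ Nat.card B ∧
      oC * 4 + 1 ≤ Nat.card C ∧ k ≤ 2 ∧
      (k ≠ 0 → (Nat.card A * Nat.card B * Nat.card C) ^ 2 < Nat.card G) ∧
      Nat.card (IrrCharacter G) ≤ 4 + k + (oA + oB + oC) := by
  set N := Nat.card A * Nat.card B * Nat.card C
  set R := rest A B C
  set Z := R \ defective A B C
  refine ⟨_, _, _, Z.card, hA.card_own_mul_le (by omega), hB.card_own_mul_le (by omega),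
    hC.card_own_mul_le (by omega), ?_⟩
  have hdeg : ∀ χ ∈ Z, N ≤ charDegree (χ : G → ℂ) := by
    intro χ hχ
    rw [Finset.mem_sdiff] at hχ
    have hr := Finset.mem_filter.1 hχ.1
    have hz : cc A χ = 0 ∧ cc B χ = 0 ∧ cc C χ = 0 := by
      have := hχ.2
      simp only [defective, Finset.mem_filter, not_and, not_or, not_not] at this
      exact this hχ.1
    have dvd : ∀ (K : Subgroup G) (k : ℕ), Fam K k → ¬ Own K χ → cc K χ = 0 →
        Nat.card K ∣ charDegree (χ : G → ℂ) := by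
      intro K k hK hno h0
      have hs := sum_mult K hK.commInst χ
      rw [Finset.sum_congr rfl (fun l _ => (show mult K χ l = mult K χ 1 by
        by_cases hl : l = 1
        · rw [hl]
        · have := cc_spec hno hl; omega)), Finset.sum_const, Finset.card_univ, hK.card_dual,
        nsmul_eq_mul] at hs
      exact Int.natCast_dvd_natCast.1 ⟨_, hs.symm⟩
    exact Nat.le_of_dvd (charDegree_pos χ) ((cAC.mul_left cBC).mul_dvd_of_dvd_of_dvd
      (cAB.mul_dvd_of_dvd_of_dvd (dvd A 2 hA hr.2.2.1 hz.1) (dvd B 4 hB hr.2.2.2.1 hz.2.1))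
      (dvd C 4 hC hr.2.2.2.2 hz.2.2))
  have hsum : Z.card * N ^ 2 + 1 ≤ Nat.card G := by
    rw [← sum_charDegree_sq (G := G)]
    have h1 : oneChar G ∉ Z := fun h => (Finset.mem_filter.1 (Finset.mem_sdiff.1 h).1).2.1 rfl
    refine le_trans ?_ (Finset.sum_le_sum_of_subset (Finset.subset_univ (insert (oneChar G) Z)))
    rw [Finset.sum_insert h1, (charDegree_eq_one_iff _).2 (oneChar_apply 1), one_pow, add_comm 1]
    exact Nat.add_le_add_right (by
      simpa using Finset.card_nsmul_le_sum Z _ _ fun χ hχ => Nat.pow_le_pow_left (hdeg χ hχ) 2) 1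
  have hN : 0 < N ^ 2 := by positivity
  refine ⟨?_, fun hk => ?_, ?_⟩
  · by_contra hk
    push Not at hk
    have : 3 * N ^ 2 ≤ Z.card * N ^ 2 := Nat.mul_le_mul_right _ hk
    omega
  · have : 1 * N ^ 2 ≤ Z.card * N ^ 2 := Nat.mul_le_mul_right _ (Nat.pos_of_ne_zero hk)
    omega
  · have hsub : (Finset.univ : Finset (IrrCharacter G)) ⊆
        {oneChar G} ∪ (defective A B C ∪ Z) ∪ (Finset.univ.filter (Own A) ∪
          Finset.univ.filter (Own B) ∪ Finset.univ.filter (Own C)) := by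
      intro χ _
      simp only [Z, R, rest, defective, Finset.mem_union, Finset.mem_singleton, Finset.mem_sdiff,
        Finset.mem_filter, Finset.mem_univ, true_and]
      tauto
    rw [Nat.card_eq_fintype_card, ← Finset.card_univ]
    have := Finset.card_le_card hsub
    have := card_defective_le hA hB hC hnA hnB hnC hAB hAC hBC
    have := Finset.card_union_le ({oneChar G} ∪ (defective A B C ∪ Z))
      (Finset.univ.filter (Own A) ∪ Finset.univ.filter (Own B) ∪ Finset.univ.filter (Own C))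
    have := Finset.card_union_le {oneChar G} (defective A B C ∪ Z)
    have := Finset.card_union_le (defective A B C) Z
    have := Finset.card_union_le (Finset.univ.filter (Own A) ∪ Finset.univ.filter (Own B))
      (Finset.univ.filter (Own C))
    have := Finset.card_union_le (Finset.univ.filter (Own A)) (Finset.univ.filter (Own B))
    have : ({oneChar G} : Finset (IrrCharacter G)).card = 1 := Finset.card_singleton _
    omega

end CfsgLib.TISuzuki
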